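import Cfsg.Agent.H20.AbFix
import Cfsg.Agent.H4.ZStar2

/-! A 2-element centralizing an abelian Sylow 2-subgroup of a normal subgroup with trivial core. -/

set_option autoImplicit false
set_option linter.style.haveILetI false

namespace Cfsg.Agent.H20.AbFix

open Subgroup

universe u

/-- `N ⊴ A`, `A = N⟨a⟩`, `a` a 2-element centralizing the abelian Sylow 2-subgroup `P` of `N`, `O(A) = 1`:
some element of `aP` is central in `A`. -/
theorem exists_central {A : Type u} [Group A] [Finite A] {N : Subgroup A} [hNn : N.Normal] (hO : oddCore A = ⊥)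
    {P : Subgroup A} (hPN : P ≤ N) (hP2 : IsPGroup 2 P) (hPodd : Odd (P.relIndex N))
    (hab : ∀ x ∈ P, ∀ y ∈ P, x * y = y * x) {a : A} (ha2 : ∃ j : ℕ, a ^ 2 ^ j = 1)
    (hac : ∀ x ∈ P, a * x = x * a) (hgen : N ⊔ zpowers a = ⊤) :
    ∃ z ∈ P, ∀ g : A, g * (a * z) * g⁻¹ = a * z := by
  haveI : Fact (Nat.Prime 2) := ⟨Nat.prime_two⟩
  set T : Subgroup A := P ⊔ zpowers a with hT
  have haN : zpowers a ≤ normalizer (P : Set A) := by
    rw [zpowers_le]
    rw [mem_normalizer_iff]
    intro h
    constructor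
    · intro hh
      rw [hac h hh]; simpa using hh
    · intro hh
      have h1 : a * (a * h * a⁻¹) = (a * h * a⁻¹) * a := hac _ hh
      have h2 : h = a * h * a⁻¹ := by
        have : a * h * a⁻¹ * a = a * h := by group
        rw [this] at h1
        have := mul_left_cancel h1
        exact this.symm
      rw [h2]; exact hh
  have hcomT : ∀ x ∈ T, ∀ y ∈ T, x * y = y * x := by
    have h1 : T ≤ centralizer (T : Set A) := by
      have hPc : P ≤ centralizer (T : Set A) := by
        rw [hT, le_centralizer_iff, sup_le_iff]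
        constructor
        · intro x hx
          rw [mem_centralizer_iff]
          intro y hy; exact hab y hy x hx
        · rw [zpowers_le, mem_centralizer_iff]
          intro y hy; exact (hac y hy).symm
      have hac' : zpowers a ≤ centralizer (T : Set A) := by
        rw [hT, le_centralizer_iff, sup_le_iff]
        constructor
        · intro x hx
          rw [mem_centralizer_iff]
          intro y hy
          obtain ⟨k, rfl⟩ := mem_zpowers_iff.1 hy
          have : Commute a x := hac x hx
          exact (this.zpow_left k).eq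
        · intro x hx
          rw [mem_centralizer_iff]
          intro y hy
          obtain ⟨k, rfl⟩ := mem_zpowers_iff.1 hy
          obtain ⟨l, rfl⟩ := mem_zpowers_iff.1 hx
          exact (Commute.zpow_zpow_self a k l).eq
      exact sup_le hPc hac'
    intro x hx y hy
    exact ((mem_centralizer_iff.1 (h1 hy)) x hx)
  have hT2 : IsPGroup 2 T := by
    obtain ⟨j, hj⟩ := ha2
    have h1 : IsPGroup 2 (zpowers a) := by
      intro x
      obtain ⟨k, hk⟩ := mem_zpowers_iff.1 x.2
      refine ⟨j, ?_⟩
      apply Subtype.ext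
      rw [coe_pow, ← hk, ← zpow_natCast, ← zpow_mul, mul_comm, zpow_mul, zpow_natCast, hj, one_zpow, coe_one]
    exact hP2.to_sup_of_normal_left' h1 haN
  have hTN : T ⊓ N = P := by
    have h1 : P ≤ T ⊓ N := le_inf le_sup_left hPN
    have h2 : IsPGroup 2 (T ⊓ N : Subgroup A) := hT2.to_le inf_le_left
    by_contra hne
    have h3 : P.relIndex (T ⊓ N) ≠ 1 := by
      rw [Ne, relIndex_eq_one]
      exact fun h => hne (le_antisymm h h1)
    obtain ⟨n, hn⟩ := (IsPGroup.iff_card.1 h2)
    have h4 : P.relIndex (T ⊓ N) ∣ 2 ^ n := by rw [← hn]; exact relIndex_dvd_card _ _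
    obtain ⟨m, hm, hm2⟩ := (Nat.dvd_prime_pow Nat.prime_two).1 h4
    have h5 : P.relIndex (T ⊓ N) ∣ P.relIndex N :=
      ⟨_, (relIndex_mul_relIndex P (T ⊓ N) N h1 inf_le_right).symm⟩
    have h6 : 2 ∣ P.relIndex (T ⊓ N) := by
      rw [hm2]
      apply dvd_pow_self
      rintro rfl
      exact h3 hm2
    exact (Nat.not_even_iff_odd.2 hPodd) (even_iff_two_dvd.2 (h6.trans h5))
  have hTidx : T.index = P.relIndex N := by
    have e1 : Nat.card T * T.index = Nat.card A := card_mul_index T
    have e2 : Nat.card N * N.index = Nat.card A := card_mul_index N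
    have hsup : T ⊔ N = ⊤ := by
      rw [← top_le_iff, ← hgen]
      exact sup_le le_sup_right (le_sup_right.trans le_sup_left)
    have e3 : N.relIndex T = N.index := by
      rw [← relIndex_sup_right T N, hsup, relIndex_top_right]
    have e4 : Nat.card P * P.relIndex N = Nat.card N := by
      rw [← relIndex_bot_left, ← relIndex_bot_left, relIndex_mul_relIndex _ _ _ bot_le hPN]
    have e5 : Nat.card P * N.relIndex T = Nat.card T := by
      have h1 : N.relIndex T = P.relIndex T := by
        rw [← hTN, inf_comm, inf_relIndex_right]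
      rw [h1, ← relIndex_bot_left, ← relIndex_bot_left,
        relIndex_mul_relIndex _ _ _ bot_le (hTN ▸ inf_le_left)]
    have hTpos : 0 < Nat.card T := Nat.card_pos
    apply Nat.eq_of_mul_eq_mul_left hTpos
    rw [e1, ← e2, ← e3, ← e4, ← e5]; ring
  set TS : Sylow 2 A := hT2.toSylow (by
    rw [hTidx]
    intro hd
    exact (Nat.not_even_iff_odd.2 hPodd) (even_iff_two_dvd.2 hd)) with hTS
  have hTSc : (TS : Subgroup A) = T := rfl
  have haT : a ∈ T := (le_sup_right : zpowers a ≤ T) (mem_zpowers a)
  have hcomm : ∀ g : A, a⁻¹ * (g * a * g⁻¹) ∈ N := by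
    have h1 : (⊤ : Subgroup A) ≤ (centralizer ({QuotientGroup.mk' N a} : Set (A ⧸ N))).comap (QuotientGroup.mk' N) := by
      rw [← hgen]
      apply sup_le
      · intro x hx
        rw [mem_comap, (QuotientGroup.eq_one_iff x).2 hx |> (fun h => (show QuotientGroup.mk' N x = 1 from h))]
        exact one_mem _
      · rw [zpowers_le, mem_comap, mem_centralizer_singleton_iff]
    intro g
    have h2 := h1 (mem_top g)
    rw [mem_comap, mem_centralizer_singleton_iff] at h2
    rw [← QuotientGroup.eq_one_iff]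
    have h3 : ((a⁻¹ * (g * a * g⁻¹) : A) : A ⧸ N) = QuotientGroup.mk' N (a⁻¹ * (g * a * g⁻¹)) := rfl
    rw [h3, map_mul, map_mul, map_mul, h2, map_inv, map_inv]; group
  set Hn : Subgroup A := normalizer (T : Set A) with hHn
  have hTH : T ≤ Hn := le_normalizer
  haveI hTn : (T.subgroupOf Hn).Normal := by rw [hHn]; infer_instance
  have hidx : (T.subgroupOf Hn).index ∣ T.index := relIndex_dvd_index_of_le hTH
  have hc : (Nat.card (T.subgroupOf Hn)).Coprime (T.subgroupOf Hn).index := by
    have h1 : Nat.card (T.subgroupOf Hn) = Nat.card T := Nat.card_congr (subgroupOfEquivOfLe hTH).toEquiv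
    rw [h1]
    obtain ⟨n, hn⟩ := IsPGroup.iff_card.1 hT2
    rw [hn]
    apply Nat.Coprime.pow_left
    rw [Nat.coprime_two_left]
    exact Odd.of_dvd_nat (hTidx ▸ hPodd) hidx
  obtain ⟨β, hβT, hβD, hβf⟩ := exists_fixed (H := Hn) (T := T.subgroupOf Hn) (D := P.subgroupOf Hn)
    (a := ⟨a, hTH haT⟩) (by
      intro x hx y hy
      exact Subtype.ext (hcomT x hx y hy)) hc (by rw [mem_subgroupOf]; exact haT) (by
      intro h
      rw [mem_subgroupOf, ← hTN]
      refine ⟨?_, ?_⟩
      · simp only [coe_mul, coe_inv]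
        exact T.mul_mem (T.inv_mem haT) ((mem_normalizer_iff.1 h.2 a).1 haT)
      · simpa using hcomm h)
  rw [mem_subgroupOf] at hβT hβD
  refine ⟨(a⁻¹ * (β : A)), by simpa using hβD, ?_⟩
  have e0 : a * (a⁻¹ * (β : A)) = β := by group
  rw [e0]
  have hiso : ∀ g : A, g * (β : A) * g⁻¹ ∈ (TS : Subgroup A) → g * (β : A) * g⁻¹ = β := by
    intro g hg
    haveI : IsMulCommutative (TS : Subgroup A) := ⟨⟨fun x y => Subtype.ext (hcomT x x.2 y y.2)⟩⟩
    obtain ⟨n, hn, hne⟩ := TS.conj_eq_normalizer_conj_of_mem (β : A) g⁻¹ hβT (by rw [inv_inv]; exact hg)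
    rw [inv_inv] at hne
    rw [hne]
    have h1 := hβf ⟨n⁻¹, inv_mem hn⟩
    have h2 := congrArg Subtype.val h1
    simpa using h2
  intro g
  have h1 := H4.zstar_elt TS (x := (β : A)) hβT hiso g
  rw [hO, mem_bot, mul_inv_eq_one, mul_inv_eq_iff_eq_mul] at h1
  rw [← h1]; group

end Cfsg.Agent.H20.AbFix
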