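import Mathlib

/-! Fixed points in a coset of an abelian normal Hall subgroup. -/

set_option autoImplicit false
set_option linter.style.haveILetI false

namespace Cfsg.Agent.H20.AbFix

open Subgroup

variable {H : Type*} [Group H] [Finite H]

/-- `T` an abelian normal Hall subgroup of `H`, `a ∈ T` with `[a, H] ≤ D ≤ T`: some element of `aD` is
central in `H`. -/
theorem exists_fixed {T : Subgroup H} [hTn : T.Normal] (hab : ∀ x ∈ T, ∀ y ∈ T, x * y = y * x)
    (hc : (Nat.card T).Coprime T.index) {D : Subgroup H} {a : H} (ha : a ∈ T)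
    (hD : ∀ h : H, a⁻¹ * (h * a * h⁻¹) ∈ D) :
    ∃ β ∈ T, a⁻¹ * β ∈ D ∧ ∀ h : H, h * β * h⁻¹ = β := by
  classical
  obtain ⟨K, hK⟩ := exists_right_complement'_of_coprime hc
  letI : CommGroup T := { (inferInstance : Group T) with mul_comm := fun x y => Subtype.ext (hab x x.2 y y.2) }
  haveI := Fintype.ofFinite K
  set a' : T := ⟨a, ha⟩ with ha'
  set β0 : T := ∏ k : K, MulAut.conjNormal (k : H) a' with hβ0
  have hinv : ∀ h ∈ K, h * (β0 : H) * h⁻¹ = β0 := by
    intro h hh
    have e1 : (MulAut.conjNormal h β0 : T) = β0 := by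
      have e2 : (MulAut.conjNormal h β0 : T) = ∏ k : K, MulAut.conjNormal h (MulAut.conjNormal (k : H) a') := by
        rw [hβ0]
        exact map_prod (MulAut.conjNormal h : T ≃* T).toMonoidHom _ _
      rw [e2, hβ0]
      apply Fintype.prod_equiv (Equiv.mulLeft (⟨h, hh⟩ : K))
      intro k
      rw [← MulAut.mul_apply, ← map_mul]
      rfl
    have e3 := congrArg (Subtype.val) e1
    rwa [MulAut.conjNormal_apply] at e3
  set D' : Subgroup T := D.subgroupOf T with hD'
  have hmk : (QuotientGroup.mk' D' β0) = (QuotientGroup.mk' D' a') ^ Nat.card K := by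
    rw [hβ0, map_prod]
    rw [Finset.prod_congr rfl (g := fun _ => QuotientGroup.mk' D' a')]
    · rw [Finset.prod_const, Finset.card_univ, Nat.card_eq_fintype_card]
    · intro k _
      symm
      rw [QuotientGroup.mk'_apply, QuotientGroup.mk'_apply, QuotientGroup.eq]
      rw [hD', mem_subgroupOf]
      have := hD k
      simpa [MulAut.conjNormal_apply] using this
  have hcop : (Nat.card K).Coprime (orderOf a') := by
    have h1 : T.index = Nat.card K := hK.symm.index_eq_card
    rw [← h1]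
    exact (Nat.Coprime.coprime_dvd_left (orderOf_dvd_natCard a') hc).symm
  obtain ⟨j, hj⟩ : ∃ j : ℕ, a' ^ (Nat.card K * j) = a' := by
    obtain ⟨j, hj⟩ := exists_pow_eq_self_of_coprime (x := a') (n := Nat.card K) hcop
    exact ⟨j, by rw [pow_mul]; exact hj⟩
  refine ⟨((β0 ^ j : T) : H), (β0 ^ j).2, ?_, ?_⟩
  · have h1 : QuotientGroup.mk' D' (β0 ^ j) = QuotientGroup.mk' D' a' := by
      rw [map_pow, hmk, ← pow_mul, ← map_pow, hj]
    have h2 := h1.symm
    rw [QuotientGroup.mk'_apply, QuotientGroup.mk'_apply, QuotientGroup.eq, hD', mem_subgroupOf] at h2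
    simpa using h2
  · intro h
    have hβ1 : ∀ h ∈ K, h * ((β0 ^ j : T) : H) * h⁻¹ = ((β0 ^ j : T) : H) := by
      intro h hh
      have h1 := hinv h hh
      have h2 : h * ((β0 ^ j : T) : H) * h⁻¹ = (h * (β0 : H) * h⁻¹) ^ j := by
        rw [conj_pow]; norm_cast
      rw [h2, h1]; norm_cast
    obtain ⟨⟨t, k⟩, htk⟩ := hK.2 h
    simp only at htk
    have e1 : h * ((β0 ^ j : T) : H) * h⁻¹ = t * (k * ((β0 ^ j : T) : H) * (k : H)⁻¹) * (t : H)⁻¹ := by
      rw [← htk]; group
    rw [e1, hβ1 k k.2, hab t t.2 _ (β0 ^ j).2]; group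

end Cfsg.Agent.H20.AbFix
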