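import Cfsg.Agent.H4.ZStarF
import Cfsg.Agent.H4.Isolated
import Cfsg.Agent.H2.Hall
import Cfsg.Agent.H2.Fusion

set_option autoImplicit false
set_option linter.unusedSectionVars false
set_option linter.style.haveILetI false
set_option linter.unusedVariables false

/-! Abelian Sylow 2-subgroups and the Z*-theorem. -/

namespace Cfsg.Agent.H20

open Cfsg

universe u

/-- with an abelian Sylow 2-subgroup, trivial odd core and trivial centre, the Sylow 2-subgroup
lies in the derived group. -/
theorem le_commutator_of_abelian_sylow {X : Type u} [Group X] [Finite X] (T : Sylow 2 X)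
    (hT : IsMulCommutative (T : Subgroup X)) (hO : oddCore X = ⊥) (hZ : Subgroup.center X = ⊥) :
    (T : Subgroup X) ≤ commutator X := by
  obtain ⟨h1, -⟩ := H2.sylow_abelian_decomp T hT
  have h2 := H2.commutator_inf_sylow_eq_of_abelian T hT
  have h3 : (T : Subgroup X) ⊓ Subgroup.centralizer ((Subgroup.normalizer (T : Set X) : Subgroup X) : Set X) = ⊥ := by
    by_contra hne
    obtain ⟨C, hC⟩ : ∃ C : Subgroup X, C = (T : Subgroup X) ⊓
      Subgroup.centralizer ((Subgroup.normalizer (T : Set X) : Subgroup X) : Set X) := ⟨_, rfl⟩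
    rw [← hC] at hne
    have hCp : IsPGroup 2 C := T.isPGroup'.to_le (by rw [hC]; exact inf_le_left)
    have hdvd : 2 ∣ Nat.card C := by
      obtain ⟨n, hn⟩ := IsPGroup.iff_card.mp hCp
      rw [hn]
      have : n ≠ 0 := by
        intro h
        rw [h, pow_zero] at hn
        exact hne (Subgroup.card_eq_one.mp hn)
      exact dvd_pow_self 2 this
    obtain ⟨w, hw⟩ := exists_prime_orderOf_dvd_card' 2 hdvd
    have hwo : orderOf (w : X) = 2 := by rw [Subgroup.orderOf_coe, hw]
    have hwC : (w : X) ∈ (T : Subgroup X) ⊓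
        Subgroup.centralizer ((Subgroup.normalizer (T : Set X) : Subgroup X) : Set X) := by
      rw [← hC]; exact w.2
    have hiso : IsIsolatedInvolution (w : X) := by
      apply H4.isolated_of_sylow T hwo
      intro g hg
      obtain ⟨n, hn, hn2⟩ := H2.controlsFusion_normalizer_of_abelian T hT (w : X) hwC.1 g hg
      rw [← hn2]
      have h5 := Subgroup.mem_centralizer_iff.mp hwC.2 n hn
      rw [h5, mul_inv_cancel_right]
    have hz := H4.zstar_central hO hiso
    rw [hZ, Subgroup.mem_bot] at hz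
    rw [hz, orderOf_one] at hwo
    omega
  rw [h3, sup_bot_eq, ← h2] at h1
  intro x hx
  rw [← h1] at hx
  exact hx.1

/-- the index of `P` in `N P` for normal `N` -/
theorem relIndex_sup_normal {A : Type u} [Group A] [Finite A] (N : Subgroup A) [hN : N.Normal] (P : Subgroup A) :
    P.relIndex (N ⊔ P) = P.relIndex N := by
  have h1 : Nat.card (N ⊔ P : Subgroup A) = Nat.card N * N.relIndex P := by
    rw [← Subgroup.relIndex_bot_left, ← Subgroup.relIndex_bot_left,
      ← Subgroup.relIndex_sup_left (H := P), Subgroup.relIndex_mul_relIndex _ _ _ bot_le le_sup_left]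
  have h2 : Nat.card P = Nat.card (N ⊓ P : Subgroup A) * N.relIndex P := by
    rw [← Subgroup.inf_relIndex_right N P, ← Subgroup.relIndex_bot_left, ← Subgroup.relIndex_bot_left,
      Subgroup.relIndex_mul_relIndex _ _ _ bot_le inf_le_right]
  have h3 : Nat.card (N ⊔ P : Subgroup A) = Nat.card P * P.relIndex (N ⊔ P) := by
    rw [← Subgroup.relIndex_bot_left, ← Subgroup.relIndex_bot_left,
      Subgroup.relIndex_mul_relIndex _ _ _ bot_le le_sup_right]
  have h4 : Nat.card N = Nat.card (N ⊓ P : Subgroup A) * P.relIndex N := by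
    rw [← Subgroup.inf_relIndex_left N P, ← Subgroup.relIndex_bot_left, ← Subgroup.relIndex_bot_left,
      Subgroup.relIndex_mul_relIndex _ _ _ bot_le inf_le_left]
  have hp1 : 0 < Nat.card (N ⊓ P : Subgroup A) := Nat.card_pos
  have hp2 : 0 < N.relIndex P := Nat.pos_of_dvd_of_pos (Subgroup.relIndex_dvd_card _ _) Nat.card_pos
  have h5 : (Nat.card (N ⊓ P : Subgroup A) * N.relIndex P) * P.relIndex (N ⊔ P) =
      (Nat.card (N ⊓ P : Subgroup A) * N.relIndex P) * P.relIndex N := by
    rw [← h2, ← h3, h1, h4, h2]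
    ring
  exact Nat.eq_of_mul_eq_mul_left (Nat.mul_pos hp1 hp2) h5

/-- an abelian 2-subgroup containing a Sylow 2-subgroup of a normal simple subgroup with trivial
centralizer lies in the simple subgroup. -/
theorem le_of_abelian {A : Type u} [Group A] [Finite A] (N : Subgroup A) [hN : N.Normal] [hs : IsSimpleGroup N]
    (heven : 2 ∣ Nat.card N) (hC : Subgroup.centralizer (N : Set A) = ⊥) (P : Subgroup A) (hP : IsPGroup 2 P)
    (hPc : ∀ x ∈ P, ∀ y ∈ P, x * y = y * x) (hSyl : ¬ 2 ∣ P.relIndex N) : P ≤ N := by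
  classical
  haveI : Fact (Nat.Prime 2) := ⟨Nat.prime_two⟩
  obtain ⟨X, hX⟩ : ∃ X : Subgroup A, X = N ⊔ P := ⟨_, rfl⟩
  have hNX : N ≤ X := by rw [hX]; exact le_sup_left
  have hPX : P ≤ X := by rw [hX]; exact le_sup_right
  -- P is Sylow in X
  have hidx : P.relIndex X = P.relIndex N := by rw [hX]; exact relIndex_sup_normal N P
  have hPS : ∃ T : Sylow 2 X, (T : Subgroup X) = P.subgroupOf X := by
    have hp : IsPGroup 2 (P.subgroupOf X) := hP.comap_subtype
    refine ⟨hp.toSylow ?_, ?_⟩
    · change ¬ 2 ∣ P.relIndex X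
      rw [hidx]; exact hSyl
    · rfl
  obtain ⟨T, hT⟩ := hPS
  have hTc : IsMulCommutative (T : Subgroup X) := by
    rw [isMulCommutative_iff]
    intro x y
    apply Subtype.ext
    apply Subtype.ext
    have hx : ((x : X) : A) ∈ P := Subgroup.mem_subgroupOf.mp (hT.le x.2)
    have hy : ((y : X) : A) ∈ P := Subgroup.mem_subgroupOf.mp (hT.le y.2)
    exact hPc _ hx _ hy
  have hNX' : (N.subgroupOf X).Normal := hN.subgroupOf X
  -- normal subgroups of X meeting N trivially are trivial
  have hcen : ∀ x : X, (∀ y ∈ N, y * (x : A) = (x : A) * y) → x = 1 := by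
    intro x hx
    have h1 : (x : A) ∈ Subgroup.centralizer (N : Set A) := by
      rw [Subgroup.mem_centralizer_iff]
      exact hx
    rw [hC, Subgroup.mem_bot] at h1
    exact Subtype.ext h1
  have hO : oddCore X = ⊥ := by
    apply H4.oddCore_eq_bot_of
    intro M hM hodd
    rw [Subgroup.eq_bot_iff_forall]
    intro m hm
    apply hcen
    intro y hy
    -- M ∩ N as a subgroup of N
    have hK : ((M.map X.subtype).subgroupOf N).Normal := by
      constructor
      intro n hn g
      rw [Subgroup.mem_subgroupOf] at hn ⊢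
      obtain ⟨k, hk, hk2⟩ := hn
      refine ⟨(⟨g, hNX g.2⟩ : X) * k * (⟨g, hNX g.2⟩ : X)⁻¹, hM.conj_mem k hk _, ?_⟩
      simp only [map_mul, map_inv, Subgroup.coe_subtype]
      rw [Subgroup.coe_subtype] at hk2
      rw [hk2]
      rfl
    have hbot : (M.map X.subtype).subgroupOf N = ⊥ := by
      rcases hK.eq_bot_or_eq_top with h | h
      · exact h
      · exfalso
        rw [Subgroup.subgroupOf_eq_top] at h
        have h1 : Nat.card N ∣ Nat.card M := by
          rw [Nat.card_congr (M.equivMapOfInjective X.subtype X.subtype_injective).toEquiv]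
          exact Subgroup.card_dvd_of_le h
        have h2 : 2 ∣ Nat.card M := dvd_trans heven h1
        exact (Nat.not_even_iff_odd.mpr hodd) (even_iff_two_dvd.mpr h2)
    have h1 : y * (m : A) * y⁻¹ * (m : A)⁻¹ ∈ N := by
      have h2 : y * (m : A) * y⁻¹ * (m : A)⁻¹ = y * ((m : A) * y⁻¹ * (m : A)⁻¹) := by group
      rw [h2]
      exact mul_mem hy (hN.conj_mem _ (inv_mem hy) _)
    have h3 : y * (m : A) * y⁻¹ * (m : A)⁻¹ ∈ M.map X.subtype := by
      refine ⟨(⟨y, hNX hy⟩ : X) * m * (⟨y, hNX hy⟩ : X)⁻¹ * m⁻¹, mul_mem (hM.conj_mem m hm _) (inv_mem hm), ?_⟩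
      simp
    have h4 : (⟨_, h1⟩ : N) ∈ (M.map X.subtype).subgroupOf N := by
      rw [Subgroup.mem_subgroupOf]; exact h3
    rw [hbot, Subgroup.mem_bot] at h4
    have h5 : y * (m : A) * y⁻¹ * (m : A)⁻¹ = 1 := congrArg Subtype.val h4
    rw [mul_inv_eq_one, mul_inv_eq_iff_eq_mul] at h5
    exact h5
  have hZ : Subgroup.center X = ⊥ := by
    rw [Subgroup.eq_bot_iff_forall]
    intro z hz
    apply hcen
    intro y hy
    have := (Subgroup.mem_center_iff.mp hz) ⟨y, hNX hy⟩
    exact congrArg Subtype.val this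
  have h1 := le_commutator_of_abelian_sylow T hTc hO hZ
  -- commutator of X lies in N
  have h2 : commutator X ≤ N.subgroupOf X := by
    rw [commutator_def, Subgroup.commutator_le]
    intro x _ y _
    have key : ∀ z : X, ∃ n ∈ N, ∃ p ∈ P, (z : A) = n * p := by
      intro z
      have hz : (z : A) ∈ N ⊔ P := by rw [← hX]; exact z.2
      obtain ⟨n, hn, p, hp, h⟩ := Subgroup.mem_sup_of_normal_left.mp hz
      exact ⟨n, hn, p, hp, h.symm⟩
    obtain ⟨n, hn, p, hp, hx⟩ := key x
    obtain ⟨m, hm, q, hq, hy⟩ := key y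
    rw [Subgroup.mem_subgroupOf]
    have hq' : QuotientGroup.mk' N ((x * y * x⁻¹ * y⁻¹ : X) : A) = 1 := by
      have e : ((x * y * x⁻¹ * y⁻¹ : X) : A) = (x : A) * (y : A) * (x : A)⁻¹ * (y : A)⁻¹ := rfl
      rw [e, hx, hy]
      have e1 : QuotientGroup.mk' N n = 1 := (QuotientGroup.eq_one_iff n).mpr hn
      have e2 : QuotientGroup.mk' N m = 1 := (QuotientGroup.eq_one_iff m).mpr hm
      simp only [map_mul, map_inv, e1, e2, one_mul]
      rw [← map_mul, hPc p hp q hq, map_mul]
      group
    exact (QuotientGroup.eq_one_iff _).mp hq'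
  intro x hx
  have h3 : (⟨x, hPX hx⟩ : X) ∈ (T : Subgroup X) := by
    rw [hT, Subgroup.mem_subgroupOf]; exact hx
  exact Subgroup.mem_subgroupOf.mp (h2 (h1 h3))

end Cfsg.Agent.H20
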