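import Cfsg.Agent.H27.Ch12D
import Cfsg.Agent.H3.Gallagher2

/-! # Prime character degrees (helper20) -/

set_option autoImplicit false
set_option linter.style.haveILetI false
set_option linter.unusedSectionVars false
open Cfsg
open scoped ComplexConjugate

namespace Cfsg.Agent.H20.CD

open Cfsg.Agent.H3 Cfsg.Agent.H27 Subgroup

universe u

theorem three_of_sub {s : Set ℕ} {a b c : ℕ} (h : ∀ d ∈ s, d = a ∨ d = b ∨ d = c) :
    Nat.card ↥s ≤ 3 := by
  have h1 : s ⊆ ({a, b, c} : Set ℕ) := by
    intro d hd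
    rcases h d hd with h | h | h <;> simp [h]
  have h2 : s.ncard ≤ ({a, b, c} : Set ℕ).ncard := Set.ncard_le_ncard h1 (Set.toFinite _)
  rw [← Nat.card_coe_set_eq] at h2
  refine h2.trans ?_
  refine (Set.ncard_insert_le _ _).trans ?_
  have := Set.ncard_insert_le b ({c} : Set ℕ)
  rw [Set.ncard_singleton] at this
  omega

theorem prime_degrees {G : Type u} [Group G] [Finite G] (hs : Group.IsSolvable G)
    (hprime : ∀ χ : IrrCharacter G, charDegree (χ : G → ℂ) = 1 ∨ (charDegree (χ : G → ℂ)).Prime) :
    ∃ a b c : ℕ, ∀ χ : IrrCharacter G, charDegree (χ : G → ℂ) = a ∨ charDegree (χ : G → ℂ) = b ∨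
      charDegree (χ : G → ℂ) = c := by
  classical
  haveI := Fintype.ofFinite G
  by_cases hna : ∃ a b : G, a * b ≠ b * a
  swap
  · push Not at hna
    refine ⟨1, 1, 1, fun χ => Or.inl ?_⟩
    haveI : IsMulCommutative G := ⟨⟨hna⟩⟩
    have h1 := irr_degree_one_of_comm χ.2
    rw [← charDegree_cast (irr_isChar χ.2)] at h1
    exact_mod_cast h1
  rcases exists_quot hs hna with ⟨K, hK, hKna, p, k, hp, hKi⟩ | ⟨K, N, hF, hNt, r, k, hr, hri⟩
  · -- p-group quotient
    obtain ⟨β, hβK, hβ1, hβd⟩ := exists_nonlinear hK hKna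
    have hβp : (charDegree (β : G → ℂ)).Prime := (hprime β).resolve_left hβ1
    have hβe : charDegree (β : G → ℂ) = p := by
      rw [hKi] at hβd
      exact (Nat.prime_dvd_prime_iff_eq hβp hp).mp (hβp.dvd_of_dvd_pow hβd)
    refine ⟨1, p, p, fun χ => ?_⟩
    rcases hprime χ with h | h
    · exact Or.inl h
    right; left
    by_contra hne
    have hcop : (charDegree (χ : G → ℂ)).Coprime K.index := by
      rw [hKi]
      exact Nat.Coprime.pow_right _ ((Nat.coprime_primes h hp).mpr hne)
    have hirr := restrict_irr_of_coprime hK χ.2 hcop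
    haveI := Fintype.ofFinite K
    obtain ⟨-, k2, -, -⟩ := gallagher_one hK χ.2 hirr
    have h1 := k2 β β.2 (fun n => by simpa using hβK n n.2)
    have h2 := charDegree_cast (irr_isChar h1)
    rw [Pi.mul_apply, ← charDegree_cast (irr_isChar β.2), ← charDegree_cast (irr_isChar χ.2)] at h2
    have h3 : charDegree ((β : G → ℂ) * (χ : G → ℂ)) =
        charDegree (β : G → ℂ) * charDegree (χ : G → ℂ) := by exact_mod_cast h2
    rcases hprime ⟨_, h1⟩ with h4 | h4
    · have h5 : charDegree ((β : G → ℂ) * (χ : G → ℂ)) = 1 := h4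
      rw [h3] at h5
      exact h.ne_one (Nat.eq_one_of_mul_eq_one_left h5)
    · have h5 : (charDegree ((β : G → ℂ) * (χ : G → ℂ))).Prime := h4
      rw [h3] at h5
      exact Nat.not_prime_mul hβp.ne_one h.ne_one h5
  · -- Frobenius quotient
    have hf : N.index.Prime := by
      obtain ⟨χ, hχ⟩ := hF.exists_index
      rcases hprime χ with h | h
      · exfalso
        rw [h] at hχ
        exact hNt (index_eq_one.mp hχ.symm)
      · rwa [hχ] at h
    refine ⟨1, N.index, r, fun χ => ?_⟩
    obtain ⟨ψ, hψ, -, hd, hd2⟩ := exists_under hF.nN χ.2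
    have hψpos : charDegree ψ ≠ 0 := by
      intro h0
      have h1 := charDegree_cast (irr_isChar hψ)
      rw [h0, Nat.cast_zero] at h1
      exact irr_one_ne_zero hψ h1.symm
    rcases hF.alt hψ with ⟨χ', hχ'⟩ | ⟨-, hdv⟩
    · have hψ1 : charDegree ψ = 1 := by
        by_contra hne
        rcases hprime χ' with h | h
        · rw [h] at hχ'
          exact hf.ne_one (Nat.eq_one_of_mul_eq_one_right hχ'.symm)
        · rw [hχ'] at h
          exact Nat.not_prime_mul hf.ne_one hne h
      rw [hψ1, Nat.div_one] at hd2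
      rcases (Nat.dvd_prime hf).mp hd2 with h | h
      · exact Or.inl h
      · exact Or.inr (Or.inl h)
    · have hk : k ≠ 0 := by
        rintro rfl
        rw [pow_zero, relIndex_eq_one] at hri
        exact hF.ne hri
      have h1 : r ∣ charDegree ψ := by
        rw [hri] at hdv
        exact hr.dvd_of_dvd_pow ((dvd_pow_self r hk).trans hdv)
      have h2 : r ∣ charDegree (χ : G → ℂ) := h1.trans hd
      rcases hprime χ with h | h
      · rw [h] at h2
        exact absurd (Nat.dvd_one.mp h2) hr.ne_one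
      · right; right
        exact ((Nat.prime_dvd_prime_iff_eq hr h).mp h2).symm

end Cfsg.Agent.H20.CD
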