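import Mathlib

set_option autoImplicit false
set_option linter.all false

/-!
# Groups of central type: the inductive construction (Dade)
-/

namespace Cfsg.Agent.H20.CT

open Finset

universe u

/-- the twisted wreath product -/
@[ext]
structure HX (X : Type u) (p : ℕ) where
  f : ZMod p → X
  a : ZMod p
  b : ZMod p
  c : ZMod p

namespace HX

variable {X : Type u} [Group X] {p : ℕ}

instance : Mul (HX X p) where
  mul x y := ⟨fun i => x.f i * y.f (i - x.a), x.a + y.a, x.b + y.b, x.c + y.c + x.a * y.b⟩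

instance : One (HX X p) where one := ⟨fun _ => 1, 0, 0, 0⟩

instance : Inv (HX X p) where
  inv x := ⟨fun i => (x.f (i + x.a))⁻¹, -x.a, -x.b, -x.c + x.a * x.b⟩

@[simp] theorem mul_f (x y : HX X p) (i : ZMod p) : (x * y).f i = x.f i * y.f (i - x.a) := rfl
@[simp] theorem mul_a (x y : HX X p) : (x * y).a = x.a + y.a := rfl
@[simp] theorem mul_b (x y : HX X p) : (x * y).b = x.b + y.b := rfl
@[simp] theorem mul_c (x y : HX X p) : (x * y).c = x.c + y.c + x.a * y.b := rfl
@[simp] theorem one_f (i : ZMod p) : (1 : HX X p).f i = 1 := rfl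
@[simp] theorem one_a : (1 : HX X p).a = 0 := rfl
@[simp] theorem one_b : (1 : HX X p).b = 0 := rfl
@[simp] theorem one_c : (1 : HX X p).c = 0 := rfl
@[simp] theorem inv_f (x : HX X p) (i : ZMod p) : x⁻¹.f i = (x.f (i + x.a))⁻¹ := rfl
@[simp] theorem inv_a (x : HX X p) : x⁻¹.a = -x.a := rfl
@[simp] theorem inv_b (x : HX X p) : x⁻¹.b = -x.b := rfl
@[simp] theorem inv_c (x : HX X p) : x⁻¹.c = -x.c + x.a * x.b := rfl

instance : Group (HX X p) where
  mul_assoc x y z := by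
    ext i
    · simp only [mul_f, mul_a, mul_assoc, sub_sub]
    · simp only [mul_a]; ring
    · simp only [mul_b]; ring
    · simp only [mul_c, mul_a, mul_b]; ring
  one_mul x := by ext <;> simp
  mul_one x := by ext <;> simp
  inv_mul_cancel x := by
    ext i
    · simp
    · simp
    · simp
    · simp only [mul_c, inv_c, inv_a, one_c]; ring

/-- underlying product -/
def equivProd (X : Type u) (p : ℕ) :
    HX X p ≃ (ZMod p → X) × ZMod p × ZMod p × ZMod p where
  toFun x := (x.f, x.a, x.b, x.c)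
  invFun x := ⟨x.1, x.2.1, x.2.2.1, x.2.2.2⟩
  left_inv _ := rfl
  right_inv _ := rfl

instance [Finite X] [NeZero p] : Finite (HX X p) := Finite.of_equiv _ (equivProd X p).symm

/-- the subgroup over `Z` -/
def hz (Z : Subgroup X) : Subgroup (HX X p) where
  carrier := {x | (∀ i, x.f i ∈ Z) ∧ x.a = 0 ∧ x.b = 0}
  mul_mem' {x y} hx hy := ⟨fun i => Z.mul_mem (hx.1 i) (hy.1 _), by simp [hx.2.1, hy.2.1],
    by simp [hx.2.2, hy.2.2]⟩
  one_mem' := ⟨fun i => Z.one_mem, rfl, rfl⟩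
  inv_mem' {x} hx := ⟨fun i => Z.inv_mem (hx.1 _), by simp [hx.2.1], by simp [hx.2.2]⟩

theorem mem_hz {Z : Subgroup X} {x : HX X p} :
    x ∈ hz (p := p) Z ↔ (∀ i, x.f i ∈ Z) ∧ x.a = 0 ∧ x.b = 0 := Iff.rfl

theorem mk_mem {Z : Subgroup X} {x : HX X p} (h1 : ∀ i, x.f i ∈ Z) (h2 : x.a = 0) (h3 : x.b = 0) :
    x ∈ hz (p := p) Z := ⟨h1, h2, h3⟩

theorem mf {Z : Subgroup X} {x : HX X p} (h : x ∈ hz (p := p) Z) (i : ZMod p) : x.f i ∈ Z := h.1 i

theorem ma {Z : Subgroup X} {x : HX X p} (h : x ∈ hz (p := p) Z) : x.a = 0 := h.2.1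

theorem mb {Z : Subgroup X} {x : HX X p} (h : x ∈ hz (p := p) Z) : x.b = 0 := h.2.2

theorem hz_normal (Z : Subgroup X) [hZ : Z.Normal] : (hz (p := p) Z).Normal := by
  constructor
  rintro z ⟨h1, h2, h3⟩ g
  refine ⟨fun i => ?_, by simp [h2], by simp [h3]⟩
  simp only [mul_f, mul_a, inv_f, h2, add_zero, sub_add_cancel]
  exact hZ.conj_mem _ (h1 _) _

theorem index_hz [Finite X] [NeZero p] (Z : Subgroup X) :
    (hz (p := p) Z).index = Z.index ^ p * p ^ 2 := by
  have e : hz (p := p) Z ≃ (ZMod p → Z) × ZMod p :=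
    { toFun := fun x => (fun i => ⟨(x : HX X p).f i, x.2.1 i⟩, (x : HX X p).c)
      invFun := fun y => ⟨⟨fun i => y.1 i, 0, 0, y.2⟩, fun i => (y.1 i).2, rfl, rfl⟩
      left_inv := fun x => by
        apply Subtype.ext
        exact HX.ext rfl x.2.2.1.symm x.2.2.2.symm rfl
      right_inv := fun _ => rfl }
  have h1 := Subgroup.index_mul_card (hz (p := p) Z)
  rw [Nat.card_congr e, Nat.card_congr (equivProd X p)] at h1
  simp only [Nat.card_prod, Nat.card_fun, Nat.card_zmod] at h1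
  rw [← Subgroup.index_mul_card Z, mul_pow] at h1
  have h2 : 0 < Nat.card Z ^ p * p := by
    have h3 : 0 < Nat.card Z := Nat.card_pos
    have h4 : 0 < p := Nat.pos_of_ne_zero (NeZero.ne p)
    positivity
  apply Nat.eq_of_mul_eq_mul_right h2
  rw [h1]
  ring

variable [NeZero p] (Z : Subgroup X) (ω : Z →* ℂˣ) (ζ : Multiplicative (ZMod p) →* ℂˣ)

/-- the linear character -/
noncomputable def om : hz (p := p) Z →* ℂˣ where
  toFun x := (∏ i, ω ⟨(x : HX X p).f i, mf x.2 i⟩) * ζ (Multiplicative.ofAdd (x : HX X p).c)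
  map_one' := by
    have h1 : ∀ i, ω ⟨((1 : hz (p := p) Z) : HX X p).f i, mf (1 : hz (p := p) Z).2 i⟩ = 1 :=
      fun i => map_one ω
    simp only [h1, Finset.prod_const_one, one_mul]
    exact map_one ζ
  map_mul' x y := by
    have h1 : ∀ i, ω ⟨((x * y : hz (p := p) Z) : HX X p).f i, mf (x * y).2 i⟩ =
        ω ⟨(x : HX X p).f i, mf x.2 i⟩ * ω ⟨(y : HX X p).f i, mf y.2 i⟩ := by
      intro i
      rw [← map_mul]
      congr 1
      apply Subtype.ext
      have h3 : ((x * y : hz (p := p) Z) : HX X p).f i =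
        (x : HX X p).f i * (y : HX X p).f (i - (x : HX X p).a) := rfl
      simp only [h3, ma x.2, sub_zero]
      rfl
    have h2 : ((x * y : hz (p := p) Z) : HX X p).c = (x : HX X p).c + (y : HX X p).c := by
      show (x : HX X p).c + (y : HX X p).c + (x : HX X p).a * (y : HX X p).b = _
      rw [ma x.2, zero_mul, add_zero]
    simp only [h1]
    rw [h2, ofAdd_add, map_mul, Finset.prod_mul_distrib]
    exact mul_mul_mul_comm _ _ _ _

theorem om_apply (x : HX X p) (hx : x ∈ hz (p := p) Z) :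
    om Z ω ζ ⟨x, hx⟩ = (∏ i, ω ⟨x.f i, mf hx i⟩) * ζ (Multiplicative.ofAdd x.c) := rfl

theorem om_c (c : ZMod p) (hx : (⟨fun _ => 1, 0, 0, c⟩ : HX X p) ∈ hz (p := p) Z) :
    om Z ω ζ ⟨⟨fun _ => 1, 0, 0, c⟩, hx⟩ = ζ (Multiplicative.ofAdd c) := by
  rw [om_apply]
  have h1 : ∏ i, ω ⟨(⟨fun _ => 1, 0, 0, c⟩ : HX X p).f i, mf hx i⟩ = 1 :=
    Finset.prod_eq_one fun i _ => map_one ω
  rw [h1, one_mul]

end HX

/-- data of central type -/
structure CTD (X : Type u) [Group X] (Z : Subgroup X) (ω : Z →* ℂˣ) : Prop where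
  normal : Z.Normal
  inv : ∀ (g z : X) (hz : z ∈ Z) (hz' : g * z * g⁻¹ ∈ Z), ω ⟨g * z * g⁻¹, hz'⟩ = ω ⟨z, hz⟩
  star : ∀ x : X, x ∉ Z → ∃ (y z : X) (hz : z ∈ Z), x * y = y * x * z ∧ ω ⟨z, hz⟩ ≠ 1

theorem CTD.step {X : Type u} [Group X] {Z : Subgroup X} {ω : Z →* ℂˣ} (h : CTD X Z ω) {p : ℕ}
    [NeZero p] {ζ : Multiplicative (ZMod p) →* ℂˣ} (hζ : Function.Injective ζ) :
    CTD (HX X p) (HX.hz Z) (HX.om Z ω ζ) := by
  classical
  have hn := h.normal
  refine ⟨HX.hz_normal Z, ?_, ?_⟩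
  · intro g z hz hz'
    rw [HX.om_apply, HX.om_apply]
    have h1 : ∀ i, ω ⟨(g * z * g⁻¹).f i, HX.mf hz' i⟩ = ω ⟨z.f (i - g.a), HX.mf hz _⟩ := by
      intro i
      have h2 : (g * z * g⁻¹).f i = g.f i * z.f (i - g.a) * (g.f i)⁻¹ := by
        simp only [HX.mul_f, HX.mul_a, HX.inv_f, HX.ma hz, add_zero, sub_add_cancel]
      have h3 := h.inv (g.f i) (z.f (i - g.a)) (HX.mf hz _) (by rw [← h2]; exact HX.mf hz' i)
      rw [← h3]
      congr 1
      exact Subtype.ext h2
    have h4 : (g * z * g⁻¹).c = z.c := by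
      simp only [HX.mul_c, HX.mul_a, HX.inv_c, HX.inv_b, HX.ma hz, HX.mb hz]
      ring
    simp only [h1, h4]
    congr 1
    exact Fintype.prod_equiv (Equiv.subRight g.a) _ _ fun i => rfl
  · intro x hx
    by_cases ha : x.a = 0
    swap
    · refine ⟨⟨fun _ => 1, 0, 1, 0⟩, ⟨fun _ => 1, 0, 0, x.a⟩, HX.mk_mem (fun _ => Z.one_mem) rfl rfl, ?_, ?_⟩
      · ext i
        · simp
        · simp
        · simp [add_comm]
        · simp
      · rw [HX.om_c]
        intro h1
        rw [← map_one ζ] at h1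
        exact ha (by simpa using hζ h1)
    by_cases hf : ∀ i, x.f i ∈ Z
    swap
    · push Not at hf
      obtain ⟨i₀, hi₀⟩ := hf
      obtain ⟨y, z, hz, hyz, hω⟩ := h.star _ hi₀
      refine ⟨⟨Pi.mulSingle i₀ y, 0, 0, 0⟩, ⟨Pi.mulSingle i₀ z, 0, 0, 0⟩,
        HX.mk_mem (fun i => ?_) rfl rfl, ?_, ?_⟩
      · by_cases hi : i = i₀
        · subst hi; simpa using hz
        · simp [Pi.mulSingle_eq_of_ne hi, Z.one_mem]
      · ext i
        · simp only [HX.mul_f, HX.mul_a, ha, sub_zero, zero_add, add_zero]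
          by_cases hi : i = i₀
          · subst hi; simpa using hyz
          · simp [Pi.mulSingle_eq_of_ne hi]
        · simp
        · simp
        · simp [ha]
      · rw [HX.om_apply, Finset.prod_eq_single i₀]
        · simpa using hω
        · intro i _ hi
          rw [← map_one ω]
          congr 1
          apply Subtype.ext
          simp [Pi.mulSingle_eq_of_ne hi]
        · simp
    · have hb : x.b ≠ 0 := fun hb => hx ⟨hf, ha, hb⟩
      refine ⟨⟨fun _ => 1, 1, 0, 0⟩, ⟨fun i => (x.f i)⁻¹ * x.f (i + 1), 0, 0, -x.b⟩,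
        HX.mk_mem (fun i => Z.mul_mem (Z.inv_mem (hf i)) (hf _)) rfl rfl, ?_, ?_⟩
      · ext i
        · simp [ha]
        · simp [ha]
        · simp
        · simp [ha]
      · rw [HX.om_apply]
        have h1 : ∏ i, ω ⟨(x.f i)⁻¹ * x.f (i + 1), Z.mul_mem (Z.inv_mem (hf i)) (hf _)⟩ = 1 := by
          have h2 : ∀ i, ω ⟨(x.f i)⁻¹ * x.f (i + 1), Z.mul_mem (Z.inv_mem (hf i)) (hf _)⟩ =
              (ω ⟨x.f i, hf i⟩)⁻¹ * ω ⟨x.f (i + 1), hf _⟩ := by
            intro i
            rw [← map_inv, ← map_mul]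
            rfl
          simp only [h2]
          rw [Finset.prod_mul_distrib, Finset.prod_inv_distrib, inv_mul_eq_one]
          exact (Fintype.prod_equiv (Equiv.addRight (1 : ZMod p)) (fun i => ω ⟨x.f (i + 1), hf _⟩)
            (fun i => ω ⟨x.f i, hf i⟩) fun i => rfl).symm
        rw [h1, one_mul]
        intro h3
        rw [← map_one ζ] at h3
        exact hb (by simpa using hζ h3)

theorem range_om {X : Type u} [Group X] {Z : Subgroup X} {ω : Z →* ℂˣ} {p : ℕ}
    [NeZero p] {ζ : Multiplicative (ZMod p) →* ℂˣ} :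
    (HX.om Z ω ζ).range = ω.range ⊔ ζ.range := by
  classical
  apply le_antisymm
  · rintro _ ⟨⟨x, hx⟩, rfl⟩
    rw [HX.om_apply]
    apply Subgroup.mul_mem
    · exact Subgroup.prod_mem _ fun i _ => (le_sup_left : ω.range ≤ _) ⟨_, rfl⟩
    · exact (le_sup_right : ζ.range ≤ _) ⟨_, rfl⟩
  · rw [sup_le_iff]
    constructor
    · rintro _ ⟨z, rfl⟩
      refine ⟨⟨⟨Pi.mulSingle 0 z, 0, 0, 0⟩, HX.mk_mem (fun i => ?_) rfl rfl⟩, ?_⟩
      · by_cases hi : i = 0
        · subst hi; simp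
        · simp [Pi.mulSingle_eq_of_ne hi, Z.one_mem]
      · rw [HX.om_apply, Finset.prod_eq_single 0]
        · simp
        · intro i _ hi
          rw [← map_one ω]
          congr 1
          apply Subtype.ext
          simp [Pi.mulSingle_eq_of_ne hi]
        · simp
    · rintro _ ⟨c, rfl⟩
      refine ⟨⟨⟨fun _ => 1, 0, 0, Multiplicative.toAdd c⟩,
        HX.mk_mem (fun _ => Z.one_mem) rfl rfl⟩, ?_⟩
      rw [HX.om_c]
      rfl

end Cfsg.Agent.H20.CT
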