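import Cfsg.Agent.H20.CT1
import Cfsg.Agent.H3.BrauerC
import Cfsg.Agent.H27.CentralChar
import Cfsg.Agent.H3.Clifford
import Cfsg.Agent.H24.SNGrp

set_option autoImplicit false
set_option linter.all false

/-!
# Groups of central type: characters and the induction
-/

namespace Cfsg.Agent.H20.CT

open Cfsg Cfsg.Agent.H3 Finset
open scoped ComplexConjugate

universe u

theorem exists_char {H : Type u} [Group H] [Fintype H] (ω : Subgroup.center H →* ℂˣ)
    (hω : Function.Injective ω)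
    (hstar : ∀ x : H, x ∉ Subgroup.center H → ∃ y z : H, z ∈ Subgroup.center H ∧ z ≠ 1 ∧
      x * y = y * x * z) :
    ∃ χ : IrrCharacter H, (∀ h : H, (χ : H → ℂ) h = (χ : H → ℂ) 1 → h = 1) ∧
      charDegree (χ : H → ℂ) ^ 2 = (Subgroup.center H).index := by
  classical
  haveI := Fintype.ofFinite (Subgroup.center H)
  have hZ : (Subgroup.center H).Normal := inferInstance
  have hθ : IsIrrCharacter (Subgroup.center H) (fun z => (ω z : ℂ)) := isIrr_of_hom ω
  obtain ⟨χ, hχ⟩ := exists_constituent (isChar_ind (Subgroup.center H) (irr_isChar hθ)) (by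
    intro h
    have h1 := congrFun h 1
    rw [indFun_one_apply] at h1
    simp at h1
    exact Subgroup.index_ne_zero_of_finite h1)
  rw [frobenius_reciprocity _ _ (irr_classFun χ.2)] at hχ
  have he := classInner_ne_zero_symm hχ
  have hinv : ∀ x, cj hZ x (fun z => (ω z : ℂ)) = (fun z => (ω z : ℂ)) := by
    intro x
    ext z
    rw [cj_apply]
    congr 3
    rw [Subgroup.mem_center_iff.mp z.2 x]
    group
  have h1 := clifford_invariant hZ χ.2 hθ hinv he
  have h2 : ∀ z : Subgroup.center H, (χ : H → ℂ) z = (χ : H → ℂ) 1 * ω z := by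
    intro z
    have h3 := congrFun h1 z
    have h4 := congrFun h1 1
    simp only [Pi.smul_apply, smul_eq_mul, map_one, Units.val_one, mul_one] at h3 h4
    rw [h3]
    have h5 : (χ : H → ℂ) ((1 : Subgroup.center H) : H) = (χ : H → ℂ) 1 := rfl
    rw [← h4, h5]
  have h10 : (χ : H → ℂ) 1 ≠ 0 := irr_one_ne_zero χ.2
  have h3 : ∀ x, x ∉ Subgroup.center H → (χ : H → ℂ) x = 0 := by
    intro x hx
    obtain ⟨y, z, hz, hz1, hxy⟩ := hstar x hx
    have h4 := irr_central_mul χ.2 hz x
    have h5 : (χ : H → ℂ) (z * x) = (χ : H → ℂ) x := by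
      have h6 : y⁻¹ * x * y = x * z := by
        rw [mul_assoc, hxy]; group
      rw [← Subgroup.mem_center_iff.mp hz x, ← h6]
      have := irr_classFun χ.2 x y⁻¹
      rw [inv_inv] at this
      exact this
    rw [h5, h2 ⟨z, hz⟩] at h4
    have h7 : ((ω ⟨z, hz⟩ : ℂˣ) : ℂ) ≠ 1 := by
      intro h8
      apply hz1
      have h9 : ω ⟨z, hz⟩ = ω 1 := by rw [map_one]; exact Units.ext h8
      exact congrArg Subtype.val (hω h9)
    have h8 : (1 - ((ω ⟨z, hz⟩ : ℂˣ) : ℂ)) * ((χ : H → ℂ) 1 * (χ : H → ℂ) x) = 0 := by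
      linear_combination h4
    rcases mul_eq_zero.mp h8 with h9 | h9
    · exact absurd (sub_eq_zero.mp h9).symm h7
    · exact (mul_eq_zero.mp h9).resolve_left h10
  refine ⟨χ, ?_, ?_⟩
  · intro h hh
    by_cases hc : h ∈ Subgroup.center H
    · have h4 := h2 ⟨h, hc⟩
      have h5 : (χ : H → ℂ) h = (χ : H → ℂ) 1 * ω ⟨h, hc⟩ := h4
      rw [hh] at h5
      have h6 : ((ω ⟨h, hc⟩ : ℂˣ) : ℂ) = 1 := by
        apply mul_left_cancel₀ h10
        rw [← h5, mul_one]
      have h9 : ω ⟨h, hc⟩ = ω 1 := by rw [map_one]; exact Units.ext h6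
      exact congrArg Subtype.val (hω h9)
    · rw [h3 h hc] at hh
      exact absurd hh.symm h10
  · have h4 := classInner_self_of_irr χ.2
    rw [classInner] at h4
    have h5 : ∀ x, (χ : H → ℂ) x * conj ((χ : H → ℂ) x) =
        if x ∈ Subgroup.center H then (χ : H → ℂ) 1 ^ 2 else 0 := by
      intro x
      split_ifs with hx
      · have h6 : (χ : H → ℂ) x = (χ : H → ℂ) 1 * ω ⟨x, hx⟩ := h2 ⟨x, hx⟩
        have h7 : conj ((χ : H → ℂ) 1) = (χ : H → ℂ) 1 := by
          rw [← Cfsg.Agent.H27.charDegree_cast (irr_isChar χ.2)]; exact Complex.conj_natCast _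
        have h8 : (ω ⟨x, hx⟩ : ℂ) * conj (ω ⟨x, hx⟩ : ℂ) = 1 := by
          have h9 : ‖((ω ⟨x, hx⟩ : ℂˣ) : ℂ)‖ = 1 := by
            have h11 : ((ω ⟨x, hx⟩ : ℂˣ) : ℂ) ^ (Nat.card (Subgroup.center H)) = 1 := by
              rw [← Units.val_pow_eq_pow_val, ← map_pow, pow_card_eq_one', map_one, Units.val_one]
            exact Complex.norm_eq_one_of_pow_eq_one h11 Nat.card_pos.ne'
          rw [Complex.mul_conj, Complex.normSq_eq_norm_sq, h9]
          simp
        rw [h6, map_mul, h7]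
        linear_combination ((χ : H → ℂ) 1) ^ 2 * h8
      · rw [h3 x hx]; simp
    simp only [h5] at h4
    rw [← Finset.sum_filter, Finset.sum_const, nsmul_eq_mul] at h4
    have h6 : (Finset.univ.filter (fun x => x ∈ Subgroup.center H)).card =
        Nat.card (Subgroup.center H) := by
      rw [Nat.card_eq_fintype_card, Fintype.card_subtype]
    rw [h6, ← Cfsg.Agent.H27.charDegree_cast (irr_isChar χ.2), ← Subgroup.index_mul_card (Subgroup.center H)] at h4
    push_cast at h4
    have h7 : (Nat.card (Subgroup.center H) : ℂ) ≠ 0 := card_ne_zeroC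
    have h8 : ((Subgroup.center H).index : ℂ) ≠ 0 := by
      exact_mod_cast Subgroup.index_ne_zero_of_finite
    have h9 : (charDegree (χ : H → ℂ) : ℂ) ^ 2 = (Subgroup.center H).index := by
      field_simp at h4
      linear_combination h4
    exact_mod_cast h9

/-- the injective character of `ℤ/p` -/
theorem exists_zeta (p : ℕ) [NeZero p] : ∃ ζ : Multiplicative (ZMod p) →* ℂˣ,
    Function.Injective ζ ∧ ζ.range = rootsOfUnity p ℂ := by
  obtain ⟨z, hz⟩ : ∃ z : ℂˣ, IsPrimitiveRoot z p := by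
    have h := Complex.isPrimitiveRoot_exp p (NeZero.ne p)
    obtain ⟨u, hu⟩ := h.isUnit (NeZero.ne p)
    exact ⟨u, IsPrimitiveRoot.coe_units_iff.mp (by rwa [hu])⟩
  refine ⟨(Subgroup.zpowers z).subtype.comp (AddMonoidHom.toMultiplicativeLeft
    (hz.zmodEquivZPowers : ZMod p →+ Additive (Subgroup.zpowers z))), ?_, ?_⟩
  · intro a b hab
    have h1 := Subtype.ext hab
    exact hz.zmodEquivZPowers.injective h1
  · rw [← hz.zpowers_eq]
    ext x
    constructor
    · rintro ⟨a, rfl⟩
      exact Subtype.property _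
    · intro hx
      obtain ⟨a, ha⟩ := hz.zmodEquivZPowers.surjective (Additive.ofMul ⟨x, hx⟩)
      exact ⟨Multiplicative.ofAdd a, congrArg (fun t => ((Additive.toMul t : Subgroup.zpowers z) : ℂˣ)) ha⟩

theorem rootsOfUnity_sup {m p : ℕ} (hp : p.Prime) :
    rootsOfUnity m ℂ ⊔ rootsOfUnity p ℂ = rootsOfUnity (if p ∣ m then m else m * p) ℂ := by
  split_ifs with h
  · exact sup_eq_left.mpr (rootsOfUnity_le_of_dvd h)
  · apply le_antisymm
    · exact sup_le (rootsOfUnity_le_of_dvd (Dvd.intro _ rfl)) (rootsOfUnity_le_of_dvd (Dvd.intro_left _ rfl))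
    · intro z hz
      have hc : IsCoprime (m : ℤ) (p : ℤ) :=
        Int.isCoprime_iff_gcd_eq_one.mpr (by
          have := (Nat.Prime.coprime_iff_not_dvd hp).mpr h
          exact_mod_cast this.symm)
      obtain ⟨a, b, hab⟩ := hc
      have h1 : z = z ^ (b * p) * z ^ (a * m) := by
        rw [← zpow_add, add_comm, hab, zpow_one]
      rw [h1]
      have h2 : z ^ (m * p) = 1 := (mem_rootsOfUnity _ _).mp hz
      apply Subgroup.mul_mem_sup
      · rw [mem_rootsOfUnity]
        rw [← zpow_natCast, ← zpow_mul]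
        have : b * p * m = ((m * p : ℕ) : ℤ) * b := by push_cast; ring
        rw [this, zpow_mul, zpow_natCast, h2, one_zpow]
      · rw [mem_rootsOfUnity]
        rw [← zpow_natCast, ← zpow_mul]
        have : a * m * p = ((m * p : ℕ) : ℤ) * a := by push_cast; ring
        rw [this, zpow_mul, zpow_natCast, h2, one_zpow]

/-- the radical -/
def rad (n : ℕ) : ℕ := ∏ q ∈ n.primeFactors, q

theorem main (n : ℕ) : ∀ (G : Type u) [Group G] [Finite G], Group.IsSolvable G → Nat.card G = n →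
    ∃ (X : Type u) (_ : Group X) (_ : Finite X) (Z : Subgroup X) (ω : Z →* ℂˣ) (φ : G → X),
      CTD X Z ω ∧ ω.range = rootsOfUnity (rad (Nat.card G)) ℂ ∧
      (∀ q : ℕ, q.Prime → q ∣ Z.index → q ∣ Nat.card G) ∧
      (∀ g h : G, (φ (g * h))⁻¹ * (φ g * φ h) ∈ Z) ∧ (∀ g : G, φ g ∈ Z → g = 1) := by
  induction n using Nat.strong_induction_on with
  | _ n ih =>
  intro G _ _ hs hn
  by_cases hG : Nontrivial G
  swap
  · rw [not_nontrivial_iff_subsingleton] at hG
    refine ⟨G, inferInstance, inferInstance, ⊤, 1, id, ⟨inferInstance, ?_, ?_⟩, ?_, ?_, ?_, ?_⟩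
    · intro g z hz hz'; rfl
    · intro x hx; exact absurd (Subgroup.mem_top x) hx
    · have h1 : Nat.card G = 1 := Nat.card_eq_one_iff_unique.mpr ⟨hG, ⟨1⟩⟩
      rw [h1]
      ext z
      simp [rad]
    · intro q hq h
      rw [Subgroup.index_top] at h
      exact absurd (Nat.dvd_one.mp h) hq.one_lt.ne'
    · intro g h; trivial
    · intro g _; exact Subsingleton.elim _ _
  obtain ⟨N, hN, hp⟩ := Cfsg.Agent.H24.exists_normal_index_prime hs
  have hlt : Nat.card N < n := by
    rw [← hn, ← Subgroup.index_mul_card N]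
    exact lt_mul_of_one_lt_left Nat.card_pos hp.one_lt
  obtain ⟨X, _, _, Z, ω, φ, hct, hran, hidx, hφ1, hφ2⟩ := ih _ hlt N inferInstance rfl
  set p := N.index with hpdef
  haveI : Fact p.Prime := ⟨hp⟩
  haveI : NeZero p := ⟨hp.ne_zero⟩
  obtain ⟨ζ, hζ, hζr⟩ := exists_zeta p
  -- the projection
  have hcq : Nat.card (G ⧸ N) = p := by rw [hpdef, Subgroup.index_eq_card]
  haveI hcyc : IsCyclic (G ⧸ N) := isCyclic_of_prime_card hcq
  let e : Multiplicative (ZMod p) ≃* G ⧸ N := (zmodCyclicMulEquiv hcyc |>.symm.trans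
    (MulEquiv.refl _)).symm.trans (MulEquiv.refl _) |> fun _ => mulEquivOfCyclicCardEq (by
      rw [hcq]; simp)
  let a : G → ZMod p := fun g => Multiplicative.toAdd (e.symm (g : G ⧸ N))
  have ha1 : ∀ g h, a (g * h) = a g + a h := by
    intro g h
    show Multiplicative.toAdd (e.symm ((g * h : G) : G ⧸ N)) = _
    rw [QuotientGroup.mk_mul, map_mul]
    rfl
  have ha2 : ∀ g, a g = 0 ↔ g ∈ N := by
    intro g
    rw [← QuotientGroup.eq_one_iff, ← map_eq_one_iff e.symm e.symm.injective]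
    rfl
  have ha3 : Function.Surjective a := by
    intro i
    obtain ⟨g, hg⟩ := QuotientGroup.mk_surjective (e (Multiplicative.ofAdd i))
    refine ⟨g, ?_⟩
    show Multiplicative.toAdd (e.symm (g : G ⧸ N)) = i
    rw [hg, MulEquiv.symm_apply_apply]
    rfl
  choose s hs' using ha3
  have ha4 : a 1 = 0 := (ha2 1).mpr N.one_mem
  have ha5 : ∀ g, a g⁻¹ = - a g := by
    intro g
    have h1 := ha1 g⁻¹ g
    rw [inv_mul_cancel, ha4] at h1
    exact eq_neg_of_add_eq_zero_left h1.symm
  have hmem : ∀ (g : G) (i j : ZMod p), j = i - a g → (s i)⁻¹ * g * s j ∈ N := by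
    intro g i j hj
    rw [← ha2, ha1, ha1, ha5, hs', hs', hj]
    ring
  let ψ : G → ZMod p → X := fun g i => φ ⟨(s i)⁻¹ * g * s (i - a g), hmem g i _ rfl⟩
  have hn' := hct.normal
  refine ⟨HX X p, inferInstance, inferInstance, HX.hz Z, HX.om Z ω ζ, fun g => ⟨ψ g, a g, 0, 0⟩,
    hct.step hζ, ?_, ?_, ?_, ?_⟩
  · rw [range_om, hran, hζr, rootsOfUnity_sup hp]
    congr 1
    have h1 : Nat.card G = p * Nat.card N := (Subgroup.index_mul_card N).symm
    have h2 : (Nat.card G).primeFactors = insert p (Nat.card N).primeFactors := by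
      rw [h1, Nat.primeFactors_mul hp.ne_zero Nat.card_pos.ne', hp.primeFactors]
      rfl
    have h3 : p ∣ rad (Nat.card N) ↔ p ∈ (Nat.card N).primeFactors := by
      constructor
      · intro h
        obtain ⟨q, hq, hpq⟩ := (Prime.dvd_finsetProd_iff hp.prime _).mp h
        have := (Nat.prime_dvd_prime_iff_eq hp (Nat.prime_of_mem_primeFactors hq)).mp hpq
        rwa [this]
      · intro h
        exact Finset.dvd_prod_of_mem _ h
    show _ = ∏ q ∈ (Nat.card G).primeFactors, q
    rw [h2]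
    by_cases h4 : p ∈ (Nat.card N).primeFactors
    · rw [if_pos (h3.mpr h4), Finset.insert_eq_of_mem h4]; rfl
    · rw [if_neg (fun h => h4 (h3.mp h)), Finset.prod_insert h4, mul_comm]; rfl
  · intro q hq h
    rw [HX.index_hz] at h
    have h1 : Nat.card G = p * Nat.card N := (Subgroup.index_mul_card N).symm
    rw [h1]
    rcases hq.dvd_mul.mp h with h2 | h2
    · exact dvd_mul_of_dvd_right (hidx q hq (hq.dvd_of_dvd_pow h2)) _
    · exact dvd_mul_of_dvd_left (hq.dvd_of_dvd_pow h2) _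
  · intro g h
    refine HX.mk_mem ?_ ?_ ?_
    · intro i
      simp only [HX.mul_f, HX.inv_f, HX.inv_a, sub_neg_eq_add]
      have h2 := hφ1 ⟨(s (i + a (g * h)))⁻¹ * g * s (i + a (g * h) - a g), hmem g _ _ rfl⟩
        ⟨(s (i + a (g * h) - a g))⁻¹ * h * s (i + a (g * h) - a g - a h), hmem h _ _ rfl⟩
      convert h2 using 3
      show φ _ = φ _
      congr 1
      apply Subtype.ext
      show (s (i + a (g * h)))⁻¹ * (g * h) * s (i + a (g * h) - a (g * h)) =
        (s (i + a (g * h)))⁻¹ * g * s (i + a (g * h) - a g) *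
          ((s (i + a (g * h) - a g))⁻¹ * h * s (i + a (g * h) - a g - a h))
      have h3 : i + a (g * h) - a g - a h = i + a (g * h) - a (g * h) := by rw [ha1]; ring
      rw [h3]
      group
    · simp only [HX.mul_a, HX.inv_a, ha1]; ring
    · simp
  · intro g hg
    have h1 : a g = 0 := HX.ma hg
    have h2 : φ ⟨(s 0)⁻¹ * g * s (0 - a g), hmem g 0 _ rfl⟩ ∈ Z := HX.mf hg 0
    have h3 := congrArg Subtype.val (hφ2 _ h2)
    replace h3 : (s 0)⁻¹ * g * s (0 - a g) = 1 := h3
    rw [h1, sub_zero] at h3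
    have h4 : g = s 0 * ((s 0)⁻¹ * g * s 0) * (s 0)⁻¹ := by group
    rw [h4, h3]
    group

end Cfsg.Agent.H20.CT
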