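import Cfsg.Agent.FT
import Cfsg.Agent.S3305
import Cfsg.Agent.S3303
import Cfsg.Agent.H1.Chief
import Cfsg.Agent.H4.ZStarF
import Cfsg.Agent.H23.RankOne
import Cfsg.Agent.H23.MaxClass4
import Cfsg.Agent.H23.Coprime4

/-! Groups with cyclic Sylow 2-intersections: `O₂` is central modulo the core (nonsolvable case). -/

set_option autoImplicit false
set_option linter.unusedSectionVars false
open Cfsg

namespace Cfsg.Agent.H20.CycInt
open Subgroup

universe u
variable {X : Type u} [Group X] [Finite X]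

theorem solvable_of_odd_index {N : Subgroup X} [N.Normal] (hN : Group.IsSolvable N) (ho : Odd N.index) :
    Group.IsSolvable X := by
  rw [Group.isSolvable_iff_subgroup_quotient N]
  refine ⟨hN, FT.odd_order ?_⟩
  exact ho

theorem solvable_sylow (S : Sylow 2 X) : Group.IsSolvable (S : Subgroup X) :=
  have : Fact (Nat.Prime 2) := ⟨Nat.prime_two⟩
  have := S.isPGroup'.isNilpotent
  inferInstance

theorem odd_index_sylow (S : Sylow 2 X) : Odd (S : Subgroup X).index := by
  have : Fact (Nat.Prime 2) := ⟨Nat.prime_two⟩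
  rw [← Nat.not_even_iff_odd, even_iff_two_dvd]
  exact S.not_dvd_index

/-- The normalizer of a Sylow 2-subgroup is solvable. -/
theorem solvable_normalizer (S : Sylow 2 X) : Group.IsSolvable (normalizer ((S : Subgroup X) : Set X)) := by
  have : Fact (Nat.Prime 2) := ⟨Nat.prime_two⟩
  set N := normalizer ((S : Subgroup X) : Set X)
  have h1 : ((S : Subgroup X).subgroupOf N).Normal := Subgroup.normal_in_normalizer
  have h2 : Group.IsSolvable ((S : Subgroup X).subgroupOf N) := by
    have e := Subgroup.subgroupOfEquivOfLe (le_normalizer : (S : Subgroup X) ≤ N)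
    have := solvable_sylow S
    exact Group.isSolvable_of_surjective (f := e.symm.toMonoidHom) e.symm.surjective
  apply solvable_of_odd_index h2
  have h3 := relIndex_mul_index (le_normalizer : (S : Subgroup X) ≤ N)
  have h4 := odd_index_sylow S
  rw [← h3] at h4
  exact (Nat.odd_mul.mp h4).1

omit [Finite X] in
theorem le_center_of_card_two {Z : Subgroup X} (hn : Z.Normal) (hc : Nat.card Z = 2) : Z ≤ center X := by
  classical
  have hfin : Finite Z := Nat.finite_of_card_ne_zero (by rw [hc]; norm_num)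
  intro z hz
  rw [mem_center_iff]
  intro g
  by_cases hz1 : z = 1
  · rw [hz1]; simp
  have h1 : g * z * g⁻¹ ∈ Z := hn.conj_mem z hz g
  by_contra hne
  have h3 : (3 : ℕ) ≤ Nat.card Z := by
    have : Fintype Z := Fintype.ofFinite _
    rw [Nat.card_eq_fintype_card, ← Finset.card_univ]
    have h4 : ({1, ⟨z, hz⟩, ⟨g * z * g⁻¹, h1⟩} : Finset Z).card = 3 := by
      rw [Finset.card_eq_three]
      refine ⟨1, ⟨z, hz⟩, ⟨g * z * g⁻¹, h1⟩, ?_, ?_, ?_, rfl⟩
      · intro h; exact hz1 (congrArg Subtype.val h).symm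
      · intro h
        have h5 : (1 : X) = g * z * g⁻¹ := congrArg Subtype.val h
        apply hz1
        have h6 : z = g⁻¹ * (g * z * g⁻¹) * g := by group
        rw [h6, ← h5]; group
      · intro h
        have h5 : z = g * z * g⁻¹ := congrArg Subtype.val h
        apply hne
        calc g * z = (g * z * g⁻¹) * g := by group
          _ = z * g := by rw [← h5]
    rw [← h4]
    exact Finset.card_le_card (Finset.subset_univ _)
  omega

structure Hyp (Z : Subgroup X) : Prop where
  hC : ∀ S T : Sylow 2 X, S ≠ T → IsCyclic ↥((S : Subgroup X) ⊓ (T : Subgroup X))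
  hns : ¬ Group.IsSolvable X
  hn : Z.Normal
  hle : ∀ S : Sylow 2 X, Z ≤ (S : Subgroup X)
  hnc : ¬ Z ≤ center X

variable {Z : Subgroup X}

theorem Hyp.exists_ne (h : Hyp Z) (S : Sylow 2 X) : ∃ T : Sylow 2 X, S ≠ T := by
  by_contra hcon
  push Not at hcon
  have hsub : Subsingleton (Sylow 2 X) := ⟨fun a b => (hcon a).symm.trans (hcon b)⟩
  have hn : (S : Subgroup X).Normal := Sylow.normal_of_subsingleton _
  exact h.hns (solvable_of_odd_index (solvable_sylow S) (odd_index_sylow S))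

theorem Hyp.cyc (h : Hyp Z) : IsCyclic Z := by
  obtain ⟨T, hT⟩ := h.exists_ne default
  have h1 := h.hC _ _ hT
  have h2 : Z ≤ ((default : Sylow 2 X) : Subgroup X) ⊓ T := le_inf (h.hle _) (h.hle _)
  exact isCyclic_of_injective (Subgroup.inclusion h2) (Subgroup.inclusion_injective h2)

omit [Finite X] in
theorem Hyp.pgroup (h : Hyp Z) : IsPGroup 2 Z := (default : Sylow 2 X).isPGroup'.to_le (h.hle _)

/-- `4 ∣ |Z|`. -/
theorem Hyp.four_dvd (h : Hyp Z) : 4 ∣ Nat.card Z := by
  have : Fact (Nat.Prime 2) := ⟨Nat.prime_two⟩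
  obtain ⟨k, hk⟩ := IsPGroup.iff_card.mp h.pgroup
  rcases k with _ | _ | k
  · exfalso
    apply h.hnc
    have : Z = ⊥ := by rw [← Subgroup.card_eq_one, hk]; rfl
    rw [this]; exact bot_le
  · exfalso
    apply h.hnc
    exact le_center_of_card_two h.hn (by rw [hk]; rfl)
  · rw [hk, show k + 1 + 1 = k + 2 from rfl, pow_add]; exact Dvd.intro_left _ rfl

omit [Finite X] in
theorem comm_of_cyc {D : Subgroup X} (hD : IsCyclic D) {x y : X} (hx : x ∈ D) (hy : y ∈ D) : x * y = y * x := by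
  obtain ⟨g, hg⟩ := hD.exists_generator
  obtain ⟨a, ha⟩ := mem_zpowers_iff.mp (hg ⟨x, hx⟩)
  obtain ⟨b, hb⟩ := mem_zpowers_iff.mp (hg ⟨y, hy⟩)
  have ha' : (g : X) ^ a = x := by rw [← coe_zpow, ha]
  have hb' : (g : X) ^ b = y := by rw [← coe_zpow, hb]
  rw [← ha', ← hb', ← zpow_add, ← zpow_add, add_comm]

theorem mem_of_pow_card {D Z : Subgroup X} (hD : IsCyclic D) (hZ : Z ≤ D) {x : X} (hx : x ∈ D)
    (hp : x ^ Nat.card Z = 1) : x ∈ Z := by
  classical
  have hfin : Fintype D := Fintype.ofFinite _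
  set n := Nat.card Z with hn
  have hn0 : 0 < n := Nat.card_pos
  have h1 := IsCyclic.card_pow_eq_one_le (α := D) hn0
  set A : Finset D := Finset.univ.filter (fun a => a ^ n = 1) with hA
  set B : Finset D := Finset.univ.filter (fun a => a ∈ Z.subgroupOf D) with hB
  have hBA : B ⊆ A := by
    intro b hb
    rw [hB, Finset.mem_filter] at hb
    rw [hA, Finset.mem_filter]
    refine ⟨Finset.mem_univ _, ?_⟩
    have h2 : (b : X) ∈ Z := mem_subgroupOf.mp hb.2
    have h3 : (b : X) ^ n = 1 := H4.pow_card_of_mem h2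
    exact Subtype.ext (by rw [coe_pow, h3]; rfl)
  have hBn : B.card = n := by
    have h2 : Nat.card (Z.subgroupOf D) = n := by
      rw [hn]; exact Nat.card_congr (Subgroup.subgroupOfEquivOfLe hZ).toEquiv
    rw [← h2, Nat.card_eq_fintype_card, hB, ← Fintype.card_subtype]
  have hEq : B = A := Finset.eq_of_subset_of_card_le hBA (by rw [hBn]; exact h1)
  have h4 : (⟨x, hx⟩ : D) ∈ A := by
    rw [hA, Finset.mem_filter]
    exact ⟨Finset.mem_univ _, Subtype.ext (by rw [coe_pow]; exact hp)⟩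
  rw [← hEq, hB, Finset.mem_filter] at h4
  exact mem_subgroupOf.mp h4.2

theorem inv_unique {D : Subgroup X} (hD : IsCyclic D) {x y : X} (hx : x ∈ D) (hy : y ∈ D)
    (hx2 : orderOf x = 2) (hy2 : orderOf y = 2) : x = y := by
  have h1 : x ∈ zpowers y := mem_of_pow_card hD ((zpowers_le).mpr hy) hx (by
    rw [Nat.card_zpowers, hy2, ← hx2]; exact pow_orderOf_eq_one x)
  obtain ⟨k, hk⟩ := mem_zpowers_iff.mp h1
  rcases Int.even_or_odd k with ⟨c, hc⟩ | ⟨c, hc⟩
  · exfalso
    have h2 : y ^ (2 : ℤ) = 1 := by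
      have := pow_orderOf_eq_one y
      rw [hy2] at this; exact_mod_cast this
    have h3 : x = 1 := by rw [← hk, hc, ← two_mul, zpow_mul, h2, one_zpow]
    rw [h3, orderOf_one] at hx2; omega
  · have h2 : y ^ (2 : ℤ) = 1 := by
      have := pow_orderOf_eq_one y
      rw [hy2] at this; exact_mod_cast this
    rw [← hk, hc, zpow_add, zpow_mul, h2, one_zpow, one_mul, zpow_one]

/-- elements outside `C(Z)` lie in at most one Sylow 2-subgroup -/
theorem Hyp.eq_of_mem (h : Hyp Z) {S T : Sylow 2 X} {x : X} (hx : x ∉ centralizer (Z : Set X))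
    (hS : x ∈ (S : Subgroup X)) (hT : x ∈ (T : Subgroup X)) : S = T := by
  by_contra hne
  apply hx
  rw [mem_centralizer_iff]
  intro z hz
  exact comm_of_cyc (h.hC S T hne) ⟨h.hle S hz, h.hle T hz⟩ ⟨hS, hT⟩

theorem mem_of_mem_normalizer (S : Sylow 2 X) {g : X} (hg : g ∈ normalizer ((S : Subgroup X) : Set X))
    {k : ℕ} (hk : g ^ 2 ^ k = 1) : g ∈ (S : Subgroup X) := by
  have hf : Fact (Nat.Prime 2) := ⟨Nat.prime_two⟩
  have h1 : IsPGroup 2 (zpowers g) := by
    rw [IsPGroup.iff_card]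
    obtain ⟨a, -, ha⟩ := (Nat.dvd_prime_pow Nat.prime_two).mp (orderOf_dvd_of_pow_eq_one hk)
    exact ⟨a, by rw [Nat.card_zpowers, ha]⟩
  have h2 : IsPGroup 2 (zpowers g ⊔ (S : Subgroup X) : Subgroup X) :=
    IsPGroup.to_sup_of_normal_right' h1 S.isPGroup' (by rwa [zpowers_le])
  have h3 := S.is_maximal' h2 le_sup_right
  rw [← h3]
  exact mem_sup_left (mem_zpowers g)

structure HypI (Z : Subgroup X) (i : X) : Prop extends Hyp Z where
  i2 : orderOf i = 2
  iZ : i ∈ Z

theorem Hyp.exists_i (h : Hyp Z) : ∃ i, HypI Z i := by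
  have hf : Fact (Nat.Prime 2) := ⟨Nat.prime_two⟩
  have h2 : ¬ Odd (Nat.card Z) := by
    rw [Nat.not_odd_iff_even, even_iff_two_dvd]
    exact (Nat.dvd_trans ⟨2, rfl⟩ h.four_dvd)
  obtain ⟨i, hi, hi2⟩ := H4.exists_involution h2
  exact ⟨i, h, hi2, hi⟩

variable {i : X}

theorem HypI.central (h : HypI Z i) : i ∈ center X := by
  rw [mem_center_iff]
  intro g
  have h1 : g * i * g⁻¹ = i :=
    inv_unique h.cyc (h.hn.conj_mem i h.iZ g) h.iZ (by rw [H4.orderOf_conj, h.i2]) h.i2
  calc g * i = (g * i * g⁻¹) * g := by group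
    _ = i * g := by rw [h1]

theorem HypI.comm (h : HypI Z i) (g : X) : g * i = i * g := (mem_center_iff.mp h.central) g

theorem HypI.ii (h : HypI Z i) : i * i = 1 := by
  have := pow_orderOf_eq_one i
  rwa [h.i2, pow_two] at this

theorem HypI.eq_of_inv (h : HypI Z i) {S T : Sylow 2 X} {w : X} (hw2 : orderOf w = 2) (hwi : w ≠ i)
    (hS : w ∈ (S : Subgroup X)) (hT : w ∈ (T : Subgroup X)) : S = T := by
  by_contra hne
  exact hwi (inv_unique (h.hC S T hne) ⟨hS, hT⟩ ⟨h.hle S h.iZ, h.hle T h.iZ⟩ hw2 h.i2)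

theorem conj_mem_smul (S : Sylow 2 X) {g w : X} (hw : w ∈ (S : Subgroup X)) :
    g * w * g⁻¹ ∈ ((g • S : Sylow 2 X) : Subgroup X) := by
  rw [Sylow.coe_subgroup_smul]
  exact ⟨w, hw, rfl⟩

theorem HypI.normalizes (h : HypI Z i) {S : Sylow 2 X} {g w : X} (hw2 : orderOf w = 2) (hwi : w ≠ i)
    (hS : w ∈ (S : Subgroup X)) (hg : g * w * g⁻¹ ∈ (S : Subgroup X)) :
    g ∈ normalizer ((S : Subgroup X) : Set X) := by
  have h1 : g • S = S := h.eq_of_inv (w := g * w * g⁻¹) (by rw [H4.orderOf_conj, hw2]) (by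
    intro he
    apply hwi
    calc w = g⁻¹ * (g * w * g⁻¹) * g := by group
      _ = i := by rw [he, mul_assoc, ← h.comm]; group) (conj_mem_smul S hS) hg
  exact Sylow.smul_eq_iff_mem_normalizer.mp h1

theorem Hyp.normalizes (h : Hyp Z) {S : Sylow 2 X} {g w : X} (hw : w ∉ centralizer (Z : Set X))
    (hS : w ∈ (S : Subgroup X)) (hg : g * w * g⁻¹ ∈ (S : Subgroup X)) :
    g ∈ normalizer ((S : Subgroup X) : Set X) := by
  have hn := h.hn
  have h1 : g • S = S := h.eq_of_mem (x := g * w * g⁻¹) (by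
    intro he
    apply hw
    have h2 : g⁻¹ * (g * w * g⁻¹) * g⁻¹⁻¹ ∈ centralizer (Z : Set X) :=
      (inferInstance : (centralizer (Z : Set X)).Normal).conj_mem _ he g⁻¹
    have h3 : g⁻¹ * (g * w * g⁻¹) * g⁻¹⁻¹ = w := by group
    rwa [h3] at h2) (conj_mem_smul S hS) hg
  exact Sylow.smul_eq_iff_mem_normalizer.mp h1

/-- The involutions of `C(Z)` other than `i`, lying in `S`. -/
structure HypI.I (Z : Subgroup X) (i : X) (S : Sylow 2 X) (j : X) : Prop where
  o : orderOf j = 2
  ne : j ≠ i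
  c : j ∈ centralizer (Z : Set X)
  s : j ∈ (S : Subgroup X)

theorem mul_self_of_order {j : X} (h : orderOf j = 2) : j * j = 1 := by
  have := pow_orderOf_eq_one j
  rwa [h, pow_two] at this

theorem order_of_mul_self {j : X} (h : j * j = 1) (h1 : j ≠ 1) : orderOf j = 2 := by
  have hf : Fact (Nat.Prime 2) := ⟨Nat.prime_two⟩
  exact orderOf_eq_prime (by rwa [pow_two]) h1

theorem centralizer_conj_mem [Z.Normal] (g : X) {w : X} (hw : w ∈ centralizer (Z : Set X)) :
    g * w * g⁻¹ ∈ centralizer (Z : Set X) :=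
  (inferInstance : (centralizer (Z : Set X)).Normal).conj_mem w hw g

theorem HypI.I_conj (h : HypI Z i) {S : Sylow 2 X} {j : X} (hj : HypI.I Z i S j) (g : X) :
    HypI.I Z i (g • S) (g * j * g⁻¹) := by
  have hn := h.hn
  refine ⟨by rw [H4.orderOf_conj, hj.o], ?_, centralizer_conj_mem g hj.c, conj_mem_smul S hj.s⟩
  intro he
  apply hj.ne
  calc j = g⁻¹ * (g * j * g⁻¹) * g := by group
    _ = i := by rw [he, mul_assoc, ← h.comm]; group

theorem HypI.iC (h : HypI Z i) : i ∈ centralizer (Z : Set X) := by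
  rw [mem_centralizer_iff]
  intro z _
  exact h.comm z

theorem HypI.iS (h : HypI Z i) (S : Sylow 2 X) : i ∈ (S : Subgroup X) := h.hle S h.iZ

theorem HypI.I_mul (h : HypI Z i) {S : Sylow 2 X} {j : X} (hj : HypI.I Z i S j) :
    HypI.I Z i S (i * j) := by
  refine ⟨order_of_mul_self ?_ ?_, ?_, mul_mem h.iC hj.c, mul_mem (h.iS S) hj.s⟩
  · calc i * j * (i * j) = i * (j * i) * j := by group
      _ = (i * i) * (j * j) := by rw [h.comm j]; group
      _ = 1 := by rw [h.ii, mul_self_of_order hj.o, one_mul]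
  · intro he
    apply hj.ne
    calc j = i * (i * j) := by rw [← mul_assoc, h.ii, one_mul]
      _ = i := by rw [he, mul_one]
  · intro he
    have h1 : j = 1 := by
      calc j = i * (i * j) := by rw [← mul_assoc, h.ii, one_mul]
        _ = 1 := by rw [he, h.ii]
    have h2 := hj.o
    rw [h1, orderOf_one] at h2
    omega

theorem HypI.conj_or (h : HypI Z i) {S T : Sylow 2 X} (hST : S ≠ T) {j k : X} (hj : HypI.I Z i S j)
    (hk : HypI.I Z i T k) :
    ∃ g ∈ centralizer (Z : Set X), g * j * g⁻¹ = k ∨ g * j * g⁻¹ = i * k := by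
  have hjj := mul_self_of_order hj.o
  have hkk := mul_self_of_order hk.o
  have hrC : j * k ∈ centralizer (Z : Set X) := mul_mem hj.c hk.c
  set r := j * k with hr
  have hn0 : 0 < orderOf r := orderOf_pos r
  rcases Nat.even_or_odd (orderOf r) with he | ho
  · have hl := H4.even_pow_half hn0.ne' he
    obtain ⟨hlj, hlk⟩ := H4.commute_pow_half hjj hkk hn0.ne' he
    rw [← hr] at hlj hlk
    set l := r ^ (orderOf r / 2) with hldef
    have hli : l = i := by
      by_contra hne
      have h1 : l * j * l⁻¹ = j := by rw [hlj.eq]; group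
      have h2 : l * k * l⁻¹ = k := by rw [hlk.eq]; group
      have hll := mul_self_of_order hl
      have h3 : l ∈ (S : Subgroup X) :=
        mem_of_mem_normalizer S (h.normalizes hj.o hj.ne hj.s (by rw [h1]; exact hj.s)) (k := 1) (by rw [pow_one, pow_two]; exact hll)
      have h4 : l ∈ (T : Subgroup X) :=
        mem_of_mem_normalizer T (h.normalizes hk.o hk.ne hk.s (by rw [h2]; exact hk.s)) (k := 1) (by rw [pow_one, pow_two]; exact hll)
      exact hST (h.eq_of_inv hl hne h3 h4)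
    have hjr : j * r * j⁻¹ = r⁻¹ := by
      have h1 : j⁻¹ = j := inv_eq_of_mul_eq_one_left hjj
      have h2 : k⁻¹ = k := inv_eq_of_mul_eq_one_left hkk
      rw [hr, mul_inv_rev, h1, h2, ← mul_assoc, hjj, one_mul]
    have hkr : k * r * k⁻¹ = r⁻¹ := by
      have h1 : j⁻¹ = j := inv_eq_of_mul_eq_one_left hjj
      have h2 : k⁻¹ = k := inv_eq_of_mul_eq_one_left hkk
      rw [hr, mul_inv_rev, h1, h2, mul_assoc, mul_assoc, hkk, mul_one]
    by_cases h4 : 4 ∣ orderOf r
    · exfalso
      obtain ⟨m, hm⟩ := h4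
      set u := r ^ m with hu
      have huu : u * u = i := by
        rw [hu, ← pow_add, ← hli, hldef]
        congr 1; omega
      have hconj : ∀ x : X, x * r * x⁻¹ = r⁻¹ → x * u * x⁻¹ = u⁻¹ := by
        intro x hx
        rw [hu, ← conj_pow, hx, inv_pow]
      have hju := hconj j hjr
      have hku := hconj k hkr
      have key : ∀ x : X, x * x = 1 → x * u * x⁻¹ = u⁻¹ → u * x * u⁻¹ = i * x := by
        intro x hx hxu
        have h1 : x * u⁻¹ = u * x := by
          rw [← hxu]
          have : x⁻¹ = x := inv_eq_of_mul_eq_one_left hx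
          rw [this, ← mul_assoc, ← mul_assoc, hx, one_mul]
        rw [mul_assoc, h1, ← mul_assoc, huu]
      have hu4 : u ^ 2 ^ 2 = 1 := by
        have : u ^ 2 ^ 2 = (u * u) * (u * u) := by
          rw [← pow_two, ← pow_two]
          exact pow_mul u 2 2
        rw [this, huu, h.ii]
      have huS : u ∈ (S : Subgroup X) :=
        mem_of_mem_normalizer S (h.normalizes hj.o hj.ne hj.s (by
          rw [key j hjj hju]; exact mul_mem (h.iS S) hj.s)) hu4
      have huT : u ∈ (T : Subgroup X) :=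
        mem_of_mem_normalizer T (h.normalizes hk.o hk.ne hk.s (by
          rw [key k hkk hku]; exact mul_mem (h.iS T) hk.s)) hu4
      have huZ : u ∈ Z := by
        refine mem_of_pow_card (h.hC S T hST) (le_inf (h.hle S) (h.hle T)) ⟨huS, huT⟩ ?_
        obtain ⟨c, hc⟩ := h.four_dvd
        rw [hc, pow_mul]
        have : u ^ 4 = 1 := hu4
        rw [this, one_pow]
      have h5 : u * j = j * u := (mem_centralizer_iff.mp hj.c) u huZ
      have h6 : j * u * j⁻¹ = u := by rw [← h5]; group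
      rw [h6] at hju
      have h7 : u * u = 1 := by
        calc u * u = u * u⁻¹ := by rw [← hju]
          _ = 1 := mul_inv_cancel u
      rw [huu] at h7
      have h8 := h.i2
      rw [h7, orderOf_one] at h8
      omega
    · -- `|jk| = 2m`, `m` odd
      set m := orderOf r / 2 with hmdef
      have hm : orderOf r = 2 * m := by
        obtain ⟨c, hc⟩ := he; omega
      have hmo : Odd m := by
        rcases Nat.even_or_odd m with ⟨c, hc⟩ | ho
        · exfalso; apply h4; exact ⟨c, by omega⟩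
        · exact ho
      have hij := h.I_mul hj
      have h5 : i * j * k = i * r := by rw [hr]; group
      have h6 : (i * r) ^ m = 1 := by
        have hc : Commute i r := (h.comm r).symm
        rw [hc.mul_pow, show r ^ m = i from hli]
        obtain ⟨c, hc⟩ := hmo
        rw [hc, pow_add, pow_mul, pow_two, h.ii, one_pow, pow_one, one_mul, h.ii]
      have h7 : Odd (orderOf (i * j * k)) := by
        rw [h5]
        exact Odd.of_dvd_nat hmo (orderOf_dvd_of_pow_eq_one h6)
      obtain ⟨a, ha⟩ := H4.conj_of_odd (mul_self_of_order hij.o) hkk h7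
      refine ⟨(i * j * k) ^ a, pow_mem (mul_mem hij.c hk.c) a, Or.inr ?_⟩
      set g := (i * j * k) ^ a
      have h8 : g * (i * j) * g⁻¹ = i * (g * j * g⁻¹) := by
        rw [← mul_assoc, h.comm g]; group
      rw [h8] at ha
      rw [← ha, ← mul_assoc, h.ii, one_mul]
  · obtain ⟨a, ha⟩ := H4.conj_of_odd hjj hkk ho
    exact ⟨r ^ a, pow_mem hrC a, Or.inl ha⟩

theorem HypI.pair (h : HypI Z i) {S : Sylow 2 X} {j k : X} (hj : HypI.I Z i S j)
    (hk : HypI.I Z i S k) :
    ∃ g ∈ centralizer (Z : Set X), g ∈ normalizer ((S : Subgroup X) : Set X) ∧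
      (g * j * g⁻¹ = k ∨ g * j * g⁻¹ = i * k) := by
  obtain ⟨T, hT⟩ := h.exists_ne S
  obtain ⟨g, hg⟩ := MulAction.exists_smul_eq X S T
  have hk' := h.I_conj hj g
  rw [hg] at hk'
  set k' := g * j * g⁻¹
  obtain ⟨a, haC, ha⟩ := h.conj_or hT hj hk'
  obtain ⟨b, hbC, hb⟩ := h.conj_or hT hk hk'
  have hcom : ∀ x y : X, x * (i * y) * x⁻¹ = i * (x * y * x⁻¹) := by
    intro x y
    rw [← mul_assoc, h.comm x]; group
  have h1 : (b⁻¹ * a) * j * (b⁻¹ * a)⁻¹ = k ∨ (b⁻¹ * a) * j * (b⁻¹ * a)⁻¹ = i * k := by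
    have e1 : (b⁻¹ * a) * j * (b⁻¹ * a)⁻¹ = b⁻¹ * (a * j * a⁻¹) * b⁻¹⁻¹ := by group
    rw [e1]
    have e2 : b⁻¹ * (b * k * b⁻¹) * b⁻¹⁻¹ = k := by group
    rcases ha with ha | ha <;> rcases hb with hb | hb <;> rw [ha]
    · left; rw [← hb]; exact e2
    · right
      have e3 : k' = i * (b * k * b⁻¹) := by rw [hb, ← mul_assoc, h.ii, one_mul]
      rw [e3, hcom, e2]
    · right
      rw [hcom, ← hb, e2]
    · left
      rw [← hb]; exact e2
  refine ⟨b⁻¹ * a, mul_mem (inv_mem hbC) haC, ?_, h1⟩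
  refine h.normalizes hj.o hj.ne hj.s ?_
  rcases h1 with h1 | h1
  · rw [h1]; exact hk.s
  · rw [h1]; exact mul_mem (h.iS S) hk.s

end Cfsg.Agent.H20.CycInt
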