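import Cfsg.Agent.H20.CycI1
import Cfsg.Agent.H20.TwoComp

set_option autoImplicit false
set_option linter.unusedSectionVars false
open Cfsg

namespace Cfsg.Agent.H20.CycInt
open Subgroup

universe u
variable {X : Type u} [Group X] [Finite X] {Z : Subgroup X} {i : X}

theorem Hyp.index_C (h : Hyp Z) : ∃ k, (centralizer (Z : Set X)).index = 2 ^ k := by
  have hn := h.hn
  have hcyc := h.cyc
  obtain ⟨k, hk⟩ := IsPGroup.iff_card.mp h.pgroup
  let φ : X →* MulAut Z := MulAut.conjNormal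
  have hker : φ.ker ≤ centralizer (Z : Set X) := by
    intro x hx
    rw [mem_centralizer_iff]
    intro f hf
    have h1 := congrArg (fun a => ((a ⟨f, hf⟩ : Z) : X)) (MonoidHom.mem_ker.mp hx)
    have h2 : x * f * x⁻¹ = f := h1
    exact (mul_inv_eq_iff_eq_mul.mp h2).symm
  have hidx : φ.ker.index ∣ 2 ^ k := by
    rw [Subgroup.index_ker]
    refine (Subgroup.card_subgroup_dvd_card φ.range).trans ?_
    rw [IsCyclic.card_mulAut, hk]
    rcases Nat.eq_zero_or_pos k with h | h
    · rw [h]; simp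
    · rw [Nat.totient_prime_pow Nat.prime_two h]
      simp only [Nat.add_one_sub_one, mul_one]
      exact pow_dvd_pow 2 (by omega)
  have h3 := (index_dvd_of_le hker).trans hidx
  obtain ⟨b, -, hb⟩ := (Nat.dvd_prime_pow Nat.prime_two).mp h3
  exact ⟨b, hb⟩

theorem Hyp.mem_C_of_odd (h : Hyp Z) {g : X} {n : ℕ} (hn : Odd n) (hg : g ^ n = 1) :
    g ∈ centralizer (Z : Set X) := by
  have hN := h.hn
  obtain ⟨k, hk⟩ := h.index_C
  have h1 : g ^ 2 ^ k ∈ centralizer (Z : Set X) := by
    rw [← hk]; exact pow_index_mem _ g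
  have h2 : Nat.Coprime (2 ^ k) n := (Nat.coprime_two_left.mpr hn).pow_left k
  have h3 := Nat.gcd_eq_gcd_ab (2 ^ k) n
  rw [show Nat.gcd (2 ^ k) n = 1 from h2] at h3
  have h4 : g = (g ^ 2 ^ k) ^ (Nat.gcdA (2 ^ k) n) * (g ^ n) ^ (Nat.gcdB (2 ^ k) n) := by
    rw [← zpow_natCast, ← zpow_natCast, ← zpow_mul, ← zpow_mul, ← zpow_add, ← h3]; simp
  rw [h4, hg, one_zpow, mul_one]
  exact zpow_mem h1 _

theorem Hyp.solvable_of_C (h : Hyp Z) (hs : Group.IsSolvable (centralizer (Z : Set X))) : False := by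
  have hf : Fact (Nat.Prime 2) := ⟨Nat.prime_two⟩
  have hN := h.hn
  apply h.hns
  rw [Group.isSolvable_iff_subgroup_quotient (centralizer (Z : Set X))]
  refine ⟨hs, ?_⟩
  obtain ⟨k, hk⟩ := h.index_C
  have h1 : IsPGroup 2 (X ⧸ centralizer (Z : Set X)) := IsPGroup.of_card (n := k) hk
  have := h1.isNilpotent
  infer_instance

theorem solvable_of_complement {G : Type u} [Group G] [Finite G] (h : HasNormalPComplement 2 G) :
    Group.IsSolvable G := by
  have hf : Fact (Nat.Prime 2) := ⟨Nat.prime_two⟩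
  obtain ⟨N, hN, h2, k, hk⟩ := H2.hasNormalPComplement_iff.mp h
  rw [Group.isSolvable_iff_subgroup_quotient N]
  refine ⟨FT.odd_order ?_, ?_⟩
  · rw [← Nat.not_even_iff_odd, even_iff_two_dvd]; exact h2
  · have h1 : IsPGroup 2 (G ⧸ N) := IsPGroup.of_card (n := k) hk
    have := h1.isNilpotent
    infer_instance

/-- `S ∩ C(Z)` is not cyclic. -/
theorem Hyp.not_cyclic (h : Hyp Z) (S : Sylow 2 X) :
    ¬ IsCyclic ↥((S : Subgroup X) ⊓ centralizer (Z : Set X)) := by
  intro hc
  have hf : Fact (Nat.Prime 2) := ⟨Nat.prime_two⟩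
  have hN := h.hn
  obtain ⟨Q, hQ⟩ := H2.exists_sylow_of_normal S (centralizer (Z : Set X))
  have hQc : IsCyclic (Q : Subgroup (centralizer (Z : Set X))) := by
    have h1 : ((Q : Subgroup (centralizer (Z : Set X))).map (centralizer (Z : Set X)).subtype) =
        (S : Subgroup X) ⊓ centralizer (Z : Set X) := by
      rw [hQ, subgroupOf_map_subtype]
    have e := ((Q : Subgroup (centralizer (Z : Set X))).equivMapOfInjective _ (centralizer (Z : Set X)).subtype_injective)
    rw [h1] at e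
    exact isCyclic_of_surjective e.symm e.symm.surjective
  exact h.solvable_of_C (solvable_of_complement (hasNormalPComplement_of_cyclic Q hQc))

/-- A `P`-invariant pair of involutions. -/
theorem HypI.exists_inv_pair (h : HypI Z i) (S : Sylow 2 X) :
    ∃ j, HypI.I Z i S j ∧ ∀ p ∈ (S : Subgroup X), p ∈ centralizer (Z : Set X) →
      (p * j * p⁻¹ = j ∨ p * j * p⁻¹ = i * j) := by
  have hf : Fact (Nat.Prime 2) := ⟨Nat.prime_two⟩
  have hN := h.hn
  set P := (S : Subgroup X) ⊓ centralizer (Z : Set X) with hP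
  have hPG : IsPGroup 2 P := S.isPGroup'.to_le inf_le_left
  have hiP : i ∈ P := ⟨h.iS S, h.iC⟩
  have hcycZ := h.cyc
  have hZP : Z ≤ P := by
    refine le_inf (h.hle S) ?_
    intro z hz
    rw [mem_centralizer_iff]
    intro w hw
    exact comm_of_cyc h.cyc hw hz
  -- a normal four-group
  obtain ⟨E, hEn, hE4, hE2⟩ : ∃ E : Subgroup P, E.Normal ∧ Nat.card E = 2 ^ 2 ∧ ∀ a ∈ E, a ^ 2 = 1 := by
    by_contra hcon
    push Not at hcon
    rcases H23.cyclic_or_dqs hPG (fun E hE hE4 hall => by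
      obtain ⟨a, ha, ha2⟩ := hcon E hE hE4
      exact ha2 (hall a ha)) with hc | ⟨-, n, hd⟩
    · exact h.not_cyclic S hc
    · obtain ⟨hn, u, x, c, hu, hi, hx, hact, hxx⟩ := hd.data
      have hcen := H23.DQS.center_eq hn hPG hu hi hx hact
      have h1 : Z.subgroupOf P ≤ center P := by
        intro z hz
        rw [mem_center_iff]
        intro g
        apply Subtype.ext
        exact ((mem_centralizer_iff.mp g.2.2) (z : X) (mem_subgroupOf.mp hz)).symm
      have h2 : Nat.card (Z.subgroupOf P) = Nat.card Z := Nat.card_congr (Subgroup.subgroupOfEquivOfLe hZP).toEquiv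
      have h3 := card_dvd_of_le h1
      rw [hcen, Nat.card_zpowers, h2] at h3
      have h4 : orderOf (u ^ 2 ^ n) = 2 := by
        rw [orderOf_pow_of_dvd (by positivity) (by rw [hu, pow_succ]; exact Dvd.intro _ rfl), hu, pow_succ]
        exact Nat.mul_div_cancel_left 2 (by positivity)
      rw [h4] at h3
      have h5 := Nat.le_of_dvd (by norm_num) (h.four_dvd.trans h3)
      omega
  -- mk of membership
  have mkI : ∀ a : P, a ∈ E → a ≠ 1 → (a : X) ≠ i → HypI.I Z i S (a : X) := by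
    intro a ha ha1 hai
    refine ⟨order_of_mul_self ?_ ?_, hai, a.2.2, a.2.1⟩
    · have := congrArg Subtype.val (hE2 a ha)
      rw [coe_pow, pow_two] at this
      exact this
    · intro h1; exact ha1 (Subtype.ext h1)
  by_cases hiE : (⟨i, hiP⟩ : P) ∈ E
  · -- pick `j ∈ E`, `j ≠ 1, i`
    have h1 : ∃ a ∈ E, a ≠ 1 ∧ a ≠ ⟨i, hiP⟩ := by
      by_contra hcon
      push Not at hcon
      have h2 : E ≤ zpowers (⟨i, hiP⟩ : P) := by
        intro a ha
        by_cases ha1 : a = 1
        · rw [ha1]; exact one_mem _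
        · rw [hcon a ha ha1]; exact mem_zpowers _
      have h3 := card_le_of_le h2
      rw [hE4, Nat.card_zpowers, ← orderOf_coe] at h3
      rw [h.i2] at h3
      omega
    obtain ⟨a, haE, ha1, hai⟩ := h1
    have hI := mkI a haE ha1 (fun h1 => hai (Subtype.ext h1))
    refine ⟨a, hI, ?_⟩
    intro p hp hpC
    have h4 : (⟨p, hp, hpC⟩ : P) * a * (⟨p, hp, hpC⟩ : P)⁻¹ ∈ E := hEn.conj_mem a haE _
    -- `E = {1, i, a, ia}`
    by_contra hcon
    push Not at hcon
    have hia := h.I_mul hI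
    have h5 : (4 : ℕ) < Nat.card E := by
      classical
      have : Fintype E := Fintype.ofFinite _
      rw [Nat.card_eq_fintype_card, ← Finset.card_univ]
      set b : P := (⟨p, hp, hpC⟩ : P) * a * (⟨p, hp, hpC⟩ : P)⁻¹ with hb
      have hbX : (b : X) = p * a * p⁻¹ := rfl
      have hiaE : (⟨i, hiP⟩ : P) * a ∈ E := mul_mem hiE haE
      have hbI := HypI.I_conj h hI p
      have h6 : ({⟨1, one_mem _⟩, ⟨⟨i, hiP⟩, hiE⟩, ⟨a, haE⟩, ⟨_, hiaE⟩, ⟨b, h4⟩} : Finset E).card = 5 := by
        have e1 : (i : X) ≠ 1 := by intro h7; have h8 := h.i2; rw [h7, orderOf_one] at h8; omega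
        have eI : ∀ {j : X}, HypI.I Z i S j → j ≠ 1 := by
          intro j hj h7; have h8 := hj.o; rw [h7, orderOf_one] at h8; omega
        have eI' : ∀ {j : X} {T : Sylow 2 X}, HypI.I Z i T j → j ≠ 1 := by
          intro j T hj h7; have h8 := hj.o; rw [h7, orderOf_one] at h8; omega
        rw [Finset.card_eq_succ]
        refine ⟨⟨1, one_mem _⟩, {⟨⟨i, hiP⟩, hiE⟩, ⟨a, haE⟩, ⟨_, hiaE⟩, ⟨b, h4⟩}, ?_, rfl, ?_⟩
        · simp only [Finset.mem_insert, Finset.mem_singleton, not_or, Subtype.mk.injEq]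
          refine ⟨fun h7 => e1 (congrArg Subtype.val h7).symm, fun h7 => eI hI (congrArg Subtype.val h7).symm,
            fun h7 => eI hia (congrArg Subtype.val h7).symm, fun h7 => eI' hbI (congrArg Subtype.val h7).symm⟩
        rw [Finset.card_eq_succ]
        refine ⟨⟨⟨i, hiP⟩, hiE⟩, {⟨a, haE⟩, ⟨_, hiaE⟩, ⟨b, h4⟩}, ?_, rfl, ?_⟩
        · simp only [Finset.mem_insert, Finset.mem_singleton, not_or, Subtype.mk.injEq]
          refine ⟨fun h7 => hai h7.symm, fun h7 => hia.ne (congrArg Subtype.val h7).symm,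
            fun h7 => hbI.ne (congrArg Subtype.val h7).symm⟩
        rw [Finset.card_eq_three]
        refine ⟨_, _, _, ?_, ?_, ?_, rfl⟩
        · intro h7
          have h8 : (a : X) = i * a := congrArg (fun t : E => ((t : P) : X)) h7
          exact e1 (mul_eq_right.mp h8.symm)
        · intro h7
          have h8 : (a : X) = p * a * p⁻¹ := congrArg (fun t : E => ((t : P) : X)) h7
          exact hcon.1 h8.symm
        · intro h7
          have h8 : i * (a : X) = p * a * p⁻¹ := congrArg (fun t : E => ((t : P) : X)) h7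
          exact hcon.2 h8.symm
      have h7 := Finset.card_le_card (Finset.subset_univ ({⟨1, one_mem _⟩, ⟨⟨i, hiP⟩, hiE⟩, ⟨a, haE⟩, ⟨_, hiaE⟩, ⟨b, h4⟩} : Finset E))
      rw [h6] at h7
      exact h7
    rw [hE4] at h5
    omega
  · have hEne : E ≠ ⊥ := by
      intro h1
      rw [h1, Subgroup.card_bot] at hE4
      omega
    have h1 := H23.inf_center_ne_bot hPG hEne
    obtain ⟨a, ha1⟩ := Subgroup.ne_bot_iff_exists_ne_one.mp h1
    have haE : a.1 ∈ E := a.2.1
    have hac : a.1 ∈ center P := a.2.2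
    have ha1' : a.1 ≠ 1 := fun h2 => ha1 (Subtype.ext h2)
    have hI := mkI a.1 haE ha1' (by
      intro h2; apply hiE
      have : (⟨i, hiP⟩ : P) = a.1 := Subtype.ext h2.symm
      rw [this]; exact haE)
    refine ⟨(a.1 : X), hI, ?_⟩
    intro p hp hpC
    left
    have h3 : (⟨p, hp, hpC⟩ : P) * a.1 = a.1 * ⟨p, hp, hpC⟩ := (mem_center_iff.mp hac) _
    have h4 : p * (a.1 : X) = a.1 * p := congrArg Subtype.val h3
    rw [h4]; group

end Cfsg.Agent.H20.CycInt
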