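import Cfsg.Agent.H20.CycI2

set_option autoImplicit false
set_option linter.unusedSectionVars false
open Cfsg

namespace Cfsg.Agent.H20.CycInt
open Subgroup

universe u
variable {X : Type u} [Group X] [Finite X] {Z : Subgroup X} {i : X}

theorem HypI.conj_mul (h : HypI Z i) (x y : X) : x * (i * y) * x⁻¹ = i * (x * y * x⁻¹) := by
  rw [← mul_assoc, h.comm x]; group

/-- all pairs are `P`-invariant -/
theorem HypI.inv_pair (h : HypI Z i) {S : Sylow 2 X} {k : X} (hk : HypI.I Z i S k) {p : X}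
    (hp : p ∈ (S : Subgroup X)) (hpC : p ∈ centralizer (Z : Set X)) :
    p * k * p⁻¹ = k ∨ p * k * p⁻¹ = i * k := by
  have hN := h.hn
  obtain ⟨j, hj, hinv⟩ := h.exists_inv_pair S
  obtain ⟨g, hgC, hgS, hg⟩ := h.pair hj hk
  have hp' : g⁻¹ * p * g ∈ (S : Subgroup X) := by
    have := (mem_normalizer_iff.mp (inv_mem hgS) p).mp hp
    rwa [inv_inv] at this
  have hpC' : g⁻¹ * p * g ∈ centralizer (Z : Set X) := mul_mem (mul_mem (inv_mem hgC) hpC) hgC
  have h1 := hinv _ hp' hpC'
  have h2 : p * (g * j * g⁻¹) * p⁻¹ = g * ((g⁻¹ * p * g) * j * (g⁻¹ * p * g)⁻¹) * g⁻¹ := by group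
  have h3 : p * (g * j * g⁻¹) * p⁻¹ = g * j * g⁻¹ ∨ p * (g * j * g⁻¹) * p⁻¹ = i * (g * j * g⁻¹) := by
    rw [h2]
    rcases h1 with h1 | h1
    · left; rw [h1]
    · right; rw [h1, h.conj_mul]
  rcases hg with hg | hg
  · rw [hg] at h3; exact h3
  · rw [hg] at h3
    rw [h.conj_mul] at h3
    rcases h3 with h3 | h3
    · left; exact mul_left_cancel h3
    · right; exact mul_left_cancel h3

/-- There are at least two pairs. -/
theorem HypI.exists_other (h : HypI Z i) {S : Sylow 2 X} {j : X} (hj : HypI.I Z i S j) :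
    ∃ k, HypI.I Z i S k ∧ k ≠ j ∧ k ≠ i * j := by
  by_contra hcon
  push Not at hcon
  have hf : Fact (Nat.Prime 2) := ⟨Nat.prime_two⟩
  have hN := h.hn
  apply h.hns
  have hcen : zpowers i ≤ center X := by rw [zpowers_le]; exact h.central
  have hWn : (zpowers i).Normal := by
    refine ⟨fun a ha g => ?_⟩
    have := mem_center_iff.mp (hcen ha) g
    rw [this, mul_inv_cancel_right]; exact ha
  have hWcases : ∀ w ∈ zpowers i, w = 1 ∨ w = i := by
    intro w hw
    obtain ⟨k, hk⟩ := mem_zpowers_iff.mp hw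
    have h2 : i ^ (2 : ℤ) = 1 := by
      have := h.ii
      rw [← pow_two] at this; exact_mod_cast this
    rcases Int.even_or_odd k with ⟨c, hc⟩ | ⟨c, hc⟩
    · left; rw [← hk, hc, ← two_mul, zpow_mul, h2, one_zpow]
    · right; rw [← hk, hc, zpow_add, zpow_mul, h2, one_zpow, one_mul, zpow_one]
  let π := QuotientGroup.mk' (zpowers i)
  have hπ : Function.Surjective π := QuotientGroup.mk'_surjective _
  -- the image of `S`
  let P := Sylow.mapSurjective hπ S
  have hPm : (P : Subgroup (X ⧸ zpowers i)) = (S : Subgroup X).map π := rfl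
  have hjπ : orderOf (π j) = 2 := by
    apply order_of_mul_self
    · rw [← map_mul, mul_self_of_order hj.o, map_one]
    · intro h1
      have h2 : j ∈ zpowers i := (QuotientGroup.eq_one_iff j).mp h1
      rcases hWcases j h2 with h3 | h3
      · have := hj.o; rw [h3, orderOf_one] at this; omega
      · exact hj.ne h3
  have hiso : IsIsolatedInvolution (π j) := by
    refine H4.isolated_of_sylow P hjπ ?_
    intro q hq
    obtain ⟨g, rfl⟩ := hπ q
    have h1 : π (g * j * g⁻¹) ∈ (P : Subgroup (X ⧸ zpowers i)) := by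
      rw [map_mul, map_mul, map_inv]; exact hq
    rw [hPm] at h1
    obtain ⟨s, hs, hsg⟩ := h1
    have h2 : s⁻¹ * (g * j * g⁻¹) ∈ zpowers i := QuotientGroup.eq.mp hsg
    have h3 : g * j * g⁻¹ ∈ (S : Subgroup X) := by
      have h4 : g * j * g⁻¹ = s * (s⁻¹ * (g * j * g⁻¹)) := by group
      rw [h4]
      refine mul_mem hs ?_
      exact (zpowers_le.mpr (h.iS S)) h2
    have h5 := h.I_conj hj g
    have h6 : HypI.I Z i S (g * j * g⁻¹) := ⟨h5.o, h5.ne, h5.c, h3⟩
    have h7 : g * j * g⁻¹ = j ∨ g * j * g⁻¹ = i * j := by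
      by_cases h8 : g * j * g⁻¹ = j
      · exact Or.inl h8
      · exact Or.inr (hcon _ h6 h8)
    have h9 : π (g * j * g⁻¹) = π j := by
      rcases h7 with h7 | h7
      · rw [h7]
      · rw [h7, map_mul]
        have : π i = 1 := (QuotientGroup.eq_one_iff i).mpr (mem_zpowers i)
        rw [this, one_mul]
    simpa only [map_mul, map_inv] using h9
  -- `Z*`
  set K := oddCore (X ⧸ zpowers i) with hK
  have hKn : K.Normal := H1.pPrimeCore_normal 2 _
  have hKodd : Odd (Nat.card K) := by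
    have := H1.pPrimeCore_coprime 2 (X ⧸ zpowers i)
    exact Nat.coprime_two_left.mp (by simpa [Nat.coprime_comm] using this)
  rw [Group.isSolvable_iff_subgroup_quotient (zpowers i)]
  refine ⟨inferInstance, ?_⟩
  rw [Group.isSolvable_iff_subgroup_quotient K]
  refine ⟨FT.odd_order hKodd, ?_⟩
  have hNs := solvable_normalizer S
  let ψ : normalizer ((S : Subgroup X) : Set X) →* (X ⧸ zpowers i) ⧸ K :=
    ((QuotientGroup.mk' K).comp π).comp (normalizer ((S : Subgroup X) : Set X)).subtype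
  refine Group.isSolvable_of_surjective (f := ψ) ?_
  intro q
  obtain ⟨y, rfl⟩ := QuotientGroup.mk'_surjective K q
  obtain ⟨k, hk, c, hc, rfl⟩ := H4.zstar_factor hiso y
  obtain ⟨g, rfl⟩ := hπ c
  have h1 : π g * π j = π j * π g := ((mem_centralizer_iff.mp hc) _ rfl).symm
  have h2 : π (g * j * g⁻¹) = π j := by
    rw [map_mul, map_mul, h1, map_inv]; group
  have h3 : (g * j * g⁻¹)⁻¹ * j ∈ zpowers i := QuotientGroup.eq.mp h2
  have h4 : g * j * g⁻¹ ∈ (S : Subgroup X) := by
    have h5 : g * j * g⁻¹ = j * ((g * j * g⁻¹)⁻¹ * j)⁻¹ := by group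
    rw [h5]
    exact mul_mem hj.s (inv_mem ((zpowers_le.mpr (h.iS S)) h3))
  have h5 : g ∈ normalizer ((S : Subgroup X) : Set X) := h.normalizes hj.o hj.ne hj.s h4
  refine ⟨⟨g, h5⟩, ?_⟩
  show (QuotientGroup.mk' K) (π g) = (QuotientGroup.mk' K) (k * π g)
  rw [map_mul, show (QuotientGroup.mk' K) k = 1 from (QuotientGroup.eq_one_iff k).mpr hk, one_mul]

end Cfsg.Agent.H20.CycInt
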