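import Cfsg.Agent.H20.CycI3

set_option autoImplicit false
set_option linter.unusedSectionVars false
open Cfsg

namespace Cfsg.Agent.H20.CycInt
open Subgroup

universe u
variable {X : Type u} [Group X] [Finite X] {Z : Subgroup X} {i : X}

/-- A complement to a Sylow subgroup in its normalizer. -/
theorem exists_complement (S : Sylow 2 X) : ∃ V : Subgroup X, V ≤ normalizer ((S : Subgroup X) : Set X) ∧
    Odd (Nat.card V) ∧ ∀ g ∈ normalizer ((S : Subgroup X) : Set X), ∃ s ∈ (S : Subgroup X), ∃ v ∈ V, g = s * v := by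
  have hf : Fact (Nat.Prime 2) := ⟨Nat.prime_two⟩
  set N := normalizer ((S : Subgroup X) : Set X) with hN
  have hn : ((S : Subgroup X).subgroupOf N).Normal := Subgroup.normal_in_normalizer
  have hodd : Odd ((S : Subgroup X).subgroupOf N).index := by
    have h3 := relIndex_mul_index (le_normalizer : (S : Subgroup X) ≤ N)
    have h4 := odd_index_sylow S
    rw [← h3] at h4
    exact (Nat.odd_mul.mp h4).1
  have hcard : Nat.card ((S : Subgroup X).subgroupOf N) = Nat.card (S : Subgroup X) :=
    Nat.card_congr (Subgroup.subgroupOfEquivOfLe le_normalizer).toEquiv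
  obtain ⟨k, hk⟩ := IsPGroup.iff_card.mp S.isPGroup'
  have hcop : Nat.Coprime (Nat.card ((S : Subgroup X).subgroupOf N)) ((S : Subgroup X).subgroupOf N).index := by
    rw [hcard, hk]
    exact (Nat.coprime_two_left.mpr hodd).pow_left k
  obtain ⟨V, hV⟩ := Subgroup.exists_right_complement'_of_coprime hcop
  refine ⟨V.map N.subtype, ?_, ?_, ?_⟩
  · rintro _ ⟨v, -, rfl⟩; exact v.2
  · rw [card_map_of_injective N.subtype_injective]
    rw [hV.symm.index_eq_card] at hodd
    exact hodd
  · intro g hg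
    have h1 : (⟨g, hg⟩ : N) ∈ ((S : Subgroup X).subgroupOf N) ⊔ V := by
      rw [hV.sup_eq_top]; exact mem_top _
    obtain ⟨s, hs, v, hv, hsv⟩ := mem_sup_of_normal_left.mp h1
    exact ⟨(s : X), mem_subgroupOf.mp hs, (v : X), ⟨v, hv, rfl⟩, (congrArg Subtype.val hsv).symm⟩

theorem quat_aux (m : ℕ) (k r : ZMod (2 * m))
    (h : (QuaternionGroup.a k * QuaternionGroup.xa r * (QuaternionGroup.a k)⁻¹) * QuaternionGroup.xa r =
      QuaternionGroup.xa r * (QuaternionGroup.a k * QuaternionGroup.xa r * (QuaternionGroup.a k)⁻¹)) :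
    (QuaternionGroup.a k * QuaternionGroup.a k) * (QuaternionGroup.a k * QuaternionGroup.a k) = (1 : QuaternionGroup m) := by
  have hinv : (QuaternionGroup.a k : QuaternionGroup m)⁻¹ = QuaternionGroup.a (-k) := by
    apply inv_eq_of_mul_eq_one_left
    rw [QuaternionGroup.a_mul_a, neg_add_cancel, QuaternionGroup.a_zero]
  rw [hinv] at h
  simp only [QuaternionGroup.a_mul_xa, QuaternionGroup.xa_mul_a, QuaternionGroup.xa_mul_xa, QuaternionGroup.a_mul_a] at h ⊢
  rw [QuaternionGroup.one_def]
  have h2 := QuaternionGroup.a.inj h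
  congr 1
  linear_combination h2

theorem quat_aux2 (m : ℕ) (k : ZMod (2 * m)) :
    (QuaternionGroup.xa k * QuaternionGroup.xa k) * (QuaternionGroup.xa k * QuaternionGroup.xa k) = (1 : QuaternionGroup m) := by
  simp only [QuaternionGroup.xa_mul_xa, QuaternionGroup.a_mul_a]
  rw [QuaternionGroup.one_def]
  congr 1
  have : ((2 * m : ℕ) : ZMod (2 * m)) = 0 := ZMod.natCast_self _
  push_cast at this
  linear_combination this

theorem HypI.exists_sq (h : HypI Z i) (S : Sylow 2 X) :
    ∃ x ∈ (S : Subgroup X), x ∉ centralizer (Z : Set X) ∧ x * x ∈ Z := by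
  have hf : Fact (Nat.Prime 2) := ⟨Nat.prime_two⟩
  have hN := h.hn
  set C := centralizer (Z : Set X) with hC
  obtain ⟨V, hVN, hVodd, hVdec⟩ := exists_complement S
  have hVC : V ≤ C := fun v hv => h.mem_C_of_odd hVodd (H4.pow_card_of_mem hv)
  set P := (S : Subgroup X) ⊓ C with hP
  have hVP : V ≤ normalizer (P : Set X) := by
    intro v hv
    rw [mem_normalizer_iff]
    intro p
    have h1 := mem_normalizer_iff.mp (hVN hv) p
    have h2 : p ∈ C ↔ v * p * v⁻¹ ∈ C := by
      constructor
      · intro hp; exact centralizer_conj_mem v hp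
      · intro hp
        have := centralizer_conj_mem v⁻¹ hp
        have e : v⁻¹ * (v * p * v⁻¹) * v⁻¹⁻¹ = p := by group
        rwa [e] at this
    constructor
    · intro hp; exact ⟨h1.mp hp.1, h2.mp hp.2⟩
    · intro hp; exact ⟨h1.mpr hp.1, h2.mpr hp.2⟩
  -- an element of `S` outside `C`
  obtain ⟨x, hxS, hxC⟩ : ∃ x ∈ (S : Subgroup X), x ∉ C := by
    by_contra hcon
    push Not at hcon
    obtain ⟨k, hk⟩ := h.index_C
    have h1 : C.index ∣ (S : Subgroup X).index := index_dvd_of_le hcon
    have h2 := Odd.of_dvd_nat (odd_index_sylow S) h1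
    rw [hC, hk] at h2
    have h3 : k = 0 := by
      by_contra hk0
      rw [Nat.odd_pow_iff hk0] at h2
      exact absurd h2 (by decide)
    rw [h3, pow_zero] at hk
    have h4 : centralizer (Z : Set X) = ⊤ := index_eq_one.mp hk
    apply h.hnc
    intro z hz
    rw [mem_center_iff]
    intro g
    have hg : g ∈ centralizer (Z : Set X) := by rw [h4]; exact mem_top _
    exact ((mem_centralizer_iff.mp hg) z hz).symm
  obtain ⟨kP, hkP⟩ := IsPGroup.iff_card.mp (S.isPGroup'.to_le (inf_le_left : P ≤ S))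
  have hcop : (Nat.card V).Coprime (Nat.card P) := by
    rw [hkP]
    exact ((Nat.coprime_two_left.mpr hVodd).pow_left kP).symm
  obtain ⟨n, hn, hxn⟩ := H23.exists_mem_coset_centralizer hVP hcop
    (Or.inr (by
      have := (S.isPGroup'.to_le (inf_le_left : P ≤ S)).isNilpotent
      infer_instance)) (g := x) (by
      intro a ha
      have e : x⁻¹ * a * x * a⁻¹ = x⁻¹ * (a * x * a⁻¹) := by group
      refine mem_inf.mpr ⟨?_, ?_⟩
      · rw [e]
        exact mul_mem (inv_mem hxS) ((mem_normalizer_iff.mp (hVN ha) x).mp hxS)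
      · have h1 := centralizer_conj_mem x⁻¹ (hVC ha)
        rw [inv_inv] at h1
        exact mul_mem h1 (inv_mem (hVC ha)))
  set x0 := x * n with hx0
  have hx0S : x0 ∈ (S : Subgroup X) := mul_mem hxS hn.1
  have hx0C : x0 ∉ C := by
    intro h1
    apply hxC
    have e : x = x0 * n⁻¹ := by rw [hx0]; group
    rw [e]; exact mul_mem h1 (inv_mem hn.2)
  -- no involution of `I` is centralized by `V`
  have hnofix : ∀ w, HypI.I Z i S w → w ∈ centralizer (V : Set X) → False := by
    intro w hw hwV
    obtain ⟨k, hk, hkw, hkiw⟩ := h.exists_other hw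
    obtain ⟨g, hgC, hgN, hg⟩ := h.pair hw hk
    obtain ⟨s, hs, v, hv, rfl⟩ := hVdec g hgN
    have hsC : s ∈ C := by
      have e : s = s * v * v⁻¹ := by group
      rw [e]; exact mul_mem hgC (inv_mem (hVC hv))
    have h1 : v * w = w * v := (mem_centralizer_iff.mp hwV) v hv
    have h2 : (s * v) * w * (s * v)⁻¹ = s * w * s⁻¹ := by
      calc (s * v) * w * (s * v)⁻¹ = s * (v * w) * v⁻¹ * s⁻¹ := by group
        _ = s * w * s⁻¹ := by rw [h1]; group
    rw [h2] at hg
    have hik : ∀ y : X, i * (i * y) = y := by intro y; rw [← mul_assoc, h.ii, one_mul]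
    rcases h.inv_pair hw hs hsC with h3 | h3 <;> rw [h3] at hg <;> rcases hg with hg | hg
    · exact hkw hg.symm
    · apply hkiw; rw [hg, hik]
    · exact hkiw hg.symm
    · apply hkw; exact (mul_left_cancel hg).symm
  set R := zpowers x0 ⊔ Z with hR
  have hRS : R ≤ (S : Subgroup X) := sup_le (zpowers_le.mpr hx0S) (h.hle S)
  have hRV : R ≤ centralizer (V : Set X) := by
    refine sup_le (zpowers_le.mpr hxn) ?_
    intro z hz
    rw [mem_centralizer_iff]
    intro v hv
    exact ((mem_centralizer_iff.mp (hVC hv)) z hz).symm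
  by_cases hcase : ∃ w ∈ R, w ∉ C ∧ orderOf w = 2
  · obtain ⟨w, hwR, hwC, hw2⟩ := hcase
    exact ⟨w, hRS hwR, hwC, by rw [mul_self_of_order hw2]; exact one_mem _⟩
  push Not at hcase
  have huniq : ∀ w ∈ R, orderOf w = 2 → w = i := by
    intro w hw hw2
    by_contra hne
    have hwC : w ∈ C := by
      by_contra h1
      exact hcase w hw h1 hw2
    exact hnofix w ⟨hw2, hne, hwC, hRS hw⟩ (hRV hw)
  have hx0R : x0 ∈ R := mem_sup_left (mem_zpowers x0)
  refine ⟨x0, hx0S, hx0C, ?_⟩
  have hRp : IsPGroup 2 R := S.isPGroup'.to_le hRS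
  have h4 : (x0 * x0) * (x0 * x0) = 1 := by
    rcases H23.cyclic_or_quaternion hRp (fun x y hx hy => by
      have hx' := huniq x x.2 (by rw [orderOf_coe]; exact hx)
      have hy' := huniq y y.2 (by rw [orderOf_coe]; exact hy)
      have : y = x := Subtype.ext (by rw [hx', hy'])
      rw [this]; exact mem_zpowers _) with hc | ⟨-, n, -, ⟨φ⟩⟩
    · exfalso
      apply hx0C
      rw [hC, mem_centralizer_iff]
      intro z hz
      exact comm_of_cyc hc (mem_sup_right hz) hx0R
    · have hmain : (φ ⟨x0, hx0R⟩ * φ ⟨x0, hx0R⟩) * (φ ⟨x0, hx0R⟩ * φ ⟨x0, hx0R⟩) = 1 := by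
        rcases hq : φ ⟨x0, hx0R⟩ with k | k
        · obtain ⟨z, hz, hne⟩ : ∃ z ∈ Z, z * x0 ≠ x0 * z := by
            by_contra hcon
            push Not at hcon
            apply hx0C
            rw [hC, mem_centralizer_iff]
            exact hcon
          have hzR : z ∈ R := mem_sup_right hz
          rcases hz' : φ ⟨z, hzR⟩ with r | r
          · exfalso
            apply hne
            have h1 : φ ⟨z, hzR⟩ * φ ⟨x0, hx0R⟩ = φ ⟨x0, hx0R⟩ * φ ⟨z, hzR⟩ := by
              rw [hq, hz', QuaternionGroup.a_mul_a, QuaternionGroup.a_mul_a, add_comm]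
            rw [← map_mul, ← map_mul] at h1
            exact congrArg Subtype.val (φ.injective h1)
          · apply quat_aux (2 ^ n) k r
            rw [← hq, ← hz', ← map_inv, ← map_mul, ← map_mul, ← map_mul, ← map_mul]
            congr 1
            apply Subtype.ext
            show (x0 * z * x0⁻¹) * z = z * (x0 * z * x0⁻¹)
            exact comm_of_cyc h.cyc (hN.conj_mem z hz x0) hz
        · exact quat_aux2 (2 ^ n) k
      rw [← map_mul, ← map_mul, ← map_one φ] at hmain
      exact congrArg Subtype.val (φ.injective hmain)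
  by_cases h5 : x0 * x0 = 1
  · rw [h5]; exact one_mem _
  · rw [huniq _ (mul_mem hx0R hx0R) (order_of_mul_self h4 h5)]
    exact h.iZ

end Cfsg.Agent.H20.CycInt
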