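import Cfsg.Agent.H20.CycI4
import Cfsg.Agent.H20.SylowTools

set_option autoImplicit false
set_option linter.unusedSectionVars false
open Cfsg

namespace Cfsg.Agent.H20.CycInt
open Subgroup

universe u
variable {X : Type u} [Group X] [Finite X] {Z : Subgroup X} {i : X}

theorem Hyp.Z_le_C (h : Hyp Z) : Z ≤ centralizer (Z : Set X) := by
  intro z hz
  rw [mem_centralizer_iff]
  intro w hw
  exact comm_of_cyc h.cyc hw hz

theorem HypI.exists_l (h : HypI Z i) {S T : Sylow 2 X} {j : X} (hj : HypI.I Z i S j)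
    {y : X} (hyT : y ∈ (T : Subgroup X)) (hyC : y ∉ centralizer (Z : Set X)) (hyy : y * y ∈ Z) :
    ∃ l ∈ (S : Subgroup X), l ∈ (T : Subgroup X) ∧ l ∉ Z ∧ l * l ∈ Z ∧ l⁻¹ * (j * l * j⁻¹) ∈ Z ∧
      l⁻¹ * (y * l * y⁻¹) ∈ Z := by
  have hf : Fact (Nat.Prime 2) := ⟨Nat.prime_two⟩
  have hN := h.hn
  let π := QuotientGroup.mk' Z
  have hjj : π j * π j = 1 := by rw [← map_mul, mul_self_of_order hj.o, map_one]
  have hyy' : π y * π y = 1 := by rw [← map_mul]; exact (QuotientGroup.eq_one_iff _).mpr hyy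
  have hn0 : 0 < orderOf (π j * π y) := orderOf_pos _
  rcases Nat.even_or_odd (orderOf (π j * π y)) with he | ho
  · have hl := H4.even_pow_half hn0.ne' he
    obtain ⟨hlj, hly⟩ := H4.commute_pow_half hjj hyy' hn0.ne' he
    set n := orderOf (π j * π y) / 2
    set l := (j * y) ^ n with hldef
    have hπl : π l = (π j * π y) ^ n := by rw [hldef, map_pow, map_mul]
    rw [← hπl] at hl hlj hly
    have hlZ : l ∉ Z := by
      intro h1
      have h2 : π l = 1 := (QuotientGroup.eq_one_iff _).mpr h1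
      rw [h2, orderOf_one] at hl; omega
    have hll : l * l ∈ Z := by
      have h1 : π (l * l) = 1 := by rw [map_mul]; exact mul_self_of_order hl
      exact (QuotientGroup.eq_one_iff _).mp h1
    have hjl : l⁻¹ * (j * l * j⁻¹) ∈ Z := by
      have h1 : π (l⁻¹ * (j * l * j⁻¹)) = 1 := by
        rw [map_mul, map_mul, map_mul, ← hlj.eq, map_inv, map_inv]; group
      exact (QuotientGroup.eq_one_iff _).mp h1
    have hyl : l⁻¹ * (y * l * y⁻¹) ∈ Z := by
      have h1 : π (l⁻¹ * (y * l * y⁻¹)) = 1 := by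
        rw [map_mul, map_mul, map_mul, ← hly.eq, map_inv, map_inv]; group
      exact (QuotientGroup.eq_one_iff _).mp h1
    obtain ⟨k, hk⟩ := IsPGroup.iff_card.mp h.pgroup
    have hlp : l ^ 2 ^ (k + 1) = 1 := by
      rw [pow_succ', pow_mul, pow_two, ← hk]
      exact H4.pow_card_of_mem hll
    have hlS : l ∈ (S : Subgroup X) := by
      refine mem_of_mem_normalizer S (h.normalizes hj.o hj.ne hj.s ?_) hlp
      have h1 : (l * j * l⁻¹) * j⁻¹ ∈ Z := by
        have h2 : π ((l * j * l⁻¹) * j⁻¹) = 1 := by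
          rw [map_mul, map_mul, map_mul, hlj.eq, map_inv, map_inv]; group
        exact (QuotientGroup.eq_one_iff _).mp h2
      have h3 : l * j * l⁻¹ = ((l * j * l⁻¹) * j⁻¹) * j := by group
      rw [h3]
      exact mul_mem (h.hle S h1) hj.s
    have hlT : l ∈ (T : Subgroup X) := by
      refine mem_of_mem_normalizer T (h.toHyp.normalizes hyC hyT ?_) hlp
      have h1 : (l * y * l⁻¹) * y⁻¹ ∈ Z := by
        have h2 : π ((l * y * l⁻¹) * y⁻¹) = 1 := by
          rw [map_mul, map_mul, map_mul, hly.eq, map_inv, map_inv]; group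
        exact (QuotientGroup.eq_one_iff _).mp h2
      have h3 : l * y * l⁻¹ = ((l * y * l⁻¹) * y⁻¹) * y := by group
      rw [h3]
      exact mul_mem (h.hle T h1) hyT
    exact ⟨l, hlS, hlT, hlZ, hll, hjl, hyl⟩
  · exfalso
    obtain ⟨k, hk⟩ := H4.conj_of_odd hjj hyy' ho
    set g := (j * y) ^ k with hg
    have hπg : π g = (π j * π y) ^ k := by rw [hg, map_pow, map_mul]
    rw [← hπg] at hk
    have h1 : (g * j * g⁻¹)⁻¹ * y ∈ Z := by
      have h2 : π (g * j * g⁻¹) = π y := by rw [map_mul, map_mul, map_inv]; exact hk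
      exact QuotientGroup.eq.mp h2
    apply hyC
    have h3 : y = (g * j * g⁻¹) * ((g * j * g⁻¹)⁻¹ * y) := by group
    rw [h3]
    exact mul_mem (centralizer_conj_mem g hj.c) (h.Z_le_C h1)

theorem HypI.l_unique (h : HypI Z i) {S T : Sylow 2 X} (hST : S ≠ T) {l g : X}
    (hl : l ∈ (S : Subgroup X) ⊓ T) (hg : g ∈ (S : Subgroup X) ⊓ T) (hll : l * l ∈ Z) (hgg : g * g ∈ Z)
    (hlZ : l ∉ Z) (hgZ : g ∉ Z) : l⁻¹ * g ∈ Z := by
  have hc := h.hC S T hST
  have hZle : Z ≤ (S : Subgroup X) ⊓ T := le_inf (h.hle S) (h.hle T)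
  refine mem_of_pow_card hc hZle (mul_mem (inv_mem hl) hg) ?_
  set n := Nat.card Z
  have key : ∀ w, w ∈ (S : Subgroup X) ⊓ T → w * w ∈ Z → w ∉ Z → orderOf (w ^ n) = 2 := by
    intro w hw hww hwZ
    apply order_of_mul_self
    · rw [← pow_two, ← pow_mul, mul_comm, pow_mul, pow_two]
      exact H4.pow_card_of_mem hww
    · intro h1; exact hwZ (mem_of_pow_card hc hZle hw h1)
  have h1 : l ^ n = g ^ n := inv_unique hc (pow_mem hl n) (pow_mem hg n) (key l hl hll hlZ) (key g hg hgg hgZ)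
  have h2 : Commute l⁻¹ g := by
    have : Commute l g := comm_of_cyc hc hl hg
    exact this.inv_left
  rw [h2.mul_pow, inv_pow, h1, inv_mul_cancel]

/-- elements of `S ∩ T` whose square is in `Z` -/
def Lsub (Z : Subgroup X) (S T : Sylow 2 X) (hc : IsCyclic ↥((S : Subgroup X) ⊓ (T : Subgroup X))) : Subgroup X where
  carrier := {g | g ∈ (S : Subgroup X) ⊓ T ∧ g * g ∈ Z}
  mul_mem' := by
    rintro a b ⟨ha, haa⟩ ⟨hb, hbb⟩
    refine ⟨mul_mem ha hb, ?_⟩
    have h1 : a * b * (a * b) = (a * a) * (b * b) := by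
      have := comm_of_cyc hc ha hb
      calc a * b * (a * b) = a * (b * a) * b := by group
        _ = (a * a) * (b * b) := by rw [← this]; group
    rw [h1]; exact mul_mem haa hbb
  one_mem' := ⟨one_mem _, by rw [one_mul]; exact one_mem _⟩
  inv_mem' := by
    rintro a ⟨ha, haa⟩
    refine ⟨inv_mem ha, ?_⟩
    rw [← mul_inv_rev]; exact inv_mem haa

theorem mem_Lsub {Z : Subgroup X} {S T : Sylow 2 X} {hc : IsCyclic ↥((S : Subgroup X) ⊓ (T : Subgroup X))} {g : X} :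
    g ∈ Lsub Z S T hc ↔ (g ∈ (S : Subgroup X) ⊓ T ∧ g * g ∈ Z) := Iff.rfl

theorem HypI.mem_normalizer_L (h : HypI Z i) {S T : Sylow 2 X} (hST : S ≠ T) {w l : X}
    (hl : l ∈ Lsub Z S T (h.hC S T hST)) (hlZ : l ∉ Z) (hw : l⁻¹ * (w * l * w⁻¹) ∈ Z) :
    w ∈ normalizer (Lsub Z S T (h.hC S T hST) : Set X) := by
  have hN := h.hn
  have hZL : Z ≤ Lsub Z S T (h.hC S T hST) := by
    intro z hz
    exact ⟨⟨h.hle S hz, h.hle T hz⟩, mul_mem hz hz⟩
  rw [mem_normalizer_iff_map]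
  have hle : (Lsub Z S T (h.hC S T hST)).map (MulAut.conj w).toMonoidHom ≤ Lsub Z S T (h.hC S T hST) := by
    rintro _ ⟨g, hg, rfl⟩
    show w * g * w⁻¹ ∈ _
    by_cases hgZ : g ∈ Z
    · exact hZL (hN.conj_mem g hgZ w)
    · have h1 := h.l_unique hST hl.1 hg.1 hl.2 hg.2 hlZ hgZ
      have h2 : w * g * w⁻¹ = l * (l⁻¹ * (w * l * w⁻¹)) * (w * (l⁻¹ * g) * w⁻¹) := by group
      rw [h2]
      exact mul_mem (mul_mem hl (hZL hw)) (hZL (hN.conj_mem _ h1 w))
  exact H2.eq_of_le_of_card_eq hle (card_map_of_injective (MulAut.conj w).injective)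

theorem cyc_subgroup (hC : ∀ S T : Sylow 2 X, S ≠ T → IsCyclic ↥((S : Subgroup X) ⊓ (T : Subgroup X)))
    (N : Subgroup X) : ∀ S T : Sylow 2 N, S ≠ T → IsCyclic ↥((S : Subgroup N) ⊓ (T : Subgroup N)) := by
  have hf : Fact (Nat.Prime 2) := ⟨Nat.prime_two⟩
  intro R1 R2 hne
  have key : ∀ R : Sylow 2 N, ∃ S : Sylow 2 X, (R : Subgroup N) = (S : Subgroup X).subgroupOf N := by
    intro R
    obtain ⟨S, hS⟩ := (R.isPGroup'.map N.subtype).exists_le_sylow
    refine ⟨S, (R.is_maximal' (S.isPGroup'.comap_of_injective N.subtype N.subtype_injective) ?_).symm⟩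
    exact map_le_iff_le_comap.mp hS
  obtain ⟨S1, h1⟩ := key R1
  obtain ⟨S2, h2⟩ := key R2
  have hS : S1 ≠ S2 := by
    rintro rfl
    exact hne (Sylow.ext (by rw [h1, h2]))
  have hc := hC S1 S2 hS
  let f : ↥((R1 : Subgroup N) ⊓ (R2 : Subgroup N)) →* ↥((S1 : Subgroup X) ⊓ (S2 : Subgroup X)) :=
    (N.subtype.comp ((R1 : Subgroup N) ⊓ (R2 : Subgroup N)).subtype).codRestrict _ (by
      intro x
      have hx1 : x.1 ∈ (R1 : Subgroup N) := x.2.1
      have hx2 : x.1 ∈ (R2 : Subgroup N) := x.2.2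
      exact ⟨mem_subgroupOf.mp (h1.le hx1), mem_subgroupOf.mp (h2.le hx2)⟩)
  refine isCyclic_of_injective f ?_
  intro a b hab
  apply Subtype.ext
  apply Subtype.ext
  exact congrArg (fun t : ↥((S1 : Subgroup X) ⊓ (S2 : Subgroup X)) => (t : X)) hab

end Cfsg.Agent.H20.CycInt
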