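import Cfsg.Agent.H20.CycI5

set_option autoImplicit false
set_option linter.unusedSectionVars false
open Cfsg

namespace Cfsg.Agent.H20.CycInt
open Subgroup

universe u
variable {X : Type u} [Group X] [Finite X] {Z : Subgroup X} {i : X}

theorem HypI.exists_c (h : HypI Z i) : ∃ c ∈ Z, c * c = i := by
  obtain ⟨g, hg⟩ := h.cyc.exists_generator
  have h1 : orderOf g = Nat.card Z := orderOf_eq_card_of_forall_mem_zpowers hg
  obtain ⟨m, hm⟩ := h.four_dvd
  have hm0 : m ≠ 0 := by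
    rintro rfl
    have : 0 < Nat.card Z := Nat.card_pos
    omega
  have h2 : orderOf (g ^ m) = 4 := by
    rw [orderOf_pow_of_dvd hm0 (by rw [h1, hm]; exact Dvd.intro_left _ rfl), h1, hm]
    exact Nat.mul_div_cancel _ (Nat.pos_of_ne_zero hm0)
  refine ⟨(g ^ m : Z), (g ^ m).2, ?_⟩
  have h3 : orderOf (((g ^ m : Z) : X) * ((g ^ m : Z) : X)) = 2 := by
    rw [← pow_two, orderOf_pow_of_dvd (by norm_num) (by rw [orderOf_coe, h2]; norm_num), orderOf_coe, h2]
  exact inv_unique h.cyc (mul_mem (g ^ m).2 (g ^ m).2) h.iZ h3 h.i2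

/-- The main part: an odd-order subgroup normalized by `I ∩ S` and `Z` and meeting `Z` trivially normalizes `S`. -/
theorem HypI.odd_le (h : HypI Z i) {S : Sylow 2 X} {j k : X} (hj : HypI.I Z i S j) (hk : HypI.I Z i S k)
    (hkj : k ≠ j) (hkij : k ≠ i * j) {U : Subgroup X} (hU : Odd (Nat.card U))
    (hjU : j ∈ normalizer (U : Set X)) (hkU : k ∈ normalizer (U : Set X)) (hZU : Z ≤ normalizer (U : Set X)) :
    U ≤ normalizer ((S : Subgroup X) : Set X) := by
  have hf : Fact (Nat.Prime 2) := ⟨Nat.prime_two⟩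
  have hN := h.hn
  let π := QuotientGroup.mk' Z
  have hπ : ∀ {a : X}, π a = 1 ↔ a ∈ Z := fun {a} => QuotientGroup.eq_one_iff a
  have hjj := mul_self_of_order hj.o
  have hkk := mul_self_of_order hk.o
  have hJ : π j * π j = 1 := by rw [← map_mul, hjj, map_one]
  have hK : π k * π k = 1 := by rw [← map_mul, hkk, map_one]
  have hinvZ : ∀ w, HypI.I Z i S w → w ∉ Z := fun w hw hwZ => hw.ne (inv_unique h.cyc hwZ h.iZ hw.o h.i2)
  have hJ1 : π j ≠ 1 := fun h1 => hinvZ j hj (hπ.mp h1)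
  have hK1 : π k ≠ 1 := fun h1 => hinvZ k hk (hπ.mp h1)
  have hkinv : k⁻¹ = k := inv_eq_of_mul_eq_one_left hkk
  have hjinv : j⁻¹ = j := inv_eq_of_mul_eq_one_left hjj
  -- j k j k ∈ {1, i}
  have hpair := h.inv_pair hj hk.s hk.c
  have hsq : (j * k) * (j * k) = 1 ∨ (j * k) * (j * k) = i := by
    have e : (j * k) * (j * k) = j * (k * j * k⁻¹) := by rw [hkinv]; group
    rcases hpair with h1 | h1
    · left; rw [e, h1, hjj]
    · right; rw [e, h1, ← mul_assoc, h.comm, mul_assoc, hjj, mul_one]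
  have hcomm : π j * π k = π k * π j := by
    have h1 : π (k * j * k⁻¹) = π j := by
      rcases hpair with h1 | h1
      · rw [h1]
      · rw [h1, map_mul, hπ.mpr h.iZ, one_mul]
    rw [map_mul, map_mul, map_inv] at h1
    exact (mul_inv_eq_iff_eq_mul.mp h1).symm
  have hJK : π j ≠ π k := by
    intro h1
    have h2 : j⁻¹ * k ∈ Z := QuotientGroup.eq.mp h1
    rw [hjinv] at h2
    have h3 : (j * k) * (j * k) = 1 := by
      have h4 : (j * k) * j = j * (j * k) := (mem_centralizer_iff.mp hj.c) _ h2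
      calc (j * k) * (j * k) = ((j * k) * j) * k := by group
        _ = (j * j) * (k * k) := by rw [h4]; group
        _ = 1 := by rw [hjj, hkk, one_mul]
    have h5 : j * k ≠ 1 := by
      intro h6
      apply hkj
      calc k = j⁻¹ * (j * k) := by group
        _ = j := by rw [h6, mul_one, hjinv]
    have h6 := inv_unique h.cyc h2 h.iZ (order_of_mul_self h3 h5) h.i2
    apply hkij
    calc k = j⁻¹ * (j * k) := by group
      _ = i * j := by rw [h6, hjinv, h.comm]
  -- an involution over `π j * π k`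
  obtain ⟨w, hw, hπw, hwU⟩ : ∃ w, HypI.I Z i S w ∧ π w = π j * π k ∧ w ∈ normalizer (U : Set X) := by
    have hjkZ : j * k ∉ Z := by
      intro h1
      apply hJK
      have h2 : π (j * k) = 1 := hπ.mpr h1
      rw [map_mul] at h2
      calc π j = (π j * π k) * (π k)⁻¹ := by group
        _ = π k := by rw [h2, one_mul]; exact inv_eq_of_mul_eq_one_left hK
    rcases hsq with h1 | h1
    · refine ⟨j * k, ⟨order_of_mul_self h1 (fun h2 => hjkZ (by rw [h2]; exact one_mem _)), ?_, mul_mem hj.c hk.c,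
        mul_mem hj.s hk.s⟩, map_mul _ _ _, mul_mem hjU hkU⟩
      intro h2; apply hjkZ; rw [h2]; exact h.iZ
    · obtain ⟨c, hcZ, hcc⟩ := h.exists_c
      have hcom : c * (j * k) = (j * k) * c := (mem_centralizer_iff.mp (mul_mem hj.c hk.c)) c hcZ
      refine ⟨j * k * c, ⟨order_of_mul_self ?_ ?_, ?_, mul_mem (mul_mem hj.c hk.c) (h.Z_le_C hcZ),
        mul_mem (mul_mem hj.s hk.s) (h.hle S hcZ)⟩, ?_, mul_mem (mul_mem hjU hkU) (hZU hcZ)⟩
      · calc j * k * c * (j * k * c) = (j * k) * (c * (j * k)) * c := by group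
          _ = ((j * k) * (j * k)) * (c * c) := by rw [hcom]; group
          _ = 1 := by rw [h1, hcc, h.ii]
      · intro h2; apply hjkZ
        have : j * k = c⁻¹ := mul_eq_one_iff_eq_inv.mp h2
        rw [this]; exact inv_mem hcZ
      · intro h2; apply hjkZ
        have : j * k = i * c⁻¹ := by rw [← h2]; group
        rw [this]; exact mul_mem h.iZ (inv_mem hcZ)
      · rw [map_mul, map_mul, hπ.mpr hcZ, mul_one]
  -- the four-group
  set A := H4.kleinSub hJ hK hcomm with hA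
  have hA4 : Nat.card A = 4 := H4.kleinSub_card hJ hK hcomm hJ1 hK1 hJK
  have hAk : IsKleinFour A := H4.kleinSub_isKleinFour hJ hK hcomm hJ1 hK1 hJK
  have hAc : IsMulCommutative A := by
    refine ⟨⟨?_⟩⟩
    intro a b
    exact (mul_comm_of_exponent_two hAk.exponent_two) a b
  have hAnc : ¬ IsCyclic A := IsKleinFour.not_isCyclic
  set UU := U.map π with hUU
  have hAU : A ≤ normalizer (UU : Set (X ⧸ Z)) := by
    have key : ∀ w ∈ normalizer (U : Set X), π w ∈ normalizer (UU : Set (X ⧸ Z)) := by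
      intro w hw
      exact (Subgroup.le_normalizer_map π) ⟨w, hw, rfl⟩
    intro a ha
    rcases H4.mem_kleinSub hJ hK hcomm |>.mp ha with rfl | rfl | rfl | rfl
    · exact one_mem _
    · exact key j hjU
    · exact key k hkU
    · exact mul_mem (key j hjU) (key k hkU)
  have hcop : (Nat.card A).Coprime (Nat.card UU) := by
    rw [hA4]
    have h1 : Nat.card UU ∣ Nat.card U := card_map_dvd U π
    have h2 : Odd (Nat.card UU) := Odd.of_dvd_nat hU h1
    exact (Nat.coprime_two_left.mpr h2).pow_left 2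
  have hsup := H23.iSup_centralizer_of_not_isCyclic hAc hAnc hAU hcop
  have hUZ : U ⊓ Z = ⊥ := by
    obtain ⟨a, ha⟩ := IsPGroup.iff_card.mp h.pgroup
    apply disjoint_iff.mp
    apply Subgroup.disjoint_of_coprime_natCard
    rw [ha]
    exact ((Nat.coprime_two_left.mpr hU).pow_left a).symm
  have hterm : ∀ w, HypI.I Z i S w → w ∈ normalizer (U : Set X) →
      UU ⊓ centralizer ({π w} : Set (X ⧸ Z)) ≤ (normalizer ((S : Subgroup X) : Set X)).map π := by
    rintro w hw hwU _ ⟨⟨u, hu, rfl⟩, hcu⟩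
    refine ⟨u, ?_, rfl⟩
    have h1 : π w * π u = π u * π w := (mem_centralizer_iff.mp hcu) _ rfl
    have h2 : u * w * u⁻¹ * w⁻¹ ∈ Z := by
      apply hπ.mp
      rw [map_mul, map_mul, map_mul, ← h1, map_inv, map_inv]; group
    have h3 : u * w * u⁻¹ * w⁻¹ ∈ U := by
      have h4 : u * w * u⁻¹ * w⁻¹ = u * (w * u⁻¹ * w⁻¹) := by group
      rw [h4]
      exact mul_mem hu ((mem_normalizer_iff.mp hwU _).mp (inv_mem hu))
    have h4 : u * w * u⁻¹ * w⁻¹ = 1 := by
      have : u * w * u⁻¹ * w⁻¹ ∈ U ⊓ Z := ⟨h3, h2⟩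
      rw [hUZ] at this
      exact mem_bot.mp this
    have h5 : u * w * u⁻¹ = w := mul_inv_eq_one.mp h4
    exact h.normalizes hw.o hw.ne hw.s (by rw [h5]; exact hw.s)
  have hUle : UU ≤ (normalizer ((S : Subgroup X) : Set X)).map π := by
    rw [← hsup]
    apply iSup_le
    rintro ⟨a, ha, ha1⟩
    show UU ⊓ centralizer ({a} : Set (X ⧸ Z)) ≤ _
    rcases H4.mem_kleinSub hJ hK hcomm |>.mp ha with rfl | rfl | rfl | rfl
    · exact absurd rfl ha1
    · exact hterm j hj hjU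
    · exact hterm k hk hkU
    · rw [← hπw]; exact hterm w hw hwU
  intro u hu
  obtain ⟨g, hg, hgu⟩ := hUle ⟨u, hu, rfl⟩
  have h1 : g⁻¹ * u ∈ Z := QuotientGroup.eq.mp hgu
  have h2 : u = g * (g⁻¹ * u) := by group
  rw [h2]
  exact mul_mem hg (le_normalizer (h.hle S h1))

theorem main_aux (n : ℕ) : ∀ (X : Type u) [Group X] [Finite X], Nat.card X = n →
    (∀ S T : Sylow 2 X, S ≠ T → IsCyclic ↥((S : Subgroup X) ⊓ (T : Subgroup X))) →
    ¬ Group.IsSolvable X → pCore 2 X ≤ center X := by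
  induction n using Nat.strong_induction_on with
  | _ n ih =>
  intro X _ _ hcard hC hns
  by_contra hnc
  have hf : Fact (Nat.Prime 2) := ⟨Nat.prime_two⟩
  set Z := pCore 2 X with hZ
  have h0 : Hyp Z := ⟨hC, hns, H1.pCore_normal 2 X, fun S => H1.pCore_le_sylow S, hnc⟩
  obtain ⟨i, h⟩ := h0.exists_i
  have hN := h.hn
  let S : Sylow 2 X := default
  obtain ⟨T, hST⟩ := h.exists_ne S
  obtain ⟨j, hj, -⟩ := h.exists_inv_pair S
  obtain ⟨g0, hg0⟩ := MulAction.exists_smul_eq X S T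
  have hk := h.I_conj hj g0
  rw [hg0] at hk
  set k := g0 * j * g0⁻¹
  obtain ⟨x0, hx0S, hx0C, hx0⟩ := h.exists_sq S
  obtain ⟨y0, hy0T, hy0C, hy0⟩ := h.exists_sq T
  set L := Lsub Z S T (h.hC S T hST) with hL
  have hZL : Z ≤ L := by
    intro z hz
    exact ⟨⟨h.hle S hz, h.hle T hz⟩, mul_mem hz hz⟩
  obtain ⟨l0, hl0S, hl0T, hl0Z, hl0l, -, -⟩ := h.exists_l hj hy0T hy0C hy0
  have hl0L : l0 ∈ L := ⟨⟨hl0S, hl0T⟩, hl0l⟩
  -- `I ∩ S ⊆ N(L)`
  have hIS : ∀ w, HypI.I Z i S w → w ∈ normalizer (L : Set X) := by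
    intro w hw
    obtain ⟨l, hlS, hlT, hlZ, hll, hwl, -⟩ := h.exists_l hw hy0T hy0C hy0
    exact h.mem_normalizer_L hST (l := l) ⟨⟨hlS, hlT⟩, hll⟩ hlZ hwl
  obtain ⟨l1, hl1T, hl1S, hl1Z, hl1l, hkl, hxl⟩ := h.exists_l hk hx0S hx0C hx0
  have hkN : k ∈ normalizer (L : Set X) := h.mem_normalizer_L hST (l := l1) ⟨⟨hl1S, hl1T⟩, hl1l⟩ hl1Z hkl
  have hxN : x0 ∈ normalizer (L : Set X) := h.mem_normalizer_L hST (l := l1) ⟨⟨hl1S, hl1T⟩, hl1l⟩ hl1Z hxl
  have hLp : IsPGroup 2 L := S.isPGroup'.to_le (fun g hg => hg.1.1)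
  set N := normalizer (L : Set X) with hNdef
  have hNtop : N ≠ ⊤ := by
    intro h1
    have h2 : L.Normal := normalizer_eq_top_iff.mp h1
    exact hl0Z (H1.le_pCore h2 hLp hl0L)
  have hNcard : Nat.card N < n := by rw [← hcard]; exact H4.card_subgroup_lt hNtop
  have hCN := cyc_subgroup hC N
  have hLN : L ≤ N := le_normalizer
  have hNs : Group.IsSolvable N := by
    by_contra hns'
    have h1 := ih _ hNcard N rfl hCN hns'
    have h2 : (L.subgroupOf N).Normal := Subgroup.normal_in_normalizer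
    have h3 : IsPGroup 2 (L.subgroupOf N) := hLp.comap_of_injective N.subtype N.subtype_injective
    have h4 : L.subgroupOf N ≤ center N := (H1.le_pCore h2 h3).trans h1
    apply hx0C
    rw [mem_centralizer_iff]
    intro z hz
    have h5 : (⟨z, hLN (hZL hz)⟩ : N) ∈ L.subgroupOf N := mem_subgroupOf.mpr (hZL hz)
    have h6 := mem_center_iff.mp (h4 h5) ⟨x0, hxN⟩
    exact (congrArg Subtype.val h6).symm
  obtain ⟨P, hP⟩ := S3303.result hNs hCN
  -- `U = O(N)`
  set U := oddCore N with hU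
  have hUn : U.Normal := H1.pPrimeCore_normal 2 N
  have hUodd : Odd (Nat.card U) := by
    have := H1.pPrimeCore_coprime 2 N
    exact Nat.coprime_two_left.mp this.symm
  have hzp : ∀ w : N, orderOf w = 2 → ∃ R : Sylow 2 N, w ∈ (R : Subgroup N) := by
    intro w hw
    have h1 : IsPGroup 2 (zpowers w) := IsPGroup.of_card (n := 1) (by rw [Nat.card_zpowers, hw, pow_one])
    obtain ⟨R, hR⟩ := h1.exists_le_sylow
    exact ⟨R, hR (mem_zpowers w)⟩
  obtain ⟨R1, hR1⟩ := hzp ⟨j, hIS j hj⟩ (by rw [← orderOf_coe]; exact hj.o)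
  obtain ⟨R2, hR2⟩ := hzp ⟨k, hkN⟩ (by rw [← orderOf_coe]; exact hk.o)
  let π := QuotientGroup.mk' U
  have hπs : Function.Surjective π := QuotientGroup.mk'_surjective U
  have huniq : ∀ Q : Sylow 2 (N ⧸ U), Q = P := by
    intro Q
    obtain ⟨g, hg⟩ := MulAction.exists_smul_eq (N ⧸ U) P Q
    rw [← hg]
    have h1 : g ∈ normalizer ((P : Subgroup (N ⧸ U)) : Set (N ⧸ U)) := by
      rw [normalizer_eq_top_iff.mpr hP]; exact mem_top _
    exact Sylow.smul_eq_iff_mem_normalizer.mpr h1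
  have hmap : (R1 : Subgroup N).map π = (R2 : Subgroup N).map π := by
    have h1 := huniq (Sylow.mapSurjective hπs R1)
    have h2 := huniq (Sylow.mapSurjective hπs R2)
    have h3 : (Sylow.mapSurjective hπs R1 : Subgroup (N ⧸ U)) = Sylow.mapSurjective hπs R2 := by rw [h1, h2]
    exact h3
  have hR2le : (R2 : Subgroup N) ≤ (R1 : Subgroup N) ⊔ U := by
    intro r hr
    have h1 : π r ∈ (R1 : Subgroup N).map π := by rw [hmap]; exact ⟨r, hr, rfl⟩
    obtain ⟨s, hs, hsr⟩ := h1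
    have h2 : s⁻¹ * r ∈ U := QuotientGroup.eq.mp hsr
    have h3 : r = s * (s⁻¹ * r) := by group
    rw [h3]
    exact mul_mem (mem_sup_left hs) (mem_sup_right h2)
  obtain ⟨m, hm, hmR⟩ := H2.exists_conj_eq_of_sylow_le R1 R2 (le_sup_left : (R1 : Subgroup N) ≤ (R1 : Subgroup N) ⊔ U) hR2le
  obtain ⟨r, hr, u, hu, hur⟩ := (mem_sup_of_normal_right (s := (R1 : Subgroup N)) (t := U)).mp hm
  have hR1S : ∀ r ∈ (R1 : Subgroup N), (r : X) ∈ (S : Subgroup X) := by
    obtain ⟨S', hS'⟩ := (R1.isPGroup'.map N.subtype).exists_le_sylow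
    have h1 : S' = S := h.eq_of_inv hj.o hj.ne (hS' ⟨_, hR1, rfl⟩) hj.s
    intro r hr
    rw [← h1]
    exact hS' ⟨r, hr, rfl⟩
  have hnormU : ∀ w ∈ N, w ∈ normalizer ((U.map N.subtype : Subgroup X) : Set X) := by
    intro w hw
    have h1 : (⟨w, hw⟩ : N) ∈ normalizer (U : Set N) := by
      rw [normalizer_eq_top_iff.mpr hUn]; exact mem_top _
    exact (Subgroup.le_normalizer_map N.subtype) ⟨_, h1, rfl⟩
  obtain ⟨k1, hk1, hk1j, hk1ij⟩ := h.exists_other hj
  have hUS : U.map N.subtype ≤ normalizer ((S : Subgroup X) : Set X) :=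
    h.odd_le hj hk1 hk1j hk1ij (by rw [card_map_of_injective N.subtype_injective]; exact hUodd)
      (hnormU j (hIS j hj)) (hnormU k1 (hIS k1 hk1)) (fun z hz => hnormU z (hLN (hZL hz)))
  have hmN : (m : X) ∈ normalizer ((S : Subgroup X) : Set X) := by
    rw [← hur]
    exact mul_mem (le_normalizer (hR1S r hr)) (hUS ⟨u, hu, rfl⟩)
  have hkm : (⟨k, hkN⟩ : N) ∈ ((m • R1 : Sylow 2 N) : Subgroup N) := by rw [hmR]; exact hR2
  rw [Sylow.coe_subgroup_smul] at hkm
  obtain ⟨r', hr', hkr⟩ := hkm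
  have h1 : k = (m : X) * r' * (m : X)⁻¹ := (congrArg Subtype.val hkr).symm
  have h2 : k ∈ (S : Subgroup X) := by
    rw [h1]
    exact (mem_normalizer_iff.mp hmN _).mp (hR1S r' hr')
  exact hST (h.eq_of_inv hk.o hk.ne h2 hk.s)

theorem main {X : Type u} [Group X] [Finite X]
    (hC : ∀ S T : Sylow 2 X, S ≠ T → IsCyclic ↥((S : Subgroup X) ⊓ (T : Subgroup X)))
    (hns : ¬ Group.IsSolvable X) : pCore 2 X ≤ center X :=
  main_aux _ X rfl hC hns

end Cfsg.Agent.H20.CycInt
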