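import Mathlib

set_option autoImplicit false
set_option linter.unusedSectionVars false
set_option linter.style.haveILetI false
set_option linter.unusedVariables false

/-! A non-abelian central extension of an elementary abelian group of order eight has an invariant
subgroup of order two modulo the central subgroup. -/

namespace Cfsg.Agent.H20

theorem exists_fixed_vector {L : Type*} [Group L] [Finite L] (T Z : Subgroup L) (hZT : Z ≤ T)
    (hZc : ∀ z ∈ Z, ∀ g : L, z * g = g * z) (hsq : ∀ a ∈ T, a * a ∈ Z) (h8 : Z.relIndex T = 8)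
    {a b : L} (ha : a ∈ T) (hb : b ∈ T) (hab : a * b ≠ b * a) :
    ∃ r ∈ T, r ∉ Z ∧ ∀ n ∈ Subgroup.normalizer (T : Set L), n * r * n⁻¹ * r⁻¹ ∈ Z := by
  classical
  -- commutators
  have hcm : ∀ x ∈ T, ∀ y ∈ T, x * y * x⁻¹ * y⁻¹ ∈ Z := by
    intro x hx y hy
    have h1 := hsq (x * y) (mul_mem hx hy)
    have h2 := inv_mem (hsq x hx)
    have h3 := inv_mem (hsq y hy)
    have h4 : x * y * x⁻¹ * y⁻¹ = (x * y * (x * y)) * (x * x)⁻¹ * (y * y)⁻¹ := by
      have h5 := hZc _ h2 (y⁻¹)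
      calc x * y * x⁻¹ * y⁻¹ = (x * y * (x * y)) * (y⁻¹ * (x * x)⁻¹) * y⁻¹ := by group
        _ = (x * y * (x * y)) * ((x * x)⁻¹ * y⁻¹) * y⁻¹ := by rw [h5]
        _ = _ := by group
    rw [h4]
    exact mul_mem (mul_mem h1 h2) h3
  have hmulr : ∀ x ∈ T, ∀ y ∈ T, ∀ z ∈ T, x * (y * z) * x⁻¹ * (y * z)⁻¹ =
      (x * y * x⁻¹ * y⁻¹) * (x * z * x⁻¹ * z⁻¹) := by
    intro x hx y hy z hz
    have h5 := hZc _ (hcm x hx z hz) (y⁻¹)
    calc x * (y * z) * x⁻¹ * (y * z)⁻¹ = (x * y * x⁻¹ * y⁻¹) * y * ((x * z * x⁻¹ * z⁻¹) * y⁻¹) := by group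
      _ = (x * y * x⁻¹ * y⁻¹) * y * (y⁻¹ * (x * z * x⁻¹ * z⁻¹)) := by rw [h5]
      _ = _ := by group
  have hZcomm : ∀ x y : Z, x * y = y * x := fun x y => Subtype.ext (hZc x x.2 y)
  letI : CommGroup Z := { (inferInstance : Group Z) with mul_comm := hZcomm }
  have hc1 : (⟨a * b * a⁻¹ * b⁻¹, hcm a ha b hb⟩ : Z) ≠ 1 := by
    intro h
    apply hab
    have h1 : a * b * a⁻¹ * b⁻¹ = 1 := congrArg Subtype.val h
    rw [mul_inv_eq_one, mul_inv_eq_iff_eq_mul] at h1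
    exact h1
  obtain ⟨χ, hχ⟩ := CommGroup.exists_apply_ne_one_of_hasEnoughRootsOfUnity Z ℂ hc1
  -- the homs ψ x
  let ψ : T → (T →* ℂˣ) := fun x => {
    toFun := fun y => χ ⟨x * y * (x : L)⁻¹ * (y : L)⁻¹, hcm x x.2 y y.2⟩
    map_one' := by
      rw [← map_one χ]
      congr 1
      apply Subtype.ext
      simp
    map_mul' := fun y z => by
      rw [← map_mul]
      congr 1
      apply Subtype.ext
      exact hmulr x x.2 y y.2 z z.2 }
  have hψ : ∀ x y : T, ψ x y = χ ⟨x * y * (x : L)⁻¹ * (y : L)⁻¹, hcm x x.2 y y.2⟩ := fun x y => rfl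
  have hψsymm : ∀ x y : T, ψ y x = (ψ x y)⁻¹ := by
    intro x y
    rw [hψ, hψ, ← map_inv]
    congr 1
    apply Subtype.ext
    change (y : L) * x * (y : L)⁻¹ * (x : L)⁻¹ = ((x : L) * y * (x : L)⁻¹ * (y : L)⁻¹)⁻¹
    group
  have hψZ : ∀ x y : T, (y : L) ∈ Z → ψ x y = 1 := by
    intro x y hy
    rw [hψ, ← map_one χ]
    congr 1
    apply Subtype.ext
    change (x : L) * y * (x : L)⁻¹ * (y : L)⁻¹ = 1
    rw [← hZc y hy x, mul_assoc (y : L), mul_inv_cancel, mul_one, mul_inv_cancel]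
  have hψself : ∀ x : T, ψ x x = 1 := by
    intro x
    rw [hψ, ← map_one χ]
    congr 1
    apply Subtype.ext
    change (x : L) * x * (x : L)⁻¹ * (x : L)⁻¹ = 1
    group
  have hψsq : ∀ x y : T, ψ x y * ψ x y = 1 := by
    intro x y
    rw [← map_mul]
    exact hψZ x (y * y) (hsq y y.2)
  have hpm : ∀ x y : T, ψ x y = 1 ∨ ψ x y = -1 := by
    intro x y
    have h := hψsq x y
    have h2 : ((ψ x y : ℂˣ) : ℂ) ^ 2 = 1 := by
      rw [sq, ← Units.val_mul, h, Units.val_one]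
    rcases sq_eq_one_iff.mp h2 with h3 | h3
    · left; exact Units.ext h3
    · right; exact Units.ext (by simpa using h3)
  have hne : (-1 : ℂˣ) ≠ 1 := by
    intro h
    have : (-1 : ℂ) = 1 := by
      have := congrArg Units.val h
      simpa using this
    norm_num at this
  let A : T := ⟨a, ha⟩
  let B : T := ⟨b, hb⟩
  have hAB : ψ A B = -1 := by
    rcases hpm A B with h | h
    · exact absurd h hχ
    · exact h
  have hBA : ψ B A = -1 := by rw [hψsymm A B, hAB, inv_neg, inv_one]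
  let Φ : T →* ℂˣ × ℂˣ := (ψ A).prod (ψ B)
  have hker : ∀ x : T, x ∈ Φ.ker ↔ ψ A x = 1 ∧ ψ B x = 1 := by
    intro x
    rw [MonoidHom.mem_ker]
    exact Prod.ext_iff
  have hcov : ∀ x : T, ∃ y : T, (y = 1 ∨ y = A ∨ y = B ∨ y = A * B) ∧ y * x ∈ Φ.ker := by
    intro x
    rcases hpm A x with h1 | h1
    · rcases hpm B x with h2 | h2
      · exact ⟨1, Or.inl rfl, by rw [one_mul, hker]; exact ⟨h1, h2⟩⟩
      · refine ⟨A, Or.inr (Or.inl rfl), ?_⟩
        rw [hker, map_mul, map_mul, hψself, hBA, h1, h2]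
        simp
    · rcases hpm B x with h2 | h2
      · refine ⟨B, Or.inr (Or.inr (Or.inl rfl)), ?_⟩
        rw [hker, map_mul, map_mul, hψself, hAB, h1, h2]
        simp
      · refine ⟨A * B, Or.inr (Or.inr (Or.inr rfl)), ?_⟩
        rw [hker, map_mul, map_mul, map_mul, map_mul, hψself, hψself, hAB, hBA, h1, h2]
        simp
  have hidx : Φ.ker.index = 4 := by
    rw [Subgroup.index_ker]
    have hr : ((Φ.range : Subgroup (ℂˣ × ℂˣ)) : Set (ℂˣ × ℂˣ)) = {(1, 1), (1, -1), (-1, 1), (-1, -1)} := by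
      ext p
      constructor
      · rintro ⟨x, rfl⟩
        change ((ψ A x, ψ B x) : ℂˣ × ℂˣ) ∈ _
        rcases hpm A x with h1 | h1 <;> rcases hpm B x with h2 | h2 <;> rw [h1, h2] <;> simp
      · rintro (h | h | h | h)
        · rw [h]; exact ⟨1, by rw [map_one]; rfl⟩
        · rw [h]
          refine ⟨A, ?_⟩
          change ((ψ A A, ψ B A) : ℂˣ × ℂˣ) = _
          rw [hψself, hBA]
        · rw [h]
          refine ⟨B, ?_⟩
          change ((ψ A B, ψ B B) : ℂˣ × ℂˣ) = _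
          rw [hψself, hAB]
        · rw [h]
          refine ⟨A * B, ?_⟩
          change ((ψ A (A * B), ψ B (A * B)) : ℂˣ × ℂˣ) = _
          rw [map_mul, map_mul, hψself, hψself, hAB, hBA]
          simp
    have h1 : Nat.card Φ.range = ((Φ.range : Subgroup (ℂˣ × ℂˣ)) : Set (ℂˣ × ℂˣ)).ncard := rfl
    rw [h1, hr]
    rw [Set.ncard_insert_of_notMem, Set.ncard_insert_of_notMem, Set.ncard_pair]
    · simp [hne]
    · simp [hne, Ne.symm hne]
    · simp [hne, Ne.symm hne]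
  have hZle : Z.subgroupOf T ≤ Φ.ker := by
    intro z hz
    rw [Subgroup.mem_subgroupOf] at hz
    rw [hker]
    exact ⟨hψZ A z hz, hψZ B z hz⟩
  have hrel : (Z.subgroupOf T).relIndex Φ.ker = 2 := by
    have h1 := Subgroup.relIndex_mul_index hZle
    have h2 : (Z.subgroupOf T).index = 8 := h8
    rw [hidx, h2] at h1
    omega
  have hsame : ∀ x y : T, x ∈ Φ.ker → y ∈ Φ.ker → (x : L) ∉ Z → (y : L) ∉ Z → ((x * y⁻¹ : T) : L) ∈ Z := by
    intro x y hx hy hxZ hyZ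
    have h1 := (Subgroup.mul_mem_iff_of_index_two (H := (Z.subgroupOf T).subgroupOf Φ.ker) hrel
      (a := ⟨x, hx⟩) (b := (⟨y, hy⟩ : Φ.ker)⁻¹)).mpr (by
        constructor
        · intro h
          exact absurd h (fun h => hxZ (by
            rw [Subgroup.mem_subgroupOf, Subgroup.mem_subgroupOf] at h; exact h))
        · intro h
          rw [inv_mem_iff] at h
          exact absurd h (fun h => hyZ (by
            rw [Subgroup.mem_subgroupOf, Subgroup.mem_subgroupOf] at h; exact h)))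
    rw [Subgroup.mem_subgroupOf, Subgroup.mem_subgroupOf] at h1
    exact h1
  obtain ⟨r, hrK, hrZ⟩ : ∃ r : T, r ∈ Φ.ker ∧ (r : L) ∉ Z := by
    by_contra hcon
    push Not at hcon
    have h1 : Φ.ker ≤ Z.subgroupOf T := fun x hx => Subgroup.mem_subgroupOf.mpr (hcon x hx)
    rw [Subgroup.relIndex_eq_one.mpr h1] at hrel
    omega
  have hrad : ∀ x : T, ψ r x = 1 := by
    have hK : ∀ k : T, k ∈ Φ.ker → ψ r k = 1 := by
      intro k hk
      by_cases hkZ : (k : L) ∈ Z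
      · exact hψZ r k hkZ
      · have h1 := hψZ r (k * r⁻¹) (hsame k r hk hrK hkZ hrZ)
        rw [map_mul, map_inv, hψself, inv_one, mul_one] at h1
        exact h1
    have hrA : ψ r A = 1 := by rw [hψsymm A r, ((hker r).mp hrK).1, inv_one]
    have hrB : ψ r B = 1 := by rw [hψsymm B r, ((hker r).mp hrK).2, inv_one]
    intro x
    obtain ⟨y, hy, hyx⟩ := hcov x
    have h1 := hK _ hyx
    rw [map_mul] at h1
    have h2 : ψ r y = 1 := by
      rcases hy with h | h | h | h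
      · rw [h, map_one]
      · rw [h, hrA]
      · rw [h, hrB]
      · rw [h, map_mul, hrA, hrB, mul_one]
    rwa [h2, one_mul] at h1
  refine ⟨r, r.2, hrZ, ?_⟩
  intro n hn
  have hnr : n * (r : L) * n⁻¹ ∈ T := (Subgroup.mem_normalizer_iff.mp hn r).mp r.2
  have hrad' : ∀ x : T, ψ ⟨n * (r : L) * n⁻¹, hnr⟩ x = 1 := by
    intro x
    have hx : n⁻¹ * (x : L) * n ∈ T := by
      have := (Subgroup.mem_normalizer_iff.mp (inv_mem hn) x).mp x.2
      rwa [inv_inv] at this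
    have h1 := hrad ⟨n⁻¹ * (x : L) * n, hx⟩
    rw [hψ] at h1 ⊢
    rw [← h1]
    congr 1
    apply Subtype.ext
    change n * (r : L) * n⁻¹ * x * (n * (r : L) * n⁻¹)⁻¹ * (x : L)⁻¹ =
      (r : L) * (n⁻¹ * (x : L) * n) * (r : L)⁻¹ * (n⁻¹ * (x : L) * n)⁻¹
    have h2 := hZc _ (hcm r r.2 _ hx) n
    calc n * (r : L) * n⁻¹ * x * (n * (r : L) * n⁻¹)⁻¹ * (x : L)⁻¹
        = n * ((r : L) * (n⁻¹ * (x : L) * n) * (r : L)⁻¹ * (n⁻¹ * (x : L) * n)⁻¹) * n⁻¹ := by group
      _ = ((r : L) * (n⁻¹ * (x : L) * n) * (r : L)⁻¹ * (n⁻¹ * (x : L) * n)⁻¹) * n * n⁻¹ := by rw [h2]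
      _ = _ := by rw [mul_inv_cancel_right]
  have hK' : (⟨n * (r : L) * n⁻¹, hnr⟩ : T) ∈ Φ.ker := by
    rw [hker]
    constructor
    · rw [hψsymm _ A, hrad', inv_one]
    · rw [hψsymm _ B, hrad', inv_one]
  have hnZ : n * (r : L) * n⁻¹ ∉ Z := by
    intro h
    apply hrZ
    have h1 := hZc _ h n
    have h2 : (r : L) = n⁻¹ * (n * (r : L) * n⁻¹ * n) := by group
    rw [h2, h1, inv_mul_cancel_left]
    exact h
  exact hsame _ r hK' hrK hnZ hrZ

end Cfsg.Agent.H20
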