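import Cfsg.Agent.H27.PAct
import Cfsg.Agent.H27.Util
import Cfsg.Agent.H27.PMod
import Cfsg.Agent.H3.Basic2

/-! Kernels of the irreducible characters of degree prime to `p`. -/

set_option autoImplicit false
set_option linter.style.haveILetI false

namespace Cfsg.Agent.H20.PKer

open Cfsg Cfsg.Agent.H3 Cfsg.Agent.H11 Cfsg.Agent.H27 Subgroup
open scoped ComplexConjugate

universe u

variable {G : Type u} [Group G]

/-- an irreducible character of `p'`-degree of a subgroup of `p'`-index lies under one of `G` -/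
theorem exists_over [Fintype G] {p : ℕ} [hp : Fact p.Prime] (H : Subgroup G) [Fintype H] (hH : ¬ p ∣ H.index)
    {η : H → ℂ} (hη : IsIrrCharacter H η) (hd : ¬ p ∣ charDegree η) :
    ∃ χ : IrrCharacter G, ¬ p ∣ charDegree (χ : G → ℂ) ∧ classInner (fun h : H => (χ : G → ℂ) h) η ≠ 0 := by
  classical
  haveI := Fintype.ofFinite (IrrCharacter G)
  have hind : IsCharacter G (indFun H η) := isChar_ind H (irr_isChar hη)
  obtain ⟨m, hm, hme⟩ := char_expand hind
  by_contra hcon
  push Not at hcon
  have h1 : (indFun H η) 1 = ((H.index * charDegree η : ℕ) : ℂ) := by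
    rw [indFun_one_apply, Nat.cast_mul, charDegree_cast (irr_isChar hη)]
  have h2 : (indFun H η) 1 = ((∑ χ : IrrCharacter G, m χ * charDegree (χ : G → ℂ) : ℕ) : ℂ) := by
    rw [hme, Finset.sum_apply, Nat.cast_sum]
    apply Finset.sum_congr rfl
    intro χ _
    rw [Pi.smul_apply, smul_eq_mul, Nat.cast_mul, charDegree_cast (irr_isChar χ.2)]
  rw [h1] at h2
  have h3 : H.index * charDegree η = ∑ χ : IrrCharacter G, m χ * charDegree (χ : G → ℂ) := by exact_mod_cast h2
  have h4 : p ∣ H.index * charDegree η := by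
    rw [h3]
    apply Finset.dvd_sum
    intro χ _
    by_cases hχ : p ∣ charDegree (χ : G → ℂ)
    · exact dvd_mul_of_dvd_right hχ _
    · have h5 := hcon χ hχ
      have h6 : classInner (indFun H η) (χ : G → ℂ) = 0 := by
        rw [frobenius_reciprocity H η (isGen_classFun (isGen_of_irr χ.2))]
        by_contra h7
        exact classInner_ne_zero_symm h7 h5
      rw [hm χ] at h6
      have h7 : m χ = 0 := by exact_mod_cast h6
      rw [h7, zero_mul]; exact dvd_zero p
  rcases (Nat.Prime.dvd_mul hp.out).1 h4 with h | h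
  · exact hH h
  · exact hd h

/-- kernels pass to constituents -/
theorem eq_deg_of_constituent [Fintype G] {χ η : G → ℂ} (hχ : IsCharacter G χ) (hη : IsIrrCharacter G η)
    (h : classInner χ η ≠ 0) {x : G} (hx : χ x = χ 1) : η x = η 1 := by
  have hs := isChar_sub_irr hχ hη h
  have h1 := norm_char_le (irr_isChar hη) x
  have h2 := norm_char_le hs x
  have e1 := charDegree_cast (irr_isChar hη)
  have e2 := charDegree_cast hs
  have h3 : η x + (χ - η) x = η 1 + (χ - η) 1 := by
    simp only [Pi.sub_apply]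
    rw [add_sub_cancel, add_sub_cancel, hx]
  rw [← e1, ← e2] at h3
  have h4 : (η x).re + ((χ - η) x).re = charDegree η + charDegree (χ - η) := by
    have := congrArg Complex.re h3
    simpa using this
  have h5 := (Complex.re_le_norm (η x)).trans h1
  have h6 := (Complex.re_le_norm ((χ - η) x)).trans h2
  have h7 : (η x).re = charDegree η := le_antisymm h5 (by linarith)
  have h8 : (η x).im = 0 := by
    have h9 : ‖η x‖ ^ 2 = (η x).re ^ 2 + (η x).im ^ 2 := by
      rw [Complex.sq_norm, Complex.normSq_apply]; ring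
    have h10 : ‖η x‖ ^ 2 ≤ (charDegree η : ℝ) ^ 2 := by
      apply pow_le_pow_left₀ (norm_nonneg _) h1
    rw [h7] at h9
    nlinarith [sq_nonneg (η x).im]
  rw [← e1]
  apply Complex.ext
  · rw [h7]; simp
  · rw [h8]; simp

/-- a normal subgroup inside the commutator of a `p`-subgroup is in the kernel of the characters of
`p'`-degree -/
theorem le_ker_of_le_commutator [Finite G] {p : ℕ} [hp : Fact p.Prime] {P M : Subgroup G} (hP : IsPGroup p P)
    [hM : M.Normal] (hMP : M ≤ ⁅P, P⁆) {χ : G → ℂ} (hχ : IsIrrCharacter G χ) (hd : ¬ p ∣ charDegree χ) :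
    ∀ m ∈ M, χ m = χ 1 := by
  classical
  haveI := Fintype.ofFinite G
  haveI := Fintype.ofFinite P
  haveI := Fintype.ofFinite (IrrCharacter P)
  by_contra hcon
  have hMleP : M ≤ P := hMP.trans (by
    rw [← Subgroup.map_subtype_commutator]
    rintro _ ⟨y, _, rfl⟩
    exact y.2)
  have h0 : ∑ n : M, χ (n : G) = 0 := by
    have := irr_sum_normal_eq hχ M 1
    rw [if_neg hcon] at this
    simpa using this
  -- a linear constituent
  have hres : IsCharacter P (fun x : P => χ x) := isChar_restrict P (irr_isChar hχ)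
  obtain ⟨m, hm, hme⟩ := char_expand hres
  obtain ⟨θ, hθd, hθ⟩ : ∃ θ : IrrCharacter P, ¬ p ∣ charDegree (θ : P → ℂ) ∧ m θ ≠ 0 := by
    by_contra hc
    push Not at hc
    apply hd
    have h2 : χ 1 = ((∑ θ : IrrCharacter P, m θ * charDegree (θ : P → ℂ) : ℕ) : ℂ) := by
      have := congrFun hme 1
      simp only [OneMemClass.coe_one] at this
      rw [this, Finset.sum_apply, Nat.cast_sum]
      apply Finset.sum_congr rfl
      intro χ _
      rw [Pi.smul_apply, smul_eq_mul, Nat.cast_mul, charDegree_cast (irr_isChar χ.2)]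
    rw [← charDegree_cast (irr_isChar hχ)] at h2
    have h3 : charDegree χ = ∑ θ : IrrCharacter P, m θ * charDegree (θ : P → ℂ) := by exact_mod_cast h2
    rw [h3]
    apply Finset.dvd_sum
    intro θ _
    by_cases h : p ∣ charDegree (θ : P → ℂ)
    · exact dvd_mul_of_dvd_right h _
    · rw [hc θ h, zero_mul]; exact dvd_zero p
  have hθ1 : charDegree (θ : P → ℂ) = 1 := by
    obtain ⟨n, hn⟩ := IsPGroup.iff_card.1 hP
    have h1 : charDegree (θ : P → ℂ) ∣ p ^ n := by rw [← hn]; exact charDegree_dvd_card θ.2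
    obtain ⟨k, _, hk⟩ := (Nat.dvd_prime_pow hp.out).1 h1
    rcases Nat.eq_zero_or_pos k with h | h
    · rw [hk, h, pow_zero]
    · exact absurd (hk ▸ dvd_pow_self p h.ne') hθd
  have hθ11 : (θ : P → ℂ) 1 = 1 := by rw [← charDegree_cast (irr_isChar θ.2), hθ1, Nat.cast_one]
  have hne : classInner (fun x : P => χ x) (θ : P → ℂ) ≠ 0 := by
    rw [hm θ]; exact_mod_cast hθ
  have hsub := isChar_sub_irr hres θ.2 hne
  set M' : Subgroup P := M.subgroupOf P with hM'
  haveI := Fintype.ofFinite M'
  obtain ⟨k, hk⟩ := exists_mult M' hsub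
  have h1 : ∀ x : M', (θ : P → ℂ) x = 1 := by
    intro x
    apply linear_commutator (irr_isChar θ.2) hθ11
    have h2 : ((x : P) : G) ∈ ⁅P, P⁆ := hMP (mem_subgroupOf.1 x.2)
    rw [← Subgroup.map_subtype_commutator] at h2
    obtain ⟨y, hy, hyx⟩ := h2
    have : y = (x : P) := Subtype.ext hyx
    rwa [← this]
  have h2 : ∑ x : M', χ ((x : P) : G) = 0 := by
    rw [← h0]
    apply Fintype.sum_equiv (subgroupOfEquivOfLe hMleP).toEquiv
    intro x; rfl
  have h3 : ∑ x : M', conj (((fun x : P => χ x) - (θ : P → ℂ)) x) = - (Nat.card M' : ℂ) := by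
    rw [← map_sum]
    have h4 : ∑ x : M', ((fun x : P => χ x) - (θ : P → ℂ)) x = - (Nat.card M' : ℂ) := by
      simp only [Pi.sub_apply]
      rw [Finset.sum_sub_distrib, h2, Finset.sum_congr rfl (fun x _ => h1 x)]
      simp [Nat.card_eq_fintype_card]
    rw [h4]; simp
  rw [h3] at hk
  have h5 : (Nat.card M' : ℂ) ≠ 0 := by exact_mod_cast (Nat.card_pos (α := M')).ne'
  have h6 : ((-1 : ℤ) : ℂ) = ((k : ℤ) : ℂ) := by
    apply mul_left_cancel₀ h5
    push_cast
    rw [← hk]; ring
  have h7 : (-1 : ℤ) = (k : ℤ) := by exact_mod_cast h6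
  omega

/-- a normal subgroup on which a `p`-subgroup acts fixed-point-freely is in the kernel of the characters of
`p'`-degree -/
theorem le_ker_of_fpf [Finite G] {p : ℕ} [hp : Fact p.Prime] {P N : Subgroup G} (hP : IsPGroup p P)
    [hN : N.Normal] (hc : N ⊓ centralizer (P : Set G) = ⊥) {χ : G → ℂ} (hχ : IsIrrCharacter G χ)
    (hd : ¬ p ∣ charDegree χ) : ∀ n ∈ N, χ n = χ 1 := by
  classical
  haveI := Fintype.ofFinite G
  haveI := Fintype.ofFinite N
  obtain ⟨M, hM⟩ := exists_isPModular hp.out
  haveI : M.IsPrime := pmod_isPrime hM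
  by_contra hcon
  have h0 : ∑ n : N, χ (n : G) = 0 := by
    have := irr_sum_normal_eq hχ N 1
    rw [if_neg hcon] at this
    simp only [mul_one] at this
    convert this
  letI : MulAction P N :=
    { smul := fun u n => ⟨(u : G) * n * (u : G)⁻¹, hN.conj_mem n n.2 u⟩
      one_smul := fun n => Subtype.ext (by show (1 : G) * n * (1 : G)⁻¹ = n; group)
      mul_smul := fun u v n => Subtype.ext (by
        show ((u : G) * v) * n * ((u : G) * v)⁻¹ = (u : G) * ((v : G) * n * (v : G)⁻¹) * (u : G)⁻¹; group) }
  have hsm : ∀ (u : P) (n : N), ((u • n : N) : G) = (u : G) * n * (u : G)⁻¹ := fun _ _ => rfl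
  have hcl : IsClassFunction G χ := isGen_classFun (isGen_of_irr hχ)
  have key := li_sum_of_fixed (A := P) (α := N) hM hP (fun n => χ (n : G) - if n = 1 then χ 1 else 0)
    (by
      intro a
      apply lr_sub
      · exact lr_int (isCharacter_isIntegral (irr_isChar hχ) _)
      · split_ifs
        · exact lr_int (isCharacter_isIntegral (irr_isChar hχ) _)
        · exact lr_zero _)
    (by
      intro u a
      have h1 : χ ((u • a : N) : G) = χ (a : G) := by rw [hsm]; exact hcl _ _
      have h2 : (u • a = 1) ↔ a = 1 := by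
        constructor
        · intro h
          have := congrArg Subtype.val h
          rw [hsm] at this
          apply Subtype.ext
          have h3 : (a : G) = (u : G)⁻¹ * ((u : G) * a * (u : G)⁻¹) * u := by group
          rw [h3, this]; simp
        · rintro rfl
          apply Subtype.ext
          rw [hsm]; simp
      simp only [h1, h2, sub_self]
      exact li_zero _)
    (by
      intro a ha
      have h1 : (a : G) ∈ N ⊓ centralizer (P : Set G) := by
        refine ⟨a.2, mem_centralizer_iff.2 ?_⟩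
        intro u hu
        have := congrArg Subtype.val (ha ⟨u, hu⟩)
        rw [hsm] at this
        exact mul_inv_eq_iff_eq_mul.1 this
      rw [hc, mem_bot] at h1
      have h2 : a = 1 := Subtype.ext h1
      simp only [h2, if_true, OneMemClass.coe_one, sub_self]
      exact li_zero _)
  rw [Finset.sum_sub_distrib, h0, zero_sub, Finset.sum_ite_eq' Finset.univ (1 : N) (fun _ => χ 1),
    if_pos (Finset.mem_univ _)] at key
  have h1 : MemLocalIdeal M (χ 1) := by simpa using li_neg key
  rw [← charDegree_cast (irr_isChar hχ), li_natCast_iff hM] at h1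
  exact hd h1

/-- converse: if a normal `p'`-subgroup `Q` lies in the kernel of all characters of `p'`-degree, then a Sylow
`p`-subgroup acts on it fixed-point-freely. -/
theorem fpf_of_le_ker [Finite G] {p : ℕ} [hp : Fact p.Prime] (P : Sylow p G) {Q : Subgroup G}
    [hQ : Q.Normal] (hQp : Disjoint Q (P : Subgroup G))
    (hker : ∀ χ : IrrCharacter G, ¬ p ∣ charDegree (χ : G → ℂ) → ∀ q ∈ Q, (χ : G → ℂ) q = (χ : G → ℂ) 1) :
    Q ⊓ centralizer ((P : Subgroup G) : Set G) = ⊥ := by
  classical
  haveI := Fintype.ofFinite G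
  haveI := Fintype.ofFinite (P : Subgroup G)
  haveI := Fintype.ofFinite (IrrCharacter G)
  obtain ⟨M, hM⟩ := exists_isPModular hp.out
  haveI : M.IsPrime := pmod_isPrime hM
  rw [eq_bot_iff]
  rintro c ⟨hcQ, hcP⟩
  by_contra hc1
  rw [mem_bot] at hc1
  set π := indFun (P : Subgroup G) (fun _ => (1 : ℂ)) with hπ
  have hπc : IsCharacter G π := isChar_ind _ isChar_one
  obtain ⟨m, hm, hme⟩ := char_expand hπc
  have hpc : π c = 0 := by
    rw [hπ]
    unfold indFun
    rw [Finset.sum_eq_zero, mul_zero]
    intro x _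
    apply extendByZero_not_mem
    intro hx
    apply hc1
    have h1 : x⁻¹ * c * x ∈ Q := by simpa using hQ.conj_mem c hcQ x⁻¹
    have h2 := (Subgroup.disjoint_def.1 hQp) h1 hx
    have h3 : c = x * (x⁻¹ * c * x) * x⁻¹ := by group
    rw [h3, h2]; simp
  have hp1 : π 1 = ((P : Subgroup G).index : ℂ) := by
    rw [hπ, indFun_one_apply, mul_one]
  have h1 : π 1 = ∑ χ : IrrCharacter G, (m χ : ℂ) * ((χ : G → ℂ) 1 - (χ : G → ℂ) c) := by
    have e1 : π 1 = π 1 - π c := by rw [hpc, sub_zero]
    rw [e1]
    conv_lhs => rw [hme]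
    rw [Finset.sum_apply, Finset.sum_apply, ← Finset.sum_sub_distrib]
    apply Finset.sum_congr rfl
    intro χ _
    rw [Pi.smul_apply, Pi.smul_apply, smul_eq_mul, smul_eq_mul]; ring
  have h2 : MemLocalIdeal M (π 1) := by
    rw [h1]
    apply li_sum
    intro χ _
    by_cases hχ : p ∣ charDegree (χ : G → ℂ)
    · apply li_mul_left (lr_natCast _ _)
      have h3 : MemLocalIdeal M ((χ : G → ℂ) 1) := by
        rw [← charDegree_cast (irr_isChar χ.2), li_natCast_iff hM]; exact hχ
      apply li_sub h3
      have h4 : ((centralizer ({c} : Set G)).index : ℂ) * (χ : G → ℂ) c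
          = (χ : G → ℂ) 1 * centralChar (χ : G → ℂ) c := by
        unfold centralChar
        have : (χ : G → ℂ) 1 ≠ 0 := irr_one_ne_zero χ.2
        field_simp
      have h5 : ¬ p ∣ (centralizer ({c} : Set G)).index := by
        intro hd
        have h6 : (P : Subgroup G) ≤ centralizer ({c} : Set G) := by
          intro x hx
          rw [mem_centralizer_singleton_iff]
          exact (mem_centralizer_iff.1 hcP x hx)
        exact P.not_dvd_index (hd.trans (index_dvd_of_le h6))
      have h6 : (χ : G → ℂ) c = ((centralizer ({c} : Set G)).index : ℂ)⁻¹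
          * ((χ : G → ℂ) 1 * centralChar (χ : G → ℂ) c) := by
        rw [← h4]
        have : ((centralizer ({c} : Set G)).index : ℂ) ≠ 0 := by
          have := Subgroup.index_ne_zero_of_finite (H := centralizer ({c} : Set G))
          exact_mod_cast this
        field_simp
      rw [h6]
      apply li_mul_left (lr_inv_natCast hM h5)
      exact li_mul_right h3 (lr_int (H27.centralChar_isIntegral χ.2 c))
    · rw [hker χ hχ c hcQ, sub_self, mul_zero]; exact li_zero _
  rw [hp1, li_natCast_iff hM] at h2
  exact P.not_dvd_index h2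

end Cfsg.Agent.H20.PKer
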