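import Cfsg.Agent.H4.ProjLine
import Cfsg.Agent.H5.Small

set_option autoImplicit false
set_option linter.unusedSectionVars false
set_option linter.style.haveILetI false
set_option linter.unusedVariables false

/-! The subgroup structure of `PSL(2,F)`: unipotent subgroup, split torus. -/

namespace Cfsg.Agent.H20

open OnePoint Subgroup Cfsg.Agent.H4

universe u v

/-- `G` acting as `PSL(2,F)` on the projective line. -/
structure PslAct (G : Type v) [Group G] (F : Type u) [Field F] [DecidableEq F]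
    (ρ : G →* Equiv.Perm (OnePoint F)) (π : Matrix.SpecialLinearGroup (Fin 2) F →* G) : Prop where
  inj : Function.Injective ρ
  surj : Function.Surjective π
  comp : ∀ A, ρ (π A) = slPerm F A

theorem exists_pslAct {G : Type v} [Group G] {F : Type u} [Field F] [DecidableEq F]
    (e : G ≃* Matrix.ProjectiveSpecialLinearGroup (Fin 2) F) :
    ∃ (ρ : G →* Equiv.Perm (OnePoint F)) (π : Matrix.SpecialLinearGroup (Fin 2) F →* G), PslAct G F ρ π := by
  let f : G ≃* (slPerm F).range := e.trans (pslEquivRange F)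
  refine ⟨(slPerm F).range.subtype.comp f.toMonoidHom, f.symm.toMonoidHom.comp (slPerm F).rangeRestrict, ?_, ?_, ?_⟩
  · intro x y hxy
    apply f.injective
    exact Subtype.ext hxy
  · intro g
    obtain ⟨A, hA⟩ := (slPerm F).rangeRestrict_surjective (f g)
    refine ⟨A, ?_⟩
    change f.symm ((slPerm F).rangeRestrict A) = g
    rw [hA, MulEquiv.symm_apply_apply]
  · intro A
    change ((f (f.symm ((slPerm F).rangeRestrict A)) : (slPerm F).range) : Equiv.Perm (OnePoint F)) = slPerm F A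
    rw [MulEquiv.apply_symm_apply]
    rfl

section
variable {G : Type v} [Group G] {F : Type u} [Field F] [DecidableEq F]
  {ρ : G →* Equiv.Perm (OnePoint F)} {π : Matrix.SpecialLinearGroup (Fin 2) F →* G}

namespace PslAct

theorem ext' (h : PslAct G F ρ π) {g g' : G} (h1 : ρ g ∞ = ρ g' ∞)
    (h2 : ∀ k : F, ρ g (k : OnePoint F) = ρ g' (k : OnePoint F)) : g = g' := by
  apply h.inj
  ext x
  cases x with
  | infty => exact h1
  | coe k => exact h2 k

theorem aff (h : PslAct G F ρ π) {g : G} (hg : ρ g ∞ = ∞) :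
    ∃ α β : F, α ≠ 0 ∧ ∀ k : F, ρ g (k : OnePoint F) = ((α * α * k + β : F) : OnePoint F) := by
  obtain ⟨A, rfl⟩ := h.surj g
  rw [h.comp] at hg ⊢
  rw [slPerm_infty] at hg
  have hc : A.1 1 0 = 0 := by
    by_contra hc
    rw [if_neg hc] at hg
    exact coe_ne_infty _ hg
  have hdet := A.2
  rw [Matrix.det_fin_two, hc, mul_zero, sub_zero] at hdet
  have h0 : A.1 0 0 ≠ 0 := by
    intro h0; rw [h0, zero_mul] at hdet; exact zero_ne_one hdet
  have h1 : A.1 1 1 ≠ 0 := by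
    intro h1; rw [h1, mul_zero] at hdet; exact zero_ne_one hdet
  refine ⟨A.1 0 0, A.1 0 0 * A.1 0 1, h0, fun k => ?_⟩
  rw [slPerm_some, hc, zero_mul, zero_add, if_neg h1]
  congr 1
  rw [div_eq_iff h1]
  have h2 : A.1 0 0 * A.1 1 1 = 1 := hdet
  linear_combination (-(A.1 0 0 * k) - A.1 0 1) * h2

theorem exists_aff (h : PslAct G F ρ π) {α β : F} (hα : α ≠ 0) :
    ∃ g : G, ρ g ∞ = ∞ ∧ ∀ k : F, ρ g (k : OnePoint F) = ((α * α * k + β : F) : OnePoint F) := by
  refine ⟨π (mkSL α (α⁻¹ * β) 0 α⁻¹ (by rw [mul_inv_cancel₀ hα, mul_zero, sub_zero])), ?_, fun k => ?_⟩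
  · rw [h.comp, slPerm_mkSL_infty, if_pos rfl]
  · rw [h.comp, slPerm_mkSL_some, zero_mul, zero_add, if_neg (inv_ne_zero hα)]
    congr 1
    field_simp

theorem exists_swap (h : PslAct G F ρ π) :
    ∃ g : G, ρ g ∞ = ((0 : F) : OnePoint F) ∧ ρ g ((0 : F) : OnePoint F) = ∞ ∧
      ∀ k : F, k ≠ 0 → ρ g (k : OnePoint F) = ((-k⁻¹ : F) : OnePoint F) := by
  refine ⟨π (mkSL 0 1 (-1) 0 (by ring)), ?_, ?_, fun k hk => ?_⟩
  · rw [h.comp, slPerm_mkSL_infty, if_neg (by simp), zero_div]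
  · rw [h.comp, slPerm_mkSL_some, if_pos (by simp)]
  · rw [h.comp, slPerm_mkSL_some, if_neg (by simpa using hk)]
    congr 1
    rw [zero_mul, zero_add, add_zero, neg_one_mul, one_div, inv_neg]

theorem aff_unique {α β γ δ : F} (h : ∀ k : F, α * k + β = γ * k + δ) : α = γ ∧ β = δ := by
  have h0 := h 0
  have h1 := h 1
  rw [mul_zero, mul_zero, zero_add, zero_add] at h0
  rw [mul_one, mul_one, h0] at h1
  exact ⟨add_right_cancel h1, h0⟩

/-- unipotent subgroup -/
def Q (ρ : G →* Equiv.Perm (OnePoint F)) : Subgroup G where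
  carrier := {g | ρ g ∞ = ∞ ∧ ∃ β : F, ∀ k : F, ρ g (k : OnePoint F) = ((k + β : F) : OnePoint F)}
  one_mem' := by
    refine ⟨by rw [map_one]; rfl, 0, fun k => by rw [map_one, add_zero]; rfl⟩
  mul_mem' := by
    rintro x y ⟨hx, β, hβ⟩ ⟨hy, γ, hγ⟩
    refine ⟨by rw [map_mul, Equiv.Perm.mul_apply, hy, hx], γ + β, fun k => ?_⟩
    rw [map_mul, Equiv.Perm.mul_apply, hγ, hβ, add_assoc]
  inv_mem' := by
    rintro x ⟨hx, β, hβ⟩
    refine ⟨?_, -β, fun k => ?_⟩
    · rw [map_inv, Equiv.Perm.inv_eq_iff_eq, hx]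
    · rw [map_inv, Equiv.Perm.inv_eq_iff_eq, hβ, neg_add_cancel_right]

/-- split torus -/
def D (ρ : G →* Equiv.Perm (OnePoint F)) : Subgroup G where
  carrier := {g | ρ g ∞ = ∞ ∧ ρ g ((0 : F) : OnePoint F) = ((0 : F) : OnePoint F)}
  one_mem' := by
    refine ⟨by rw [map_one]; rfl, by rw [map_one]; rfl⟩
  mul_mem' := by
    rintro x y ⟨hx, hx'⟩ ⟨hy, hy'⟩
    refine ⟨by rw [map_mul, Equiv.Perm.mul_apply, hy, hx], by rw [map_mul, Equiv.Perm.mul_apply, hy', hx']⟩
  inv_mem' := by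
    rintro x ⟨hx, hx'⟩
    refine ⟨?_, ?_⟩
    · rw [map_inv, Equiv.Perm.inv_eq_iff_eq, hx]
    · rw [map_inv, Equiv.Perm.inv_eq_iff_eq, hx']

theorem mem_Q {g : G} : g ∈ Q ρ ↔ ρ g ∞ = ∞ ∧ ∃ β : F, ∀ k : F, ρ g (k : OnePoint F) = ((k + β : F) : OnePoint F) :=
  Iff.rfl

theorem mem_D {g : G} : g ∈ D ρ ↔ ρ g ∞ = ∞ ∧ ρ g ((0 : F) : OnePoint F) = ((0 : F) : OnePoint F) :=
  Iff.rfl

theorem mul_of_mem_D (h : PslAct G F ρ π) {g : G} (hg : g ∈ D ρ) :
    ∃ α : F, α ≠ 0 ∧ ∀ k : F, ρ g (k : OnePoint F) = ((α * α * k : F) : OnePoint F) := by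
  obtain ⟨α, β, hα, hk⟩ := h.aff hg.1
  have h0 := hk 0
  rw [hg.2, mul_zero, zero_add] at h0
  have hβ : (0 : F) = β := OnePoint.coe_injective h0
  refine ⟨α, hα, fun k => ?_⟩
  rw [hk, ← hβ, add_zero]

theorem card_Q (h : PslAct G F ρ π) : Nat.card (Q ρ) = Nat.card F := by
  choose f hf1 hf2 using fun β : F => h.exists_aff (α := 1) (β := β) one_ne_zero
  symm
  have hfQ : ∀ β, f β ∈ Q ρ := fun β => ⟨hf1 β, β, fun k => by rw [hf2, one_mul, one_mul]⟩
  apply Nat.card_eq_of_bijective (fun β => (⟨f β, hfQ β⟩ : Q ρ))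
  constructor
  · intro β γ hβγ
    have h1 : f β = f γ := congrArg Subtype.val hβγ
    have h2 := hf2 β 0
    rw [h1, hf2 γ 0] at h2
    have h3 := OnePoint.coe_injective h2
    simpa using h3.symm
  · rintro ⟨g, hg1, β, hg2⟩
    refine ⟨β, Subtype.ext (h.ext' ?_ ?_)⟩
    · rw [hf1, hg1]
    · intro k; rw [hf2, hg2, one_mul, one_mul]

theorem card_D [Fintype F] (h : PslAct G F ρ π) (h2 : ringChar F ≠ 2) :
    2 * Nat.card (D ρ) + 1 = Nat.card F := by
  have hcD : Nat.card (D ρ) = Nat.card (powMonoidHom 2 : Fˣ →* Fˣ).range := by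
    symm
    choose f hf1 hf2 using fun α : Fˣ => h.exists_aff (α := (α : F)) (β := 0) α.ne_zero
    choose r hr using fun c : (powMonoidHom 2 : Fˣ →* Fˣ).range => c.2
    have hr' : ∀ c : (powMonoidHom 2 : Fˣ →* Fˣ).range, ((r c : Fˣ) : F) * (r c : Fˣ) = ((c : Fˣ) : F) := by
      intro c
      have h1 : (r c) ^ 2 = (c : Fˣ) := hr c
      rw [← h1, Units.val_pow_eq_pow_val, sq]
    have hfD : ∀ c : (powMonoidHom 2 : Fˣ →* Fˣ).range, f (r c) ∈ D ρ := fun c =>
      ⟨hf1 _, by rw [hf2, mul_zero, zero_add]⟩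
    apply Nat.card_eq_of_bijective (fun c => (⟨f (r c), hfD c⟩ : D ρ))
    constructor
    · intro c d hcd
      have h1 : f (r c) = f (r d) := congrArg Subtype.val hcd
      have h2 := hf2 (r c) 1
      rw [h1, hf2 (r d) 1, mul_one, mul_one, add_zero, add_zero, hr', hr'] at h2
      have h3 := OnePoint.coe_injective h2
      exact Subtype.ext (Units.ext h3.symm)
    · rintro ⟨g, hg⟩
      obtain ⟨α, hα, hk⟩ := h.mul_of_mem_D hg
      refine ⟨⟨(Units.mk0 α hα) ^ 2, ⟨Units.mk0 α hα, rfl⟩⟩, Subtype.ext (h.ext' ?_ ?_)⟩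
      · rw [hf1, hg.1]
      · intro k
        rw [hf2, hk, hr', add_zero]
        congr 2
        rw [Units.val_pow_eq_pow_val, Units.val_mk0, sq]
  have hker : Nat.card (powMonoidHom 2 : Fˣ →* Fˣ).ker = 2 := by
    have hne : (-1 : Fˣ) ≠ 1 := by
      intro h'
      have h1 : (-1 : F) = 1 := by
        have := congrArg Units.val h'
        simpa using this
      exact Ring.neg_one_ne_one_of_char_ne_two h2 h1
    rw [Nat.card_eq_two_iff]
    refine ⟨⟨1, one_mem _⟩, ⟨-1, ?_⟩, ?_, ?_⟩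
    · rw [MonoidHom.mem_ker]; simp
    · intro h'
      exact hne (congrArg Subtype.val h').symm
    · ext x
      simp only [Set.mem_insert_iff, Set.mem_singleton_iff, Set.mem_univ, iff_true]
      have hx : (x : Fˣ) ^ 2 = 1 := x.2
      have hx' : ((x : Fˣ) : F) ^ 2 = 1 := by
        rw [← Units.val_pow_eq_pow_val, hx, Units.val_one]
      rcases sq_eq_one_iff.mp hx' with h' | h'
      · left; exact Subtype.ext (Units.ext h')
      · right; exact Subtype.ext (Units.ext (by simpa using h'))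
  have hmul := Subgroup.card_mul_index (powMonoidHom 2 : Fˣ →* Fˣ).ker
  rw [Subgroup.index_ker, hker, ← hcD, Nat.card_units] at hmul
  have : 1 ≤ Nat.card F := Nat.card_pos
  omega

theorem Q_comm (h : PslAct G F ρ π) {x y : G} (hx : x ∈ Q ρ) (hy : y ∈ Q ρ) : x * y = y * x := by
  obtain ⟨hx1, β, hx2⟩ := hx
  obtain ⟨hy1, γ, hy2⟩ := hy
  apply h.ext'
  · rw [map_mul, map_mul, Equiv.Perm.mul_apply, Equiv.Perm.mul_apply, hx1, hy1, hx1]
  · intro k
    rw [map_mul, map_mul, Equiv.Perm.mul_apply, Equiv.Perm.mul_apply, hx2, hy2, hx2, hy2, add_right_comm]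

theorem D_comm (h : PslAct G F ρ π) {x y : G} (hx : x ∈ D ρ) (hy : y ∈ D ρ) : x * y = y * x := by
  obtain ⟨α, hα, hx2⟩ := h.mul_of_mem_D hx
  obtain ⟨β, hβ, hy2⟩ := h.mul_of_mem_D hy
  apply h.ext'
  · rw [map_mul, map_mul, Equiv.Perm.mul_apply, Equiv.Perm.mul_apply, hx.1, hy.1, hx.1]
  · intro k
    rw [map_mul, map_mul, Equiv.Perm.mul_apply, Equiv.Perm.mul_apply, hx2, hy2, hx2, hy2]
    congr 1
    ring

/-- a non-identity element of `Q` fixes only `∞` -/
theorem Q_fix (h : PslAct G F ρ π) {x : G} (hx : x ∈ Q ρ) (hx1 : x ≠ 1) {ω : OnePoint F} (hω : ρ x ω = ω) : ω = ∞ := by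
  obtain ⟨hx0, β, hx2⟩ := hx
  cases ω with
  | infty => rfl
  | coe k =>
    exfalso
    rw [hx2] at hω
    have h1 := OnePoint.coe_injective hω
    have hβ : β = 0 := by simpa using h1
    apply hx1
    apply h.ext'
    · rw [hx0, map_one]; rfl
    · intro l; rw [hx2, hβ, add_zero, map_one]; rfl

theorem cent_Q (h : PslAct G F ρ π) {x : G} (hx : x ∈ Q ρ) (hx1 : x ≠ 1) :
    Subgroup.centralizer ({x} : Set G) = Q ρ := by
  apply le_antisymm
  · intro g hg
    rw [mem_centralizer_singleton_iff] at hg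
    have hg1 : ρ g ∞ = ∞ := by
      apply h.Q_fix hx hx1
      rw [← Equiv.Perm.mul_apply, ← map_mul, ← hg, map_mul, Equiv.Perm.mul_apply, hx.1]
    obtain ⟨α, γ, hα, hk⟩ := h.aff hg1
    obtain ⟨hx0, β, hx2⟩ := hx
    have hβ : β ≠ 0 := by
      intro hβ
      apply hx1
      apply h.ext'
      · rw [hx0, map_one]; rfl
      · intro l; rw [hx2, hβ, add_zero, map_one]; rfl
    have h1 : ρ (g * x) ((0 : F) : OnePoint F) = ρ (x * g) ((0 : F) : OnePoint F) := by rw [hg]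
    rw [map_mul, map_mul, Equiv.Perm.mul_apply, Equiv.Perm.mul_apply, hx2, hk, hk, hx2] at h1
    have h2 := OnePoint.coe_injective h1
    have h3 : α * α = 1 := by
      apply mul_right_cancel₀ hβ
      linear_combination h2
    refine ⟨hg1, γ, fun k => ?_⟩
    rw [hk, h3, one_mul]
  · intro g hg
    rw [mem_centralizer_singleton_iff]
    exact h.Q_comm hg hx

theorem D_inv (h : PslAct G F ρ π) {d : G} (hd : d ∈ D ρ) {α : F} (hα : α ≠ 0)
    (hk : ∀ k : F, ρ d (k : OnePoint F) = ((α * α * k : F) : OnePoint F)) (k : F) :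
    ρ d⁻¹ (k : OnePoint F) = (((α * α)⁻¹ * k : F) : OnePoint F) := by
  rw [map_inv, Equiv.Perm.inv_eq_iff_eq, hk, mul_inv_cancel_left₀ (mul_ne_zero hα hα)]

theorem D_conj_Q (h : PslAct G F ρ π) {d x : G} (hd : d ∈ D ρ) (hx : x ∈ Q ρ) : d * x * d⁻¹ ∈ Q ρ := by
  obtain ⟨α, hα, hk⟩ := h.mul_of_mem_D hd
  obtain ⟨hx0, β, hx2⟩ := hx
  refine ⟨?_, α * α * β, fun k => ?_⟩
  · rw [map_mul, map_mul, Equiv.Perm.mul_apply, Equiv.Perm.mul_apply, (inv_mem hd : d⁻¹ ∈ D ρ).1, hx0, hd.1]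
  · rw [map_mul, map_mul, Equiv.Perm.mul_apply, Equiv.Perm.mul_apply, h.D_inv hd hα hk, hx2, hk, mul_add,
      mul_inv_cancel_left₀ (mul_ne_zero hα hα)]

theorem norm_Q (h : PslAct G F ρ π) : normalizer ((Q ρ : Subgroup G) : Set G) = Q ρ ⊔ D ρ := by
  apply le_antisymm
  · intro g hg
    obtain ⟨x, hx1, hx2⟩ := h.exists_aff (α := 1) (β := 1) one_ne_zero
    have hx : x ∈ Q ρ := ⟨hx1, 1, fun k => by rw [hx2, one_mul, one_mul]⟩
    have hxne : x ≠ 1 := by
      intro h'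
      have := hx2 0
      rw [h', map_one] at this
      have h3 : (0 : F) = 1 * 1 * 0 + 1 := OnePoint.coe_injective this
      simp at h3
    have h1 : g⁻¹ * x * g ∈ Q ρ := by
      have := (mem_normalizer_iff.mp (inv_mem hg) x).mp hx
      rwa [inv_inv] at this
    have hg1 : ρ g ∞ = ∞ := by
      apply h.Q_fix hx hxne
      have h2 := h1.1
      rw [map_mul, map_mul, map_inv, Equiv.Perm.mul_apply, Equiv.Perm.mul_apply, Equiv.Perm.inv_eq_iff_eq] at h2
      exact h2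
    obtain ⟨α, γ, hα, hk⟩ := h.aff hg1
    obtain ⟨d, hd1, hd2⟩ := h.exists_aff (α := α) (β := 0) hα
    have hd : d ∈ D ρ := ⟨hd1, by rw [hd2, mul_zero, zero_add]⟩
    have hd3 : ∀ k : F, ρ d (k : OnePoint F) = ((α * α * k : F) : OnePoint F) := fun k => by
      rw [hd2, add_zero]
    have h2 : g * d⁻¹ ∈ Q ρ := by
      refine ⟨?_, γ, fun k => ?_⟩
      · rw [map_mul, Equiv.Perm.mul_apply, (inv_mem hd : d⁻¹ ∈ D ρ).1, hg1]
      · rw [map_mul, Equiv.Perm.mul_apply, h.D_inv hd hα hd3, hk, mul_inv_cancel_left₀ (mul_ne_zero hα hα)]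
    have h3 : g = (g * d⁻¹) * d := by group
    rw [h3]
    exact mul_mem (mem_sup_left h2) (mem_sup_right hd)
  · refine sup_le le_normalizer ?_
    intro d hd
    rw [mem_normalizer_iff]
    intro x
    constructor
    · exact fun hx => h.D_conj_Q hd hx
    · intro hx
      have := h.D_conj_Q (inv_mem hd) hx
      have h2 : d⁻¹ * (d * x * d⁻¹) * d⁻¹⁻¹ = x := by group
      rwa [h2] at this

theorem Q_inf_D (h : PslAct G F ρ π) : Q ρ ⊓ D ρ = ⊥ := by
  rw [eq_bot_iff]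
  rintro g ⟨⟨hg1, β, hg2⟩, hg3⟩
  have h1 := hg2 0
  rw [hg3.2, zero_add] at h1
  have hβ : (0 : F) = β := OnePoint.coe_injective h1
  rw [mem_bot]
  apply h.ext'
  · rw [hg1, map_one]; rfl
  · intro k; rw [hg2, ← hβ, add_zero, map_one]; rfl

/-- a non-identity element of `D` fixes only `∞` and `0` -/
theorem D_fix (h : PslAct G F ρ π) {x : G} (hx : x ∈ D ρ) (hx1 : x ≠ 1) {ω : OnePoint F} (hω : ρ x ω = ω) :
    ω = ∞ ∨ ω = ((0 : F) : OnePoint F) := by
  obtain ⟨α, hα, hk⟩ := h.mul_of_mem_D hx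
  cases ω with
  | infty => exact Or.inl rfl
  | coe k =>
    right
    by_cases hk0 : k = 0
    · rw [hk0]
    · exfalso
      rw [hk] at hω
      have h1 := OnePoint.coe_injective hω
      have h2 : α * α = 1 := by
        apply mul_right_cancel₀ hk0
        rw [h1, one_mul]
      apply hx1
      apply h.ext'
      · rw [hx.1, map_one]; rfl
      · intro l; rw [hk, h2, one_mul, map_one]; rfl

theorem exists_u (h : PslAct G F ρ π) : ∃ u : G, orderOf u = 2 ∧ u ∉ D ρ ∧ (∀ d ∈ D ρ, u * d * u⁻¹ = d⁻¹) ∧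
    ∀ X : Subgroup G, X ≤ D ρ → X ≠ ⊥ → normalizer (X : Set G) = D ρ ⊔ zpowers u := by
  obtain ⟨u, hu1, hu2, hu3⟩ := h.exists_swap
  have huu : u * u = 1 := by
    apply h.ext'
    · rw [map_mul, Equiv.Perm.mul_apply, hu1, hu2, map_one]; rfl
    · intro k
      rw [map_mul, Equiv.Perm.mul_apply, map_one]
      by_cases hk : k = 0
      · rw [hk, hu2, hu1]; rfl
      · rw [hu3 k hk, hu3 _ (neg_ne_zero.mpr (inv_ne_zero hk)), inv_neg, neg_neg, inv_inv]; rfl
  have huD : u ∉ D ρ := by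
    intro hu
    have := hu.1
    rw [hu1] at this
    exact coe_ne_infty _ this
  have hu1' : u ≠ 1 := by
    intro h'; apply huD; rw [h']; exact one_mem _
  have huinv : ∀ d ∈ D ρ, u * d * u⁻¹ = d⁻¹ := by
    intro d hd
    obtain ⟨α, hα, hk⟩ := h.mul_of_mem_D hd
    rw [mul_inv_eq_iff_eq_mul]
    apply h.ext'
    · rw [map_mul, map_mul, Equiv.Perm.mul_apply, Equiv.Perm.mul_apply, hd.1, hu1,
        (inv_mem hd : d⁻¹ ∈ D ρ).2]
    · intro k
      rw [map_mul, map_mul, Equiv.Perm.mul_apply, Equiv.Perm.mul_apply, hk]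
      by_cases hk0 : k = 0
      · rw [hk0, mul_zero, hu2, (inv_mem hd : d⁻¹ ∈ D ρ).1]
      · rw [hu3 k hk0, hu3 _ (mul_ne_zero (mul_ne_zero hα hα) hk0), h.D_inv hd hα hk]
        congr 1
        field_simp
  refine ⟨u, orderOf_eq_prime (by rw [sq, huu]) hu1', huD, huinv, ?_⟩
  intro X hXD hX
  apply le_antisymm
  · intro g hg
    have hex : ∃ x ∈ X, x ≠ 1 := by
      by_contra hcon
      push Not at hcon
      exact hX ((Subgroup.eq_bot_iff_forall X).mpr hcon)
    obtain ⟨x, hxX, hx1⟩ := hex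
    have h1 : g⁻¹ * x * g ∈ X := by
      have := (mem_normalizer_iff.mp (inv_mem hg) x).mp hxX
      rwa [inv_inv] at this
    have h2 := hXD h1
    have e1 : ρ x (ρ g ∞) = ρ g ∞ := by
      have h3 := h2.1
      rw [map_mul, map_mul, map_inv, Equiv.Perm.mul_apply, Equiv.Perm.mul_apply, Equiv.Perm.inv_eq_iff_eq] at h3
      exact h3
    have e2 : ρ x (ρ g ((0 : F) : OnePoint F)) = ρ g ((0 : F) : OnePoint F) := by
      have h3 := h2.2
      rw [map_mul, map_mul, map_inv, Equiv.Perm.mul_apply, Equiv.Perm.mul_apply, Equiv.Perm.inv_eq_iff_eq] at h3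
      exact h3
    have n1 : ρ g ∞ ≠ ρ g ((0 : F) : OnePoint F) := fun h' => infty_ne_coe _ ((ρ g).injective h')
    rcases h.D_fix (hXD hxX) hx1 e1 with f1 | f1
    · rcases h.D_fix (hXD hxX) hx1 e2 with f2 | f2
      · exact absurd (f1.trans f2.symm) n1
      · exact mem_sup_left ⟨f1, f2⟩
    · rcases h.D_fix (hXD hxX) hx1 e2 with f2 | f2
      · have h3 : u * g ∈ D ρ := by
          refine ⟨?_, ?_⟩
          · rw [map_mul, Equiv.Perm.mul_apply, f1, hu2]
          · rw [map_mul, Equiv.Perm.mul_apply, f2, hu1]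
        have h4 : g = u⁻¹ * (u * g) := by group
        rw [h4]
        exact mul_mem (mem_sup_right (inv_mem (mem_zpowers u))) (mem_sup_left h3)
      · exact absurd (f1.trans f2.symm) n1
  · refine sup_le ?_ ?_
    · intro d hd
      rw [mem_normalizer_iff]
      intro x
      have key : ∀ y ∈ D ρ, d * y * d⁻¹ = y := fun y hy => by
        rw [h.D_comm hd hy, mul_inv_cancel_right]
      constructor
      · intro hx; rw [key x (hXD hx)]; exact hx
      · intro hx
        have h1 : x ∈ D ρ := by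
          have h2 := mul_mem (mul_mem (inv_mem hd) (hXD hx)) hd
          have h3 : d⁻¹ * (d * x * d⁻¹) * d = x := by group
          rwa [h3] at h2
        rwa [key x h1] at hx
    · rw [zpowers_le, mem_normalizer_iff]
      intro x
      constructor
      · intro hx; rw [huinv x (hXD hx)]; exact inv_mem hx
      · intro hx
        have h1 := huinv _ (hXD hx)
        have h2 : u * (u * x * u⁻¹) * u⁻¹ = x := by
          have h3 : u⁻¹ = u := inv_eq_of_mul_eq_one_left huu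
          calc u * (u * x * u⁻¹) * u⁻¹ = (u * u) * x * (u⁻¹ * u⁻¹) := by group
            _ = x := by rw [h3, huu, one_mul, mul_one]
        rw [h2] at h1
        rw [h1]; exact inv_mem hx

end PslAct
end

/-- the subgroup structure of `PSL(2,q)`, `q` odd, `q ≥ 3` -/
theorem psl_structure {G : Type v} [Group G] [Finite G] {F : Type u} [Field F] [Fintype F] (h2 : ringChar F ≠ 2)
    (e : G ≃* Matrix.ProjectiveSpecialLinearGroup (Fin 2) F) :
    ∃ Q D : Subgroup G, 2 * Nat.card G = Nat.card ↥Q * (Nat.card ↥Q + 1) * (Nat.card ↥Q - 1) ∧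
      (∀ x ∈ Q, x ≠ 1 → Subgroup.centralizer ({x} : Set G) = Q) ∧
      IsMulCommutative ↥D ∧ 2 * Nat.card ↥D + 1 = Nat.card ↥Q ∧ Q ⊓ D = ⊥ ∧
      Subgroup.normalizer (Q : Set G) = Q ⊔ D ∧
      ∀ X : Subgroup G, X ≤ D → X ≠ ⊥ →
        Subgroup.normalizer (X : Set G) = Subgroup.normalizer (D : Set G) ∧
        ∃ u : G, orderOf u = 2 ∧ u ∉ D ∧ (∀ d ∈ D, u * d * u⁻¹ = d⁻¹) ∧
          Subgroup.normalizer (D : Set G) = D ⊔ Subgroup.zpowers u := by
  classical
  obtain ⟨ρ, π, h⟩ := exists_pslAct e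
  obtain ⟨u, hu1, hu2, hu3, hu4⟩ := h.exists_u
  refine ⟨PslAct.Q ρ, PslAct.D ρ, ?_, fun x hx hx1 => h.cent_Q hx hx1, ?_, ?_, h.Q_inf_D, h.norm_Q, ?_⟩
  · rw [h.card_Q, Nat.card_congr e.toEquiv]
    have hc := H5.card_PSL2 (F := F) (q := Fintype.card F) rfl
    rw [Nat.card_eq_fintype_card (α := F)]
    have hodd : Fintype.card F % 2 = 1 := FiniteField.odd_card_of_char_ne_two h2
    have h1 : Nat.gcd 2 (Fintype.card F - 1) = 2 := by
      apply Nat.gcd_eq_left
      omega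
    rw [h1] at hc
    rw [hc]
    obtain ⟨m, hm⟩ : ∃ m, Fintype.card F = m + 1 := ⟨Fintype.card F - 1, by omega⟩
    rw [hm]
    have : (m + 1) ^ 2 - 1 = (m + 1 + 1) * (m + 1 - 1) := by
      rw [Nat.add_sub_cancel]
      have : (m + 1) ^ 2 = (m + 1 + 1) * m + 1 := by ring
      omega
    rw [this, mul_assoc]
  · rw [isMulCommutative_iff]
    intro x y
    exact Subtype.ext (h.D_comm x.2 y.2)
  · rw [h.card_D h2, h.card_Q]
  · intro X hXD hX
    have hD : PslAct.D ρ ≠ ⊥ := by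
      intro h'
      apply hX
      rw [eq_bot_iff, ← h']
      exact hXD
    have hDn := hu4 _ le_rfl hD
    exact ⟨by rw [hu4 X hXD hX, hDn], u, hu1, hu2, hu3, hDn⟩

end Cfsg.Agent.H20
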