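import Mathlib
import Cfsg.Agent.H26.InfBlk2
import Cfsg.Agent.H26.Coef
import Cfsg.Agent.H3.BrauerD
import Cfsg.Agent.H2.Hall

set_option autoImplicit false

/-!
# Characters evaluated on `p'`-parts
-/

namespace Cfsg.Agent.H20.SC

open Cfsg Cfsg.Agent.H3 Cfsg.Agent.H11 Cfsg.Agent.H26 Finset
open scoped ComplexConjugate

universe u

section Reg

variable {G : Type u} [Group G] [Finite G] {p : ℕ} [hp : Fact p.Prime]

/-- `n` is an exponent computing `p'`-parts. -/
structure RegExp (p : ℕ) (G : Type u) [Group G] (n : ℕ) : Prop where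
  reg : ∀ g : G, ¬ p ∣ orderOf g → g ^ n = g
  pel : ∀ g : G, (∃ k : ℕ, orderOf g = p ^ k) → g ^ n = 1

variable (G p) in
theorem exists_regExp : ∃ n : ℕ, RegExp p G n := by
  have h1 : p ^ (Nat.card G).factorization p * (Nat.card G / p ^ (Nat.card G).factorization p)
      = Nat.card G := Nat.ordProj_mul_ordCompl_eq_self _ _
  have h2 : ¬ p ∣ Nat.card G / p ^ (Nat.card G).factorization p :=
    Nat.not_dvd_ordCompl hp.out Nat.card_pos.ne'
  set a := (Nat.card G).factorization p
  set m := Nat.card G / p ^ a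
  have hc : (p ^ a).Coprime m := Nat.Coprime.pow_left _ ((Nat.Prime.coprime_iff_not_dvd hp.out).mpr h2)
  obtain ⟨n, hn1, hn2⟩ := Nat.chineseRemainder hc 0 1
  refine ⟨n, ?_, ?_⟩
  · intro g hg
    have h3 : orderOf g ∣ m := by
      have h4 : orderOf g ∣ p ^ a * m := by rw [h1]; exact orderOf_dvd_natCard g
      exact (Nat.Coprime.pow_right a ((Nat.Prime.coprime_iff_not_dvd hp.out).mpr hg).symm).dvd_of_dvd_mul_left h4
    have h5 : n ≡ 1 [MOD orderOf g] := hn2.of_dvd h3
    have := pow_eq_pow_iff_modEq.mpr h5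
    rwa [pow_one] at this
  · rintro g ⟨k, hk⟩
    have h3 : p ^ k ∣ Nat.card G := by rw [← hk]; exact orderOf_dvd_natCard g
    have h4 : k ≤ a := (hp.out.pow_dvd_iff_le_factorization Nat.card_pos.ne').mp h3
    have h5 : orderOf g ∣ p ^ a := by rw [hk]; exact pow_dvd_pow _ h4
    exact orderOf_dvd_iff_pow_eq_one.mp (h5.trans ((Nat.modEq_zero_iff_dvd).mp hn1))

theorem RegExp.regular {n : ℕ} (h : RegExp p G n) (g : G) : ¬ p ∣ orderOf (g ^ n) := by
  obtain ⟨x, y, hxy, hc, hx, hy⟩ := exists_isPPart hp.out g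
  rw [← hxy, hc.mul_pow, h.pel x hx, h.reg y hy, one_mul]
  exact hy

omit [Finite G] hp in
theorem RegExp.central {n : ℕ} (h : RegExp p G n) {x : G} (hx : ∃ k : ℕ, orderOf x = p ^ k)
    {c : G} (hc : Commute x c) : (x * c) ^ n = c ^ n := by
  rw [hc.mul_pow, h.pel x hx, one_mul]

omit [Finite G] hp in
theorem RegExp.sub {n : ℕ} (h : RegExp p G n) (E : Subgroup G) : RegExp p E n where
  reg g hg := by
    rw [← Subgroup.orderOf_coe] at hg
    exact Subtype.ext (h.reg _ hg)
  pel g hg := by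
    obtain ⟨k, hk⟩ := hg
    rw [← Subgroup.orderOf_coe] at hk
    exact Subtype.ext (h.pel _ ⟨k, hk⟩)

/-- in nilpotent groups the `p'`-part is a homomorphism -/
theorem RegExp.mul {n : ℕ} (h : RegExp p G n) (hG : Group.IsNilpotent G) (a b : G) :
    (a * b) ^ n = a ^ n * b ^ n := by
  obtain ⟨P, N, hN, hc⟩ := Cfsg.Agent.H2.HasNormalPComplement.of_isNilpotent (p := p) hG
  have hn : ∀ (q : ℕ) (_ : Fact q.Prime) (Q : Sylow q G), (Q : Subgroup G).Normal :=
    ((Group.isNilpotent_of_finite_tfae (G := G)).out 0 3).1 hG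
  have hP : (P : Subgroup G).Normal := hn p hp P
  have hdis : Disjoint N (P : Subgroup G) := hc.disjoint
  have hcardP : Nat.card P = p ^ (Nat.card G).factorization p := P.card_eq_multiplicity
  have hndvd : ¬ p ∣ Nat.card N := by
    intro hd
    have h1 := hc.card_mul_card
    rw [hcardP] at h1
    have h2 : p ^ ((Nat.card G).factorization p + 1) ∣ Nat.card G := by
      conv_rhs => rw [← h1]
      rw [pow_succ, mul_comm]
      exact mul_dvd_mul hd dvd_rfl
    exact Nat.pow_succ_factorization_not_dvd Nat.card_pos.ne' hp.out h2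
  have hPe : ∀ x ∈ (P : Subgroup G), x ^ n = 1 := by
    intro x hx
    apply h.pel
    obtain ⟨k, hk⟩ := (IsPGroup.iff_orderOf.mp P.isPGroup') ⟨x, hx⟩
    exact ⟨k, by rw [← hk, Subgroup.orderOf_mk]⟩
  have hNe : ∀ x ∈ N, x ^ n = x := by
    intro x hx
    apply h.reg
    intro hd
    apply hndvd
    have h1 : orderOf (⟨x, hx⟩ : N) ∣ Nat.card N := orderOf_dvd_natCard _
    rw [Subgroup.orderOf_mk] at h1
    exact hd.trans h1
  have hcom : ∀ x ∈ N, ∀ y ∈ (P : Subgroup G), Commute x y := fun x hx y hy =>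
    Subgroup.commute_of_normal_of_disjoint N _ hN hP hdis x y hx hy
  have hdec : ∀ x : G, ∃ u ∈ N, ∃ v ∈ (P : Subgroup G), u * v = x := by
    intro x
    have h1 : x ∈ N ⊔ (P : Subgroup G) := by rw [hc.sup_eq_top]; trivial
    exact Subgroup.mem_sup_of_normal_left.mp h1
  obtain ⟨a1, ha1, a2, ha2, rfl⟩ := hdec a
  obtain ⟨b1, hb1, b2, hb2, rfl⟩ := hdec b
  have e1 : a1 * a2 * (b1 * b2) = (a1 * b1) * (a2 * b2) := by
    have := (hcom b1 hb1 a2 ha2).eq
    calc a1 * a2 * (b1 * b2) = a1 * (a2 * b1) * b2 := by group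
      _ = a1 * (b1 * a2) * b2 := by rw [this]
      _ = _ := by group
  rw [e1, (hcom _ (N.mul_mem ha1 hb1) _ (mul_mem ha2 hb2)).mul_pow, hPe _ (mul_mem ha2 hb2),
    hNe _ (N.mul_mem ha1 hb1), (hcom _ ha1 _ ha2).mul_pow, (hcom _ hb1 _ hb2).mul_pow,
    hPe _ ha2, hPe _ hb2, hNe _ ha1, hNe _ hb1]
  simp

/-- **characters evaluated at `p'`-parts** are generalized characters -/
theorem isGen_regPow {n : ℕ} (h : RegExp p G n) {χ : G → ℂ} (hχ : IsGeneralizedCharacter G χ) :
    IsGeneralizedCharacter G (fun g => χ (g ^ n)) := by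
  have := Fintype.ofFinite G
  apply brauer_char
  · intro g c
    have := (isGen_iff.mp hχ).1 (g ^ n) c
    simp only
    rw [conj_pow]
    exact this
  · intro E q hq hE
    have hnil := isNilpotent_of_isElementary hq hE
    have hE' := h.sub E
    let φ : E →* G := E.subtype.comp
      { toFun := fun c => c ^ n
        map_one' := one_pow n
        map_mul' := fun a b => hE'.mul hnil a b }
    exact isGen_comp hχ φ

end Reg

end Cfsg.Agent.H20.SC
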