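import Mathlib
import Cfsg.Agent.H20.SC1
import Cfsg.Agent.H27.Kernel

set_option autoImplicit false

/-!
# Integral expansions on `p`-regular elements for central extensions by `p`-groups
-/

namespace Cfsg.Agent.H20.SC

open Cfsg Cfsg.Agent.H3 Cfsg.Agent.H11 Cfsg.Agent.H26 Finset
open scoped ComplexConjugate

universe u

section Exp

variable {C : Type u} [Group C] [Finite C] {p : ℕ} [hp : Fact p.Prime] {M : Ideal AlgInt}
  {Z : Subgroup C} [hZn : Z.Normal]

omit [Finite C] hZn hp in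
theorem cent_index (hZ : Z ≤ Subgroup.center C) :
    ∃ k : ℕ, (Subgroup.centralizer (Z : Set C)).index = p ^ k := by
  refine ⟨0, ?_⟩
  have : Subgroup.centralizer (Z : Set C) = ⊤ := by
    rw [Subgroup.centralizer_eq_top_iff_subset]
    exact hZ
  rw [this, Subgroup.index_top, pow_zero]

theorem int_expand (hMp : IsPModular p M) (hP : IsPGroup p Z) (hZ : Z ≤ Subgroup.center C)
    [Fintype (IrrCharacter (C ⧸ Z))]
    {η : IrrCharacter C} (hη : η ∈ principalBlock M C) : ∃ z : IrrCharacter (C ⧸ Z) → ℤ,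
      (∀ ψ, ψ ∉ principalBlock M (C ⧸ Z) → z ψ = 0) ∧ ∀ y : C, ¬ p ∣ orderOf y →
        (η : C → ℂ) y = ∑ ψ : IrrCharacter (C ⧸ Z), (z ψ : ℂ) *
          (ψ : C ⧸ Z → ℂ) (QuotientGroup.mk y) := by
  classical
  have hfC : Fintype C := Fintype.ofFinite _
  have hfQ : Fintype (C ⧸ Z) := Fintype.ofFinite _
  obtain ⟨n, hn⟩ := exists_regExp C p
  have hgen := isGen_regPow hn (isGen_of_irr η.2)
  have hcl := (isGen_iff.mp hgen).1
  have hcoset : ∀ (c : C) (z : C), z ∈ Z → (c * z) ^ n = c ^ n := by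
    intro c z hz
    have h1 : Commute z c := (Subgroup.mem_center_iff.mp (hZ hz) c).symm
    rw [h1.symm.eq]
    refine hn.central ?_ h1
    obtain ⟨k, hk⟩ := IsPGroup.iff_orderOf.mp hP ⟨z, hz⟩
    exact ⟨k, by rw [← hk, Subgroup.orderOf_mk]⟩
  set F : C → ℂ := fun g => (η : C → ℂ) (g ^ n) with hF
  let Fb : C ⧸ Z → ℂ := fun t => F t.out
  have hFb : ∀ c : C, Fb (QuotientGroup.mk c) = F c := by
    intro c
    obtain ⟨⟨z, hz⟩, h1⟩ := QuotientGroup.mk_out_eq_mul Z c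
    show F (Quotient.out (QuotientGroup.mk c : C ⧸ Z)) = F c
    rw [h1]
    show (η : C → ℂ) ((c * z) ^ n) = (η : C → ℂ) (c ^ n)
    rw [hcoset c z hz]
  have hFbc : IsClassFunction (C ⧸ Z) Fb := by
    intro t s
    obtain ⟨g, rfl⟩ := QuotientGroup.mk_surjective s
    obtain ⟨x, rfl⟩ := QuotientGroup.mk_surjective t
    rw [← QuotientGroup.mk_inv, ← QuotientGroup.mk_mul, ← QuotientGroup.mk_mul, hFb, hFb]
    exact hcl x g
  have hint : ∀ ψ : IrrCharacter (C ⧸ Z), ∃ k : ℤ, classInner Fb (ψ : C ⧸ Z → ℂ) = k := by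
    intro ψ
    obtain ⟨k, hk⟩ := classInner_gen_int hgen (isGen_of_irr (infl Z ψ).2)
    refine ⟨k, ?_⟩
    rw [← hk, ← Cfsg.Agent.H27.classInner_comp_surjective (QuotientGroup.mk' Z)
      (QuotientGroup.mk'_surjective Z) Fb (ψ : C ⧸ Z → ℂ)]
    congr 1
    funext c
    exact hFb c
  choose k hk using hint
  have h1 := classFun_expand_apply hFbc
  have h2 : ∀ x : C, ¬ p ∣ orderOf x → (η : C → ℂ) x =
      ∑ ψ : IrrCharacter (C ⧸ Z), (k ψ : ℂ) * (infl Z ψ : C → ℂ) x := by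
    intro x hx
    have h3 : (η : C → ℂ) x = Fb (QuotientGroup.mk x) := by
      rw [hFb]
      show (η : C → ℂ) x = (η : C → ℂ) (x ^ n)
      rw [hn.reg x hx]
    rw [h3, h1]
    apply Finset.sum_congr rfl
    intro ψ _
    rw [← hk]
    rfl
  have hpr := hMp.2.1.isPrime
  have hCi := cent_index (p := p) hZ
  have hB : IsPBlock M (principalBlock M C) := isPBlock_principal C
  refine ⟨fun ψ => if ψ ∈ principalBlock M (C ⧸ Z) then k ψ else 0, fun ψ hψ => if_neg hψ, ?_⟩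
  intro x hx
  have h4 : blockPart (principalBlock M C) (η : C → ℂ) x =
      blockPart (principalBlock M C) (fun y => ∑ ψ : IrrCharacter (C ⧸ Z), (k ψ : ℂ) *
        (infl Z ψ : C → ℂ) y) x :=
    blockPart_congr_reg hMp hB h2 hx
  have h5 : ∀ θ : IrrCharacter C, blockPart (principalBlock M C) (θ : C → ℂ) x =
      if θ ∈ principalBlock M C then (θ : C → ℂ) x else 0 := by
    intro θ
    rw [blockPart_eq_actFun _ (irr_classFun θ.2), actFun_char]
  have h6 : blockPart (principalBlock M C) (fun y => ∑ ψ : IrrCharacter (C ⧸ Z), (k ψ : ℂ) *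
        (infl Z ψ : C → ℂ) y) x =
      ∑ ψ : IrrCharacter (C ⧸ Z), (k ψ : ℂ) *
        blockPart (principalBlock M C) (infl Z ψ : C → ℂ) x := by
    simp only [blockPart_eq_kr, Finset.mul_sum, Finset.sum_mul]
    rw [Finset.sum_comm]
    apply Finset.sum_congr rfl
    intro ψ _
    apply Finset.sum_congr rfl
    intro y _
    ring
  rw [h5, if_pos hη] at h4
  rw [h4, h6]
  apply Finset.sum_congr rfl
  intro ψ _
  rw [h5]
  have h7 := mem_principal_infl hMp hP hCi ψ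
  by_cases h8 : ψ ∈ principalBlock M (C ⧸ Z)
  · simp only [if_pos (h7.mp h8), if_pos h8]
    rfl
  · simp only [if_neg (fun h => h8 (h7.mpr h)), if_neg h8]
    simp

omit [Finite C] hp in
theorem reg_mk {x : C} (hx : ¬ p ∣ orderOf x) : ¬ p ∣ orderOf (QuotientGroup.mk x : C ⧸ Z) :=
  fun h => hx (h.trans (orderOf_map_dvd (QuotientGroup.mk' Z) x))

theorem sum_reg_mk [Fintype C] [Fintype (C ⧸ Z)] (hP : IsPGroup p Z)
    (hZ : Z ≤ Subgroup.center C) {A : Type*} [AddCommMonoid A] (f : C ⧸ Z → A)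
    [DecidablePred (fun y : C => ¬ p ∣ orderOf y)]
    [DecidablePred (fun y : C ⧸ Z => ¬ p ∣ orderOf y)] :
    ∑ y : C with ¬ p ∣ orderOf y, f (QuotientGroup.mk y) =
      ∑ h : C ⧸ Z with ¬ p ∣ orderOf h, f h := by
  refine Finset.sum_bij (fun y _ => (QuotientGroup.mk y : C ⧸ Z)) ?_ ?_ ?_ ?_
  · intro y hy
    exact Finset.mem_filter.mpr ⟨Finset.mem_univ _, reg_mk (Finset.mem_filter.mp hy).2⟩
  · intro a ha b hb hab
    exact eq_of_mk_eq hP (cent_index hZ) (Finset.mem_filter.mp ha).2 (Finset.mem_filter.mp hb).2 hab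
  · intro t ht
    obtain ⟨x, hx, hx2⟩ := exists_reg_lift (P := Z) (Finset.mem_filter.mp ht).2
    exact ⟨x, Finset.mem_filter.mpr ⟨Finset.mem_univ _, hx2⟩, hx⟩
  · intro _ _; rfl

end Exp

end Cfsg.Agent.H20.SC
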