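import Mathlib
import Cfsg.Agent.H20.SC2

set_option autoImplicit false

/-!
# The Gram matrix of a block of defect one
-/

namespace Cfsg.Agent.H20.SC

open Cfsg Cfsg.Agent.H3 Cfsg.Agent.H11 Cfsg.Agent.H26 Finset
open scoped ComplexConjugate

universe u

section DD

variable {H : Type u} [Group H] [Fintype H] {p : ℕ} {M : Ideal AlgInt}
  {X : Finset (IrrCharacter H)} {ε : IrrCharacter H → ℤ} {m : ℕ}

/-- data of the principal block when the Sylow `p`-subgroups have order `p`. -/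
structure DD1 (p : ℕ) (M : Ideal AlgInt) (X : Finset (IrrCharacter H)) (ε : IrrCharacter H → ℤ)
    (m : ℕ) : Prop where
  mpos : 0 < m
  epos : 0 < X.card
  card : 1 + m * X.card = p
  sgn : ∀ χ ∈ X, ε χ ^ 2 = 1
  expand : ∀ ψ ∈ principalBlock M H, ∃ w : IrrCharacter H → ℤ, ∀ g : H, ¬ p ∣ orderOf g →
    (ψ : H → ℂ) g = ∑ χ ∈ X, (w χ : ℂ) * (χ : H → ℂ) g
  gram : ∀ b : IrrCharacter H → ℤ, (p : ℝ) * ∑ g : H with ¬ p ∣ orderOf g,
    ‖∑ χ ∈ X, (b χ : ℂ) * (χ : H → ℂ) g‖ ^ 2 =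
      (Nat.card H : ℝ) * ((p * ∑ χ ∈ X, b χ ^ 2 - m * (∑ χ ∈ X, ε χ * b χ) ^ 2 : ℤ) : ℝ)
  rank : blockRank p (principalBlock M H) ≤ X.card

theorem DD1.lower (h : DD1 p M X ε m) (b : IrrCharacter H → ℤ) (hb : ∃ χ ∈ X, b χ ≠ 0) :
    (X.card : ℤ) ≤ p * ∑ χ ∈ X, b χ ^ 2 - m * (∑ χ ∈ X, ε χ * b χ) ^ 2 := by
  classical
  set T := X.filter (fun χ => b χ ≠ 0) with hT
  have hTX : T ⊆ X := Finset.filter_subset _ _
  have hr : 1 ≤ T.card := by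
    obtain ⟨χ, hχ, h1⟩ := hb
    exact Finset.card_pos.mpr ⟨χ, Finset.mem_filter.mpr ⟨hχ, h1⟩⟩
  have hre : T.card ≤ X.card := Finset.card_le_card hTX
  have h1 : ∑ χ ∈ X, ε χ * b χ = ∑ χ ∈ T, ε χ * b χ := by
    symm
    apply Finset.sum_subset hTX
    intro χ hχ hn
    have : b χ = 0 := by
      by_contra h0
      exact hn (Finset.mem_filter.mpr ⟨hχ, h0⟩)
    rw [this, mul_zero]
  have h2 : ∑ χ ∈ X, b χ ^ 2 = ∑ χ ∈ T, b χ ^ 2 := by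
    symm
    apply Finset.sum_subset hTX
    intro χ hχ hn
    have : b χ = 0 := by
      by_contra h0
      exact hn (Finset.mem_filter.mpr ⟨hχ, h0⟩)
    rw [this]; ring
  have h3 : (∑ χ ∈ T, ε χ * b χ) ^ 2 ≤ T.card * ∑ χ ∈ T, b χ ^ 2 := by
    have h4 := sq_sum_le_card_mul_sum_sq (s := T) (f := fun χ => ε χ * b χ)
    have h5 : ∑ χ ∈ T, (ε χ * b χ) ^ 2 = ∑ χ ∈ T, b χ ^ 2 := by
      apply Finset.sum_congr rfl
      intro χ hχ
      rw [mul_pow, h.sgn χ (hTX hχ), one_mul]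
    rwa [h5] at h4
  have h6 : (T.card : ℤ) ≤ ∑ χ ∈ T, b χ ^ 2 := by
    rw [Finset.card_eq_sum_ones]
    push_cast
    apply Finset.sum_le_sum
    intro χ hχ
    have := sq_pos_of_ne_zero (Finset.mem_filter.mp hχ).2
    omega
  rw [h1, h2]
  set A := ∑ χ ∈ T, b χ ^ 2
  set S := (∑ χ ∈ T, ε χ * b χ) ^ 2
  have hp : (p : ℤ) = 1 + m * X.card := by exact_mod_cast h.card.symm
  have hm : (1 : ℤ) ≤ m := by exact_mod_cast h.mpos
  have hr' : (1 : ℤ) ≤ T.card := by exact_mod_cast hr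
  have hre' : (T.card : ℤ) ≤ X.card := by exact_mod_cast hre
  rw [hp]
  have h7 : (m : ℤ) * S ≤ m * (T.card * A) := mul_le_mul_of_nonneg_left h3 (by omega)
  have h8 : ((X.card : ℤ) - T.card) * 1 ≤ ((X.card : ℤ) - T.card) * (m * A) := by
    apply mul_le_mul_of_nonneg_left _ (by omega)
    nlinarith
  nlinarith

theorem card_mm (f : H → ℂ) : (Nat.card H : ℂ) * mm p f f =
    ((∑ g : H with ¬ p ∣ orderOf g, ‖f g‖ ^ 2 : ℝ) : ℂ) := by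
  unfold mm classInner
  rw [← mul_assoc, mul_inv_cancel₀ card_ne_zeroC, one_mul, Finset.sum_filter, Complex.ofReal_sum]
  apply Finset.sum_congr rfl
  intro g _
  by_cases hg : p ∣ orderOf g
  · rw [pr_sing hg, if_neg (not_not.mpr hg), zero_mul, Complex.ofReal_zero]
  · rw [pr_reg hg, if_pos hg, Complex.mul_conj, Complex.normSq_eq_norm_sq]

theorem gram_of_mm {s : ℂ} (hs : (p : ℂ) * s = m)
    [DecidableEq (IrrCharacter H)]
    (hmm : ∀ χ ∈ X, ∀ χ' ∈ X, mm p (χ : H → ℂ) (χ' : H → ℂ) =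
      (if χ = χ' then 1 else 0) - s * (ε χ * ε χ')) (b : IrrCharacter H → ℤ) :
    (p : ℝ) * ∑ g : H with ¬ p ∣ orderOf g,
    ‖∑ χ ∈ X, (b χ : ℂ) * (χ : H → ℂ) g‖ ^ 2 =
      (Nat.card H : ℝ) * ((p * ∑ χ ∈ X, b χ ^ 2 - m * (∑ χ ∈ X, ε χ * b χ) ^ 2 : ℤ) : ℝ) := by
  have h1 := card_mm (p := p) (∑ χ ∈ X, (b χ : ℂ) • (χ : H → ℂ))
  have h2 : mm p (∑ χ ∈ X, (b χ : ℂ) • (χ : H → ℂ)) (∑ χ ∈ X, (b χ : ℂ) • (χ : H → ℂ)) =
      ∑ χ ∈ X, (b χ : ℂ) ^ 2 - s * (∑ χ ∈ X, (ε χ : ℂ) * b χ) ^ 2 := by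
    rw [mm_sum_left]
    have h3 : ∀ χ ∈ X, (b χ : ℂ) * mm p (χ : H → ℂ) (∑ χ ∈ X, (b χ : ℂ) • (χ : H → ℂ)) =
        (b χ : ℂ) ^ 2 - s * ((ε χ : ℂ) * b χ * ∑ χ' ∈ X, (ε χ' : ℂ) * b χ') := by
      intro χ hχ
      rw [mm_sum_right]
      have h4 : ∀ χ' ∈ X, conj (b χ' : ℂ) * mm p (χ : H → ℂ) (χ' : H → ℂ) =
          (if χ = χ' then (b χ' : ℂ) else 0) - s * (ε χ * (ε χ' * b χ')) := by
        intro χ' hχ'
        rw [hmm χ hχ χ' hχ', map_intCast]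
        split_ifs <;> ring
      rw [Finset.sum_congr rfl h4, Finset.sum_sub_distrib, Finset.sum_ite_eq, if_pos hχ,
        ← Finset.mul_sum, ← Finset.mul_sum]
      ring
    rw [Finset.sum_congr rfl h3, Finset.sum_sub_distrib, ← Finset.mul_sum, ← Finset.sum_mul]
    ring
  have h5 : ∀ g, (∑ χ ∈ X, (b χ : ℂ) • (χ : H → ℂ)) g = ∑ χ ∈ X, (b χ : ℂ) * (χ : H → ℂ) g := by
    intro g
    rw [Finset.sum_apply]
    rfl
  simp only [h5] at h1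
  rw [h2] at h1
  have h6 : (((p : ℝ) * ∑ g : H with ¬ p ∣ orderOf g,
    ‖∑ χ ∈ X, (b χ : ℂ) * (χ : H → ℂ) g‖ ^ 2 : ℝ) : ℂ) =
      (((Nat.card H : ℝ) * ((p * ∑ χ ∈ X, b χ ^ 2 - m * (∑ χ ∈ X, ε χ * b χ) ^ 2 : ℤ) : ℝ) : ℝ) : ℂ) := by
    rw [Complex.ofReal_mul, ← h1]
    push_cast
    rw [← hs]
    ring
  exact_mod_cast h6

/-- the Gram matrix when the characters are `±1` on singular elements -/
theorem mm_sing [DecidableEq (IrrCharacter H)] {χ χ' : IrrCharacter H} {c c' : ℤ}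
    (h : ∀ g : H, p ∣ orderOf g → (χ : H → ℂ) g = c)
    (h' : ∀ g : H, p ∣ orderOf g → (χ' : H → ℂ) g = c') :
    mm p (χ : H → ℂ) (χ' : H → ℂ) = (if χ = χ' then 1 else 0) -
      ((Nat.card H : ℂ)⁻¹ * ((univ.filter fun g : H => p ∣ orderOf g).card : ℂ)) * (c * c') := by
  have h1 : classInner (χ : H → ℂ) (χ' : H → ℂ) = mm p (χ : H → ℂ) (χ' : H → ℂ) +
      ((Nat.card H : ℂ)⁻¹ * ((univ.filter fun g : H => p ∣ orderOf g).card : ℂ)) * (c * c') := by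
    unfold mm classInner
    rw [mul_assoc, ← mul_add]
    congr 1
    rw [← nsmul_eq_mul, ← Finset.sum_const, Finset.sum_filter, ← Finset.sum_add_distrib]
    apply Finset.sum_congr rfl
    intro g _
    by_cases hg : p ∣ orderOf g
    · rw [pr_sing hg, if_pos hg, h g hg, h' g hg, zero_mul, zero_add, map_intCast]
    · rw [pr_reg hg, if_neg hg, add_zero]
  have h2 : (if χ = χ' then (1 : ℂ) else 0) = classInner (χ : H → ℂ) (χ' : H → ℂ) := by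
    rw [classInner_irr']
    split_ifs <;> rfl
  rw [h2, h1]; ring

end DD

end Cfsg.Agent.H20.SC
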