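import Mathlib
import Cfsg.Agent.H20.SC3
import Cfsg.Agent.S4441

set_option autoImplicit false

/-!
# The principal block of a group with Sylow `p`-subgroups of order `p`, `p` odd
-/

namespace Cfsg.Agent.H20.SC

open Cfsg Cfsg.Agent.H3 Cfsg.Agent.H11 Cfsg.Agent.H26 Finset
open scoped ComplexConjugate

universe u

section Odd

variable {H : Type u} [Group H] [Fintype H] {p : ℕ} [hp : Fact p.Prime] {M : Ideal AlgInt}

theorem relIndex_dvd (P : Subgroup H) (hP : Nat.card P = p) :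
    (Subgroup.centralizer (P : Set H)).relIndex (Subgroup.normalizer (P : Set H)) ∣ p - 1 := by
  have hcyc : IsCyclic P := isCyclic_of_prime_card hP
  have key := Subgroup.card_dvd_of_injective _ (QuotientGroup.kerLift_injective P.normalizerMonoidHom)
  rw [Subgroup.normalizerMonoidHom_ker, ← Subgroup.index, ← Subgroup.relIndex,
    IsCyclic.card_mulAut, hP, Nat.totient_prime hp.out] at key
  exact key

theorem exists_dd1_odd (hM : IsPModular p M) (hodd : p ≠ 2) (P : Sylow p H)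
    (hP : Nat.card P = p) : ∃ (X : Finset (IrrCharacter H)) (ε : IrrCharacter H → ℤ) (m : ℕ),
      DD1 p M X ε m := by
  classical
  have hfI : Fintype (IrrCharacter H) := Fintype.ofFinite _
  have hpr := hM.2.1.isPrime
  obtain ⟨X, Y, hXY, hdis, hX, hY, εX, ε, hXv, hε, -, hYY, hYX⟩ :=
    Cfsg.Agent.S4441.result p M hM hodd P hP _ rfl
  obtain ⟨f, hf⟩ := relIndex_dvd (P : Subgroup H) hP
  set e := (Subgroup.centralizer ((P : Subgroup H) : Set H)).relIndex
    (Subgroup.normalizer ((P : Subgroup H) : Set H)) with he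
  have hp1 : 2 ≤ p := hp.out.two_le
  have hepos : 0 < e := by
    rcases Nat.eq_zero_or_pos e with h | h
    · rw [h, zero_mul] at hf; omega
    · exact h
  have hfpos : 0 < f := by
    rcases Nat.eq_zero_or_pos f with h | h
    · rw [h, mul_zero] at hf; omega
    · exact h
  have hdiv : (p - 1) / e = f := by rw [hf, Nat.mul_div_cancel_left _ hepos]
  rw [hdiv] at hY
  have hloc := Cfsg.Agent.LD.Loc.of_sylow P hP
  -- values on singular elements
  have hsing : ∀ χ ∈ X, ∀ g : H, p ∣ orderOf g → (χ : H → ℂ) g = (εX χ : ℂ) := by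
    intro χ hχ g hg
    rcases hloc.exists_conj g with h | ⟨x, hx, hx1, s, hs, hc⟩
    · exact absurd hg h
    · rw [classFun_isConj (irr_classFun χ.2) hc]
      refine (hXv χ hχ).2.2 x hx hx1 s s.2 ?_
      rwa [Subgroup.orderOf_coe]
  let Xf : Finset (IrrCharacter H) := univ.filter (· ∈ X)
  let Yf : Finset (IrrCharacter H) := univ.filter (· ∈ Y)
  have hXc : Xf.card = e := by
    rw [← hX, Nat.card_eq_fintype_card, Fintype.card_subtype]
  have hYc : Yf.card = f := by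
    rw [← hY, Nat.card_eq_fintype_card, Fintype.card_subtype]
  have memX : ∀ χ, χ ∈ Xf ↔ χ ∈ X := fun χ => by simp [Xf]
  have memY : ∀ χ, χ ∈ Yf ↔ χ ∈ Y := fun χ => by simp [Yf]
  have hsq : ∀ χ ∈ Xf, εX χ ^ 2 = 1 := by
    intro χ hχ
    rcases (hXv χ ((memX χ).mp hχ)).1 with h | h <;> rw [h] <;> norm_num
  have hε2 : (ε : ℂ) * ε = 1 := by
    rcases hε with h | h <;> rw [h] <;> norm_num
  set s : ℂ := (Nat.card H : ℂ)⁻¹ * ((univ.filter fun g : H => p ∣ orderOf g).card : ℂ) with hs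
  have hmm : ∀ χ ∈ Xf, ∀ χ' ∈ Xf, mm p (χ : H → ℂ) (χ' : H → ℂ) =
      (if χ = χ' then 1 else 0) - s * (εX χ * εX χ') := fun χ hχ χ' hχ' =>
    mm_sing (hsing χ ((memX χ).mp hχ)) (hsing χ' ((memX χ').mp hχ'))
  -- expansions of the members of `Y`
  have hYe : ∀ θ ∈ Yf, ∀ g : H, ¬ p ∣ orderOf g → (θ : H → ℂ) g =
      ∑ χ ∈ Xf, ((ε * εX χ : ℤ) : ℂ) * (χ : H → ℂ) g := by
    intro θ hθ g hg
    have h1 := hYX θ ((memY θ).mp hθ) g hg
    have h2 : (∑ᶠ χ ∈ X, (εX χ : ℂ) * (χ : H → ℂ) g) = ∑ χ ∈ Xf, (εX χ : ℂ) * (χ : H → ℂ) g := by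
      rw [finsum_mem_irr]
    rw [h2] at h1
    calc (θ : H → ℂ) g = (ε : ℂ) * ((ε : ℂ) * (θ : H → ℂ) g) := by rw [← mul_assoc, hε2, one_mul]
      _ = _ := by
        rw [h1, Finset.mul_sum]
        apply Finset.sum_congr rfl
        intro χ _
        push_cast; ring
  have hYp : ∀ θ ∈ Yf, pRegularPart p (θ : H → ℂ) =
      pRegularPart p (∑ χ ∈ Xf, ((ε * εX χ : ℤ) : ℂ) • (χ : H → ℂ)) := by
    intro θ hθ
    funext g
    by_cases hg : p ∣ orderOf g
    · rw [pr_sing hg, pr_sing hg]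
    · rw [pr_reg hg, pr_reg hg, hYe θ hθ g hg, Finset.sum_apply]
      rfl
  have hXX : ∑ χ ∈ Xf, (εX χ : ℂ) ^ 2 = e := by
    have : ∀ χ ∈ Xf, (εX χ : ℂ) ^ 2 = 1 := fun χ hχ => by exact_mod_cast hsq χ hχ
    rw [Finset.sum_congr rfl this, Finset.sum_const, hXc, nsmul_eq_mul, mul_one]
  have hmYX : ∀ θ ∈ Yf, ∀ χ ∈ Xf, mm p (θ : H → ℂ) (χ : H → ℂ) = ε * εX χ * (1 - s * e) := by
    intro θ hθ χ hχ
    have h1 : mm p (θ : H → ℂ) (χ : H → ℂ) =
        mm p (∑ χ ∈ Xf, ((ε * εX χ : ℤ) : ℂ) • (χ : H → ℂ)) (χ : H → ℂ) := by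
      unfold mm
      rw [hYp θ hθ]
    rw [h1, mm_sum_left]
    have h2 : ∀ χ' ∈ Xf, ((ε * εX χ' : ℤ) : ℂ) * mm p (χ' : H → ℂ) (χ : H → ℂ) =
        (if χ' = χ then (ε : ℂ) * εX χ' else 0) - s * ε * εX χ * (εX χ' : ℂ) ^ 2 := by
      intro χ' hχ'
      rw [hmm χ' hχ' χ hχ]
      push_cast
      split_ifs <;> ring
    rw [Finset.sum_congr rfl h2, Finset.sum_sub_distrib, Finset.sum_ite_eq', if_pos hχ,
      ← Finset.mul_sum, hXX]
    ring
  have hmXY : ∀ χ ∈ Xf, ∀ θ ∈ Yf, mm p (χ : H → ℂ) (θ : H → ℂ) = ε * εX χ * (1 - s * e) := by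
    intro χ hχ θ hθ
    rw [mm_symm p (isGen_of_irr χ.2) (isGen_of_irr θ.2), hmYX θ hθ χ hχ]
  obtain ⟨χ, hχ⟩ : Xf.Nonempty := Finset.card_pos.mp (by rw [hXc]; exact hepos)
  obtain ⟨θ, hθ⟩ : Yf.Nonempty := Finset.card_pos.mp (by rw [hYc]; exact hfpos)
  -- non-degeneracy
  have hne : 1 - s * e ≠ 0 := by
    intro h0
    have h1 : mm p (θ : H → ℂ) (θ : H → ℂ) = 0 := by
      have h1 : mm p (θ : H → ℂ) (θ : H → ℂ) =
          mm p (∑ χ ∈ Xf, ((ε * εX χ : ℤ) : ℂ) • (χ : H → ℂ)) (θ : H → ℂ) := by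
        conv_lhs => unfold mm
        rw [hYp θ hθ]
        rfl
      rw [h1, mm_sum_left]
      apply Finset.sum_eq_zero
      intro χ' hχ'
      rw [hmXY χ' hχ' θ hθ, h0, mul_zero, mul_zero]
    have h2 := card_mm (p := p) (θ : H → ℂ)
    rw [h1, mul_zero] at h2
    have h3 : ∑ g : H with ¬ p ∣ orderOf g, ‖(θ : H → ℂ) g‖ ^ 2 = 0 := by exact_mod_cast h2.symm
    have h4 := (Finset.sum_eq_zero_iff_of_nonneg (fun g _ => by positivity)).mp h3 1
      (Finset.mem_filter.mpr ⟨Finset.mem_univ _, by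
        rw [orderOf_one]; exact fun h => hp.out.one_lt.ne' (Nat.dvd_one.mp h)⟩)
    have h5 : (θ : H → ℂ) 1 = 0 := by simpa using h4
    exact irr_one_ne_zero θ.2 h5
  have hBX : univ.filter (· ∈ principalBlock M H) = Xf ∪ Yf := by
    ext ψ
    simp only [Finset.mem_filter, Finset.mem_univ, true_and, Finset.mem_union, memX, memY, hXY]
    rfl
  have hdis' : Disjoint Xf Yf := by
    rw [Finset.disjoint_left]
    intro ψ h1 h2
    exact Set.disjoint_left.mp hdis ((memX ψ).mp h1) ((memY ψ).mp h2)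
  have hps : (p : ℂ) * s = f := by
    have h1 := mm_sum_mul p (irr_classFun χ.2) (χ : H → ℂ)
    have hχB : χ ∈ principalBlock M H := by rw [hXY]; exact Or.inl ((memX χ).mp hχ)
    have h2 : ∑ ψ : IrrCharacter H, mm p (χ : H → ℂ) (ψ : H → ℂ) * mm p (ψ : H → ℂ) (χ : H → ℂ) =
        ∑ ψ ∈ Xf ∪ Yf, mm p (χ : H → ℂ) (ψ : H → ℂ) * mm p (ψ : H → ℂ) (χ : H → ℂ) := by
      rw [← hBX, Finset.sum_filter]
      apply Finset.sum_congr rfl
      intro ψ _
      split_ifs with h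
      · rfl
      · rw [mm_eq_zero hM (fun h' => h ((mem_isPBlock_iff (isPBlock_principal H) hχB).mpr h')),
          zero_mul]
    have h3 : ∀ ψ ∈ Xf, mm p (χ : H → ℂ) (ψ : H → ℂ) * mm p (ψ : H → ℂ) (χ : H → ℂ) =
        (if χ = ψ then (1 - 2 * s) else 0) + s ^ 2 * (εX ψ : ℂ) ^ 2 := by
      intro ψ hψ
      have e1 : (εX χ : ℂ) ^ 2 = 1 := by exact_mod_cast hsq χ hχ
      rw [mm_symm p (isGen_of_irr ψ.2) (isGen_of_irr χ.2), hmm χ hχ ψ hψ]
      split_ifs with h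
      · subst h
        linear_combination (-2 * s + s ^ 2 * (εX χ : ℂ) ^ 2) * e1
      · linear_combination (s ^ 2 * (εX ψ : ℂ) ^ 2) * e1
    have h4 : ∀ ψ ∈ Yf, mm p (χ : H → ℂ) (ψ : H → ℂ) * mm p (ψ : H → ℂ) (χ : H → ℂ) =
        (1 - s * e) ^ 2 := by
      intro ψ hψ
      have e1 : (εX χ : ℂ) ^ 2 = 1 := by exact_mod_cast hsq χ hχ
      rw [hmYX ψ hψ χ hχ, hmXY χ hχ ψ hψ]
      linear_combination ((ε : ℂ) * ε * (1 - s * e) ^ 2) * e1 + (1 - s * e) ^ 2 * hε2
    rw [h2, Finset.sum_union hdis', Finset.sum_congr rfl h3, Finset.sum_congr rfl h4,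
      Finset.sum_add_distrib, Finset.sum_ite_eq, if_pos hχ, ← Finset.mul_sum, hXX,
      Finset.sum_const, hYc, nsmul_eq_mul, hmm χ hχ χ hχ, if_pos rfl] at h1
    have e1 : (εX χ : ℂ) ^ 2 = 1 := by exact_mod_cast hsq χ hχ
    have h5 : (1 - s * e) * (f * (1 - s * e) - s) = 0 := by
      linear_combination h1 - s * e1
    have h6 : f * (1 - s * e) - s = 0 := (mul_eq_zero.mp h5).resolve_left hne
    have h7 : (p : ℂ) = 1 + e * f := by
      have : p = 1 + e * f := by omega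
      exact_mod_cast this
    rw [h7]
    linear_combination -h6
  refine ⟨Xf, εX, f, ⟨hfpos, by rw [hXc]; exact hepos, ?_, hsq, ?_, ?_, ?_⟩⟩
  · rw [hXc, mul_comm f e]; omega
  · intro ψ hψ
    rw [hXY] at hψ
    rcases hψ with h | h
    · refine ⟨fun χ => if χ = ψ then 1 else 0, fun g _ => ?_⟩
      rw [Finset.sum_eq_single ψ]
      · simp
      · intro b _ hb; simp [hb]
      · intro hn; exact absurd ((memX ψ).mpr h) hn
    · exact ⟨fun χ => ε * εX χ, hYe ψ ((memY ψ).mpr h)⟩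
  · exact gram_of_mm hps hmm
  · unfold blockRank
    have h1 : Submodule.span ℂ ((fun χ : IrrCharacter H => pRegularPart p (χ : H → ℂ)) ''
        principalBlock M H) ≤
        Submodule.span ℂ ((Xf.image fun χ : IrrCharacter H => pRegularPart p (χ : H → ℂ) :
          Finset (H → ℂ)) : Set (H → ℂ)) := by
      rw [Submodule.span_le]
      rintro _ ⟨ψ, hψ, rfl⟩
      rw [hXY] at hψ
      rcases hψ with h | h
      · apply Submodule.subset_span
        rw [Finset.coe_image]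
        exact ⟨ψ, (memX ψ).mpr h, rfl⟩
      · show pRegularPart p (ψ : H → ℂ) ∈ _
        rw [hYp ψ ((memY ψ).mpr h), pr_sum]
        apply Submodule.sum_mem
        intro χ hχ
        rw [pr_smul]
        apply Submodule.smul_mem
        apply Submodule.subset_span
        rw [Finset.coe_image]
        exact ⟨χ, hχ, rfl⟩
    exact (Submodule.finrank_mono h1).trans ((finrank_span_finset_le_card _).trans
      Finset.card_image_le)

end Odd

end Cfsg.Agent.H20.SC
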