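import Mathlib
import Cfsg.Agent.H20.SC4
import Cfsg.Agent.H11.Third4

set_option autoImplicit false

/-!
# Principal block data for groups with Sylow `p`-subgroups of order `p`
-/

namespace Cfsg.Agent.H20.SC

open Cfsg Cfsg.Agent.H3 Cfsg.Agent.H11 Cfsg.Agent.H26 Finset
open scoped ComplexConjugate

universe u

section

variable {H : Type u} [Group H] [Finite H] {p : ℕ} [hp : Fact p.Prime] {M : Ideal AlgInt}

theorem exists_compl_of_le (P : Sylow p H)
    (h : Subgroup.normalizer (P : Set H) ≤ Subgroup.centralizer (P : Set H)) :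
    ∃ K : Subgroup H, K.Normal ∧ ¬ p ∣ Nat.card K ∧
      K.index = p ^ (Nat.card H).factorization p := by
  refine ⟨(MonoidHom.transferSylow P h).ker, inferInstance,
    MonoidHom.not_dvd_card_ker_transferSylow P h, ?_⟩
  have h1 := MonoidHom.ker_transferSylow_isComplement' P h
  rw [h1.symm.index_eq_card]
  exact P.card_eq_multiplicity

/-- a central Sylow subgroup has a normal complement -/
theorem exists_compl_of_central (P : Sylow p H) (h : (P : Subgroup H) ≤ Subgroup.center H) :
    ∃ K : Subgroup H, K.Normal ∧ ¬ p ∣ Nat.card K ∧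
      K.index = p ^ (Nat.card H).factorization p := by
  apply exists_compl_of_le P
  have : Subgroup.centralizer (P : Set H) = ⊤ := by
    rw [Subgroup.centralizer_eq_top_iff_subset]
    exact h
  rw [this]
  exact le_top

theorem exists_compl_two [Fact (Nat.Prime 2)] (P : Sylow 2 H) (hP : Nat.card P = 2) :
    ∃ K : Subgroup H, K.Normal ∧ ¬ 2 ∣ Nat.card K ∧
      K.index = 2 ^ (Nat.card H).factorization 2 := by
  apply exists_compl_of_le P
  intro g hg
  rw [Subgroup.mem_centralizer_iff]
  intro x hx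
  by_cases hx1 : x = 1
  · rw [hx1, one_mul, mul_one]
  have h1 : g * x * g⁻¹ ∈ (P : Subgroup H) := (Subgroup.mem_normalizer_iff.mp hg x).mp hx
  obtain ⟨a, b, hab, hPab⟩ := Nat.card_eq_two_iff.mp hP
  have h2 : g * x * g⁻¹ ≠ 1 := by rw [Ne, conj_eq_one_iff]; exact hx1
  have h3 : ∀ u ∈ (P : Subgroup H), ∀ v ∈ (P : Subgroup H), u ≠ 1 → v ≠ 1 → u = v := by
    intro u hu v hv hu1 hv1
    have e : ∀ w : P, w = a ∨ w = b := fun w => by
      have : w ∈ ({a, b} : Set P) := by rw [hPab]; trivial
      simpa using this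
    have e1 := e ⟨u, hu⟩
    have e2 := e ⟨v, hv⟩
    have e3 := e 1
    have n1 : (⟨u, hu⟩ : P) ≠ 1 := fun h => hu1 (congrArg Subtype.val h)
    have n2 : (⟨v, hv⟩ : P) ≠ 1 := fun h => hv1 (congrArg Subtype.val h)
    have : (⟨u, hu⟩ : P) = ⟨v, hv⟩ := by
      rcases e1 with e1 | e1 <;> rcases e2 with e2 | e2 <;> rcases e3 with e3 | e3
      · exact absurd (e1.trans e3.symm) n1
      · exact e1.trans e2.symm
      · exact absurd (e1.trans e3.symm) n1
      · exact absurd (e2.trans e3.symm) n2
      · exact absurd (e2.trans e3.symm) n2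
      · exact absurd (e1.trans e3.symm) n1
      · exact e1.trans e2.symm
      · exact absurd (e1.trans e3.symm) n1
    exact congrArg Subtype.val this
  have h4 := h3 _ h1 _ hx h2 hx1
  have h5 : g * x = x * g := by
    calc g * x = g * x * g⁻¹ * g := by group
      _ = x * g := by rw [h4]
  exact h5.symm

end

section

variable {H : Type u} [Group H] [Fintype H] {p : ℕ} [hp : Fact p.Prime] {M : Ideal AlgInt}

theorem exists_dd1_compl (hM : IsPModular p M) (K : Subgroup H) [K.Normal]
    (hK : ¬ p ∣ Nat.card K) (hi : K.index = p) :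
    ∃ (X : Finset (IrrCharacter H)) (ε : IrrCharacter H → ℤ) (m : ℕ), DD1 p M X ε m := by
  classical
  have hfI : Fintype (IrrCharacter H) := Fintype.ofFinite _
  have hpr := hM.2.1.isPrime
  have hK1 : K.index = p ^ 1 := by rw [pow_one]; exact hi
  have hreg : ∀ g : H, g ∈ K ↔ ¬ p ∣ orderOf g := by
    intro g
    constructor
    · intro hg hd
      apply hK
      have h1 : orderOf (⟨g, hg⟩ : K) ∣ Nat.card K := orderOf_dvd_natCard _
      rw [Subgroup.orderOf_mk] at h1
      exact hd.trans h1
    · intro h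
      exact mem_of_index_pow hp.out hK1 h
  have hp2 := hp.out.two_le
  have hexp : ∀ ψ ∈ principalBlock M H, ∀ g : H, ¬ p ∣ orderOf g → (ψ : H → ℂ) g =
      ((charDegree (ψ : H → ℂ) : ℤ) : ℂ) * ((Cfsg.Agent.H27.oneIrr H : IrrCharacter H) : H → ℂ) g := by
    intro ψ hψ g hg
    rw [mem_principal_trivial hM hK hψ g ((hreg g).mpr hg), (charDegree_spec ψ.2).1,
      Cfsg.Agent.H27.oneIrr_apply, mul_one]
    push_cast; rfl
  refine ⟨{Cfsg.Agent.H27.oneIrr H}, fun _ => 1, p - 1, ⟨by omega, by simp, ?_, ?_, ?_, ?_, ?_⟩⟩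
  · rw [Finset.card_singleton]; omega
  · intro χ _; norm_num
  · intro ψ hψ
    refine ⟨fun _ => (charDegree (ψ : H → ℂ) : ℤ), fun g hg => ?_⟩
    rw [Finset.sum_singleton]
    exact hexp ψ hψ g hg
  · intro b
    simp only [Finset.sum_singleton, Cfsg.Agent.H27.oneIrr_apply, mul_one, one_mul]
    have h1 : (univ.filter fun g : H => ¬ p ∣ orderOf g).card = Nat.card K := by
      have h2 : (univ.filter fun g : H => ¬ p ∣ orderOf g) = univ.filter (fun g : H => g ∈ K) := by
        ext g
        simp only [Finset.mem_filter, Finset.mem_univ, true_and]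
        exact (hreg g).symm
      rw [h2, Nat.card_eq_fintype_card, Fintype.card_subtype]
    rw [Finset.sum_const, h1, nsmul_eq_mul]
    have h3 : (Nat.card H : ℝ) = Nat.card K * p := by
      rw [← Subgroup.card_mul_index K, hi]; push_cast; rfl
    rw [h3, Complex.norm_intCast, sq_abs]
    have h4 : ((p - 1 : ℕ) : ℤ) = p - 1 := by
      rw [Nat.cast_sub (by omega)]; simp
    rw [h4]
    push_cast
    ring
  · rw [Finset.card_singleton]
    unfold blockRank
    have h1 : Submodule.span ℂ ((fun χ : IrrCharacter H => pRegularPart p (χ : H → ℂ)) ''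
        principalBlock M H) ≤
        Submodule.span ℂ {pRegularPart p ((Cfsg.Agent.H27.oneIrr H : IrrCharacter H) : H → ℂ)} := by
      rw [Submodule.span_le]
      rintro _ ⟨ψ, hψ, rfl⟩
      rw [SetLike.mem_coe, Submodule.mem_span_singleton]
      refine ⟨((charDegree (ψ : H → ℂ) : ℤ) : ℂ), ?_⟩
      funext g
      rw [Pi.smul_apply, smul_eq_mul]
      by_cases hg : p ∣ orderOf g
      · rw [pr_sing hg]
        show _ = pRegularPart p (ψ : H → ℂ) g
        rw [pr_sing hg, mul_zero]
      · rw [pr_reg hg]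
        show _ = pRegularPart p (ψ : H → ℂ) g
        rw [pr_reg hg, hexp ψ hψ g hg]
    refine (Submodule.finrank_mono h1).trans ?_
    have h2 := finrank_span_le_card (R := ℂ)
      ({pRegularPart p ((Cfsg.Agent.H27.oneIrr H : IrrCharacter H) : H → ℂ)} : Set (H → ℂ))
    simpa using h2

theorem exists_dd1 (hM : IsPModular p M) (hf : (Nat.card H).factorization p = 1) :
    ∃ (X : Finset (IrrCharacter H)) (ε : IrrCharacter H → ℤ) (m : ℕ), DD1 p M X ε m := by
  obtain ⟨P⟩ : Nonempty (Sylow p H) := inferInstance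
  have hP : Nat.card P = p := by
    rw [P.card_eq_multiplicity, hf, pow_one]
  by_cases h2 : p = 2
  · subst h2
    obtain ⟨K, hK, h1, h2⟩ := exists_compl_two P hP
    rw [hf, pow_one] at h2
    exact exists_dd1_compl hM K h1 h2
  · exact exists_dd1_odd hM h2 P hP

end

end Cfsg.Agent.H20.SC
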