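import Mathlib

set_option autoImplicit false

/-!
# Parseval identity on a cyclic group of prime order
-/

namespace Cfsg.Agent.H20.SC

open Finset
open scoped ComplexConjugate

theorem sum_root_pow {p : ℕ} {l : ℂ} (hl : l ^ p = 1) [Decidable (l = 1)] :
    ∑ k ∈ Finset.range p, l ^ k = if l = 1 then (p : ℂ) else 0 := by
  split_ifs with h1
  · rw [h1]; simp
  · have h2 := mul_neg_geom_sum l p
    rw [hl, sub_self] at h2
    exact (mul_eq_zero.mp h2).resolve_left (sub_ne_zero.mpr (Ne.symm h1))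

variable {p : ℕ} {ω : ℂ}

theorem conj_root (hp : p ≠ 0) (hω : IsPrimitiveRoot ω p) : conj ω = ω⁻¹ := by
  have h4 : ‖ω‖ = 1 := Complex.norm_eq_one_of_pow_eq_one hω.pow_eq_one hp
  rw [Complex.inv_def, Complex.normSq_eq_norm_sq, h4]
  simp

/-- Parseval's identity -/
theorem parseval (hp : p ≠ 0) (hω : IsPrimitiveRoot ω p) (z : ℕ → ℂ) :
    ∑ k ∈ range p, ‖∑ j ∈ range p, (ω ^ j) ^ k * z j‖ ^ 2 = p * ∑ j ∈ range p, ‖z j‖ ^ 2 := by
  classical
  have hω0 : ω ≠ 0 := hω.ne_zero hp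
  have key : ∀ k, ((‖∑ j ∈ range p, (ω ^ j) ^ k * z j‖ ^ 2 : ℝ) : ℂ) =
      ∑ j ∈ range p, ∑ l ∈ range p, (z j * conj (z l)) * (ω ^ j * (ω ^ l)⁻¹) ^ k := by
    intro k
    rw [← Complex.normSq_eq_norm_sq, ← Complex.mul_conj, map_sum, Finset.sum_mul_sum]
    apply Finset.sum_congr rfl
    intro j _
    apply Finset.sum_congr rfl
    intro l _
    rw [map_mul, map_pow, map_pow, conj_root hp hω, mul_pow, inv_pow, inv_pow]
    ring
  have h1 : ((∑ k ∈ range p, ‖∑ j ∈ range p, (ω ^ j) ^ k * z j‖ ^ 2 : ℝ) : ℂ) =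
      ((p * ∑ j ∈ range p, ‖z j‖ ^ 2 : ℝ) : ℂ) := by
    rw [Complex.ofReal_sum, Finset.sum_congr rfl fun k _ => key k, Finset.sum_comm,
      Complex.ofReal_mul, Complex.ofReal_sum, Finset.mul_sum]
    apply Finset.sum_congr rfl
    intro j hj
    rw [Finset.sum_comm]
    have h2 : ∀ l ∈ range p, ∑ k ∈ range p, z j * conj (z l) * (ω ^ j * (ω ^ l)⁻¹) ^ k =
        if j = l then z j * conj (z l) * p else 0 := by
      intro l hl
      rw [← Finset.mul_sum, sum_root_pow]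
      · by_cases h : j = l
        · subst h
          rw [if_pos rfl, if_pos (mul_inv_cancel₀ (pow_ne_zero _ hω0))]
        · rw [if_neg h, if_neg, mul_zero]
          intro h3
          apply h
          apply hω.pow_inj (Finset.mem_range.mp hj) (Finset.mem_range.mp hl)
          rwa [mul_inv_eq_one₀ (pow_ne_zero _ hω0)] at h3
      · rw [mul_pow, inv_pow, ← pow_mul, ← pow_mul, mul_comm j p, mul_comm l p, pow_mul, pow_mul,
          hω.pow_eq_one, one_pow, one_pow, inv_one, one_mul]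
    rw [Finset.sum_congr rfl h2, Finset.sum_ite_eq, if_pos hj, Complex.mul_conj,
      Complex.normSq_eq_norm_sq]
    push_cast
    ring
  exact_mod_cast h1

/-- the pointwise lower bound -/
theorem pointwise (hp : p.Prime) (hω : IsPrimitiveRoot ω p) (z : ℕ → ℂ) (T : Finset ℕ)
    (hT : T ⊆ range p) (j0 : ℕ) (hj0 : j0 ∈ range p) (hj0T : j0 ∉ T)
    (hz : ∀ j ∈ range p, j ∉ T → z j = z j0) :
    ((p : ℝ) - T.card) * ∑ j ∈ T, ‖z j - z j0‖ ^ 2 ≤
      ∑ k ∈ (range p).erase 0, ‖∑ j ∈ range p, (ω ^ j) ^ k * z j‖ ^ 2 := by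
  have hp0 := hp.ne_zero
  have h1 := parseval hp0 hω (fun j => z j - z j0)
  have h0 : 0 ∈ range p := Finset.mem_range.mpr hp.pos
  rw [← Finset.add_sum_erase _ _ h0] at h1
  have h2 : ∀ k ∈ (range p).erase 0, ∑ j ∈ range p, (ω ^ j) ^ k * (z j - z j0) =
      ∑ j ∈ range p, (ω ^ j) ^ k * z j := by
    intro k hk
    obtain ⟨hk0, hkp⟩ := Finset.mem_erase.mp hk
    simp only [mul_sub, Finset.sum_sub_distrib]
    rw [← Finset.sum_mul]
    have h3 : ∑ j ∈ range p, (ω ^ j) ^ k = 0 := by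
      classical
      have h4 : ∀ j ∈ range p, (ω ^ j) ^ k = (ω ^ k) ^ j := fun j _ => by
        rw [← pow_mul, ← pow_mul, mul_comm]
      rw [Finset.sum_congr rfl h4, sum_root_pow, if_neg]
      · intro h5
        have h6 := (hω.pow_eq_one_iff_dvd k).mp h5
        exact hk0 (Nat.eq_zero_of_dvd_of_lt h6 (Finset.mem_range.mp hkp))
      · rw [← pow_mul, mul_comm, pow_mul, hω.pow_eq_one, one_pow]
    rw [h3, zero_mul, sub_zero]
  have h3 : ∑ k ∈ (range p).erase 0, ‖∑ j ∈ range p, (ω ^ j) ^ k * (z j - z j0)‖ ^ 2 =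
      ∑ k ∈ (range p).erase 0, ‖∑ j ∈ range p, (ω ^ j) ^ k * z j‖ ^ 2 :=
    Finset.sum_congr rfl fun k hk => by rw [h2 k hk]
  have h4 : ∑ j ∈ range p, ‖z j - z j0‖ ^ 2 = ∑ j ∈ T, ‖z j - z j0‖ ^ 2 := by
    symm
    apply Finset.sum_subset hT
    intro j hj hjT
    rw [hz j hj hjT, sub_self]; simp
  have h5 : ∑ j ∈ range p, (ω ^ j) ^ 0 * (z j - z j0) = ∑ j ∈ T, (z j - z j0) := by
    symm
    have : ∀ j ∈ T, z j - z j0 = (ω ^ j) ^ 0 * (z j - z j0) := fun j _ => by rw [pow_zero, one_mul]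
    rw [Finset.sum_congr rfl this]
    apply Finset.sum_subset hT
    intro j hj hjT
    rw [hz j hj hjT, sub_self, mul_zero]
  have h6 : ‖∑ j ∈ T, (z j - z j0)‖ ^ 2 ≤ T.card * ∑ j ∈ T, ‖z j - z j0‖ ^ 2 := by
    calc ‖∑ j ∈ T, (z j - z j0)‖ ^ 2 ≤ (∑ j ∈ T, ‖z j - z j0‖) ^ 2 := by
          apply pow_le_pow_left₀ (norm_nonneg _)
          exact norm_sum_le _ _
      _ ≤ _ := sq_sum_le_card_mul_sum_sq
  rw [h3, h4, h5] at h1
  nlinarith

end Cfsg.Agent.H20.SC
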