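import Mathlib
import Cfsg.Agent.H20.SC5
import Cfsg.Agent.H20.SC6

set_option autoImplicit false

/-!
# Characters of the principal block not vanishing at `x`, `|C_G(x)|_p = p²`
-/

namespace Cfsg.Agent.H20.SC

open Cfsg Cfsg.Agent.H3 Cfsg.Agent.H11 Cfsg.Agent.H26 Finset
open scoped ComplexConjugate

universe u

section

variable {G : Type u} [Group G] [Fintype G] {p : ℕ} [hp : Fact p.Prime] {M : Ideal AlgInt}

omit hp in
theorem ne_zero_of_not_dvd (hM : IsPModular p M) {χ : IrrCharacter G}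
    (h : ¬ p ∣ charDegree (χ : G → ℂ)) {x : G} (hx : ∃ k : ℕ, orderOf x = p ^ k) :
    (χ : G → ℂ) x ≠ 0 := by
  have hpr := hM.2.1.isPrime
  intro h0
  have h1 := li_char_mul_sub hM (irr_isChar χ.2) (Commute.one_right x) hx
  rw [mul_one, h0, zero_sub, (charDegree_spec χ.2).1] at h1
  have h2 : MemLocalIdeal M (((charDegree (χ : G → ℂ) : ℕ) : ℂ)) := by
    have h3 := li_mul_left (lr_neg (lr_one M)) h1
    simpa using h3
  exact h ((li_natCast_iff hM _).mp h2)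

omit [Fintype G] in
theorem cz_pow {x : G} (hx : orderOf x = p) {k : ℕ} (hk0 : k ≠ 0) (hkp : k < p) :
    Subgroup.centralizer ({x} : Set G) = Subgroup.centralizer ({x ^ k} : Set G) := by
  have hc : k.Coprime (orderOf x) := by
    rw [hx, Nat.coprime_comm, Nat.Prime.coprime_iff_not_dvd hp.out]
    intro h
    exact absurd (Nat.le_of_dvd (Nat.pos_of_ne_zero hk0) h) (by omega)
  have h1 : Subgroup.zpowers (x ^ k) = Subgroup.zpowers x := by
    apply le_antisymm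
    · rw [Subgroup.zpowers_le]; exact Subgroup.npow_mem_zpowers x k
    · rw [Subgroup.zpowers_le]
      obtain ⟨m, hm⟩ := exists_pow_eq_self_of_coprime hc
      have h3 := Subgroup.npow_mem_zpowers (x ^ k) m
      rwa [hm] at h3
  have h2 : ∀ y : G, Subgroup.centralizer ({y} : Set G) =
      Subgroup.centralizer (Subgroup.zpowers y : Set G) := by
    intro y
    rw [Subgroup.zpowers_eq_closure, Subgroup.centralizer_closure]
  rw [h2 x, h2 (x ^ k), h1]

variable {C : Subgroup G} [Fintype C]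

omit hp in
theorem translate_C (hM : IsPModular p M) {u : G} (hu : ∃ k : ℕ, orderOf u = p ^ k)
    (hC : C = Subgroup.centralizer ({u} : Set G)) {χ : IrrCharacter G}
    (hχ : χ ∈ principalBlock M G) (w : C) (hw : ¬ p ∣ orderOf w) :
    (χ : G → ℂ) (u * (w : G)) = ct C u (principalBlock M C) (χ : G → ℂ) w := by
  classical
  subst hC
  have hpr := hM.2.1.isPrime
  have h1 := principal_translate hM hu (irr_classFun χ.2) w hw
  unfold ct
  rw [← h1, blockPart_eq_actFun _ (irr_classFun χ.2), actFun_char, if_pos hχ]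

omit hp in
theorem inner_C (hM : IsPModular p M) {u : G} (hu : ∃ k : ℕ, orderOf u = p ^ k)
    (hC : C = Subgroup.centralizer ({u} : Set G)) (w : C) (hw : ¬ p ∣ orderOf w)
    [Fintype (IrrCharacter G)] [Fintype (IrrCharacter C)]
    [DecidablePred (· ∈ principalBlock M G)] [DecidablePred (· ∈ principalBlock M C)] :
    ∑ ζ : IrrCharacter G with ζ ∈ principalBlock M G, ‖(ζ : G → ℂ) (u * (w : G))‖ ^ 2 =
    ∑ ζ : IrrCharacter C with ζ ∈ principalBlock M C, ‖(ζ : C → ℂ) w‖ ^ 2 := by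
  classical
  subst hC
  have h1 := principal_inner hM hu w w hw hw
  have h2 : ∀ z : ℂ, conj z * z = ((‖z‖ ^ 2 : ℝ) : ℂ) := by
    intro z
    rw [mul_comm, Complex.mul_conj, Complex.normSq_eq_norm_sq]
  simp only [h2] at h1
  rw [← Complex.ofReal_sum, ← Complex.ofReal_sum] at h1
  have h3 := Complex.ofReal_injective h1
  convert h3 using 2

omit [Fintype G] in
/-- the total of the contributions -/
theorem total_C (hM : IsPModular p M) [Fintype (IrrCharacter C)]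
    [DecidablePred (· ∈ principalBlock M C)] :
    ∑ w : C with ¬ p ∣ orderOf w,
      ∑ ζ : IrrCharacter C with ζ ∈ principalBlock M C, ‖(ζ : C → ℂ) w‖ ^ 2 =
    (Nat.card C : ℝ) * blockRank p (principalBlock M C) := by
  classical
  have hpr := hM.2.1.isPrime
  have h1 := blockRank_trace hM (isPBlock_principal (M := M) C)
  have h2 : (∑ᶠ χ ∈ principalBlock M C, mm p (χ : C → ℂ) (χ : C → ℂ)) =
      ∑ χ : IrrCharacter C with χ ∈ principalBlock M C, mm p (χ : C → ℂ) (χ : C → ℂ) := by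
    rw [finsum_mem_irr]
  rw [h2] at h1
  have h3 : (((Nat.card C : ℝ) * blockRank p (principalBlock M C) : ℝ) : ℂ) =
      ((∑ w : C with ¬ p ∣ orderOf w,
      ∑ ζ : IrrCharacter C with ζ ∈ principalBlock M C, ‖(ζ : C → ℂ) w‖ ^ 2 : ℝ) : ℂ) := by
    rw [Complex.ofReal_mul, Complex.ofReal_natCast, Complex.ofReal_natCast, h1, Finset.mul_sum,
      Finset.sum_comm, Complex.ofReal_sum]
    apply Finset.sum_congr rfl
    intro χ _
    rw [card_mm]
  exact_mod_cast h3.symm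

end

section

variable {C : Type u} [Group C] [Fintype C] {p : ℕ} [hp : Fact p.Prime] {M : Ideal AlgInt}
  {Z : Subgroup C} [hZn : Z.Normal] [Fintype (C ⧸ Z)] {X : Finset (IrrCharacter (C ⧸ Z))}
  {ε : IrrCharacter (C ⧸ Z) → ℤ} {m : ℕ}

theorem DD1.lower_sum (h : DD1 p M X ε m) (hP : IsPGroup p Z) (hZ : Z ≤ Subgroup.center C)
    (a : IrrCharacter (C ⧸ Z) → ℤ) (ha : ∃ χ ∈ X, a χ ≠ 0) :
    (Nat.card (C ⧸ Z) : ℝ) * X.card ≤ (p : ℝ) * ∑ y : C with ¬ p ∣ orderOf y,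
      ‖∑ χ ∈ X, (a χ : ℂ) * (χ : C ⧸ Z → ℂ) (QuotientGroup.mk y)‖ ^ 2 := by
  rw [sum_reg_mk hP hZ (fun t => ‖∑ χ ∈ X, (a χ : ℂ) * (χ : C ⧸ Z → ℂ) t‖ ^ 2), h.gram a]
  apply mul_le_mul_of_nonneg_left _ (Nat.cast_nonneg _)
  exact_mod_cast h.lower a ha

theorem DD1.expand_C (h : DD1 p M X ε m) (hM : IsPModular p M) (hP : IsPGroup p Z)
    (hZ : Z ≤ Subgroup.center C) {η : IrrCharacter C} (hη : η ∈ principalBlock M C) :
    ∃ W : IrrCharacter (C ⧸ Z) → ℤ, ∀ y : C, ¬ p ∣ orderOf y →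
      (η : C → ℂ) y = ∑ χ ∈ X, (W χ : ℂ) * (χ : C ⧸ Z → ℂ) (QuotientGroup.mk y) := by
  classical
  have hfI : Fintype (IrrCharacter (C ⧸ Z)) := Fintype.ofFinite _
  obtain ⟨z, hz, hz2⟩ := int_expand hM hP hZ hη
  have h1 : ∀ ψ : IrrCharacter (C ⧸ Z), ∃ w : IrrCharacter (C ⧸ Z) → ℤ,
      ∀ g : C ⧸ Z, ¬ p ∣ orderOf g →
        (z ψ : ℂ) * (ψ : C ⧸ Z → ℂ) g = ∑ χ ∈ X, ((z ψ * w χ : ℤ) : ℂ) * (χ : C ⧸ Z → ℂ) g := by
    intro ψ
    by_cases hψ : ψ ∈ principalBlock M (C ⧸ Z)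
    · obtain ⟨w, hw⟩ := h.expand ψ hψ
      refine ⟨w, fun g hg => ?_⟩
      rw [hw g hg, Finset.mul_sum]
      apply Finset.sum_congr rfl
      intro χ _
      push_cast; ring
    · refine ⟨0, fun g _ => ?_⟩
      rw [hz ψ hψ]
      simp
  choose w hw using h1
  refine ⟨fun χ => ∑ ψ : IrrCharacter (C ⧸ Z), z ψ * w ψ χ, fun y hy => ?_⟩
  rw [hz2 y hy, Finset.sum_congr rfl fun ψ _ => hw ψ _ (reg_mk hy), Finset.sum_comm]
  apply Finset.sum_congr rfl
  intro χ _
  rw [← Finset.sum_mul]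
  push_cast
  rfl

end

end Cfsg.Agent.H20.SC
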