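import Mathlib

set_option autoImplicit false
set_option linter.all false

namespace Cfsg.Agent.H20.SpDL

open Subgroup
open scoped commutatorElement

theorem ds_add_le {G : Type*} [Group G] {K : Subgroup G} {a : ℕ} (h : derivedSeries G a ≤ K)
    (b : ℕ) : derivedSeries G (a + b) ≤ (derivedSeries K b).map K.subtype := by
  induction b with
  | zero =>
    rw [add_zero, derivedSeries_zero, ← MonoidHom.range_eq_map, range_subtype]
    exact h
  | succ b ih =>
    rw [← add_assoc, derivedSeries_succ, derivedSeries_succ, map_commutator]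
    exact commutator_mono ih ih

theorem ds_quot {G : Type*} [Group G] (K : Subgroup G) [K.Normal] {a : ℕ}
    (h : derivedSeries (G ⧸ K) a = ⊥) : derivedSeries G a ≤ K := by
  have h1 := map_derivedSeries_eq (QuotientGroup.mk'_surjective K) a
  rw [h, Subgroup.map_eq_bot_iff, QuotientGroup.ker_mk'] at h1
  exact h1

theorem ds_inj {G G' : Type*} [Group G] [Group G'] (f : G' →* G)
    (hf : Function.Injective f) {a : ℕ} (h : derivedSeries G a = ⊥) : derivedSeries G' a = ⊥ := by
  have h1 := map_derivedSeries_le_derivedSeries f a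
  rw [h, le_bot_iff, Subgroup.map_eq_bot_iff, (MonoidHom.ker_eq_bot_iff f).mpr hf, le_bot_iff] at h1
  exact h1

theorem ds_surj {G G' : Type*} [Group G] [Group G'] (f : G →* G')
    (hf : Function.Surjective f) {a : ℕ} (h : derivedSeries G a = ⊥) : derivedSeries G' a = ⊥ := by
  rw [← map_derivedSeries_eq hf, h, Subgroup.map_bot]

/-- the cyclic part of the quaternion group -/
def cyc (n : ℕ) : Subgroup (QuaternionGroup n) where
  carrier := {x | ∃ i, x = QuaternionGroup.a i}
  one_mem' := ⟨0, rfl⟩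
  mul_mem' := by
    rintro _ _ ⟨i, rfl⟩ ⟨j, rfl⟩
    exact ⟨i + j, QuaternionGroup.a_mul_a i j⟩
  inv_mem' := by
    rintro _ ⟨i, rfl⟩
    refine ⟨-i, ?_⟩
    rw [inv_eq_iff_mul_eq_one, QuaternionGroup.a_mul_a, add_neg_cancel]
    rfl

theorem quat_comm_le (n : ℕ) : commutator (QuaternionGroup n) ≤ cyc n := by
  rw [commutator_def, commutator_le]
  rintro x - y -
  rw [commutatorElement_def]
  cases x with
  | a i =>
    cases y with
    | a j =>
      refine ⟨0, ?_⟩
      rw [mul_inv_eq_iff_eq_mul, mul_inv_eq_iff_eq_mul]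
      simp only [QuaternionGroup.a_mul_a]
      congr 1; ring
    | xa j =>
      refine ⟨2 * i, ?_⟩
      rw [mul_inv_eq_iff_eq_mul, mul_inv_eq_iff_eq_mul]
      simp only [QuaternionGroup.a_mul_xa, QuaternionGroup.xa_mul_a]
      congr 1; ring
  | xa i =>
    cases y with
    | a j =>
      refine ⟨-(2 * j), ?_⟩
      rw [mul_inv_eq_iff_eq_mul, mul_inv_eq_iff_eq_mul]
      simp only [QuaternionGroup.a_mul_xa, QuaternionGroup.xa_mul_a]
      congr 1; ring
    | xa j =>
      refine ⟨2 * (j - i), ?_⟩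
      rw [mul_inv_eq_iff_eq_mul, mul_inv_eq_iff_eq_mul]
      simp only [QuaternionGroup.a_mul_xa, QuaternionGroup.xa_mul_a, QuaternionGroup.xa_mul_xa, QuaternionGroup.a_mul_a]
      congr 1; ring

theorem quat_ds (n : ℕ) : derivedSeries (QuaternionGroup n) 2 = ⊥ := by
  rw [eq_bot_iff, derivedSeries_succ, derivedSeries_one]
  refine (commutator_mono (quat_comm_le n) (quat_comm_le n)).trans ?_
  rw [commutator_le]
  rintro _ ⟨i, rfl⟩ _ ⟨j, rfl⟩
  rw [mem_bot, commutatorElement_eq_one_iff_mul_comm, QuaternionGroup.a_mul_a, QuaternionGroup.a_mul_a, add_comm]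

theorem quat_ne {k : ℕ} (hk : 1 ≤ k) : derivedSeries (QuaternionGroup (2 ^ k)) 1 ≠ ⊥ := by
  intro h
  rw [derivedSeries_one] at h
  have h1 : ⁅(QuaternionGroup.a 1 : QuaternionGroup (2 ^ k)), QuaternionGroup.xa 0⁆ ∈ commutator (QuaternionGroup (2 ^ k)) :=
    commutator_mem_commutator (mem_top _) (mem_top _)
  rw [h, mem_bot, commutatorElement_eq_one_iff_mul_comm, QuaternionGroup.a_mul_xa, QuaternionGroup.xa_mul_a] at h1
  have h2 : (0 - 1 : ZMod (2 * 2 ^ k)) = 0 + 1 := QuaternionGroup.xa.inj h1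
  have h3 : ((2 : ℕ) : ZMod (2 * 2 ^ k)) = 0 := by
    push_cast
    linear_combination -h2
  rw [ZMod.natCast_eq_zero_iff] at h3
  have h4 := Nat.le_of_dvd (by norm_num) h3
  have h5 : 2 ^ 1 ≤ 2 ^ k := Nat.pow_le_pow_right (by norm_num) hk
  omega

theorem doubling {G : Type*} [Group G] (H : Subgroup G) (t : G)
    (hcomm : ∀ a ∈ H, ∀ b ∈ H, a * (t * b * t⁻¹) = (t * b * t⁻¹) * a)
    (hdisj : ∀ a ∈ H, ∀ b ∈ H, a * (t * b * t⁻¹) = 1 → a = 1) (X : Subgroup G) (hX1 : H ≤ X)
    (htX : t ∈ X) {j : ℕ} (h : derivedSeries H j ≠ ⊥) : derivedSeries X (j + 1) ≠ ⊥ := by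
  intro h0
  apply h
  let Φ : H × H →* X :=
    { toFun := fun p => ⟨p.1.1 * (t * p.2.1 * t⁻¹), mul_mem (hX1 p.1.2) (mul_mem (mul_mem htX (hX1 p.2.2)) (inv_mem htX))⟩
      map_one' := by
        apply Subtype.ext
        simp
      map_mul' := by
        rintro ⟨a, b⟩ ⟨c, d⟩
        apply Subtype.ext
        show (a.1 * c.1) * (t * (b.1 * d.1) * t⁻¹) = (a.1 * (t * b.1 * t⁻¹)) * (c.1 * (t * d.1 * t⁻¹))
        have := hcomm c.1 c.2 b.1 b.2
        calc (a.1 * c.1) * (t * (b.1 * d.1) * t⁻¹) = a.1 * (c.1 * (t * b.1 * t⁻¹)) * (t * d.1 * t⁻¹) := by group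
          _ = a.1 * ((t * b.1 * t⁻¹) * c.1) * (t * d.1 * t⁻¹) := by rw [this]
          _ = _ := by group }
  have hΦ : Function.Injective Φ := by
    rw [injective_iff_map_eq_one]
    rintro ⟨a, b⟩ hab
    have h1 : a.1 * (t * b.1 * t⁻¹) = 1 := congrArg Subtype.val hab
    have ha := hdisj a.1 a.2 b.1 b.2 h1
    rw [ha, one_mul] at h1
    have hb : b.1 = 1 := by
      have := congrArg (fun x => t⁻¹ * x * t) h1
      simpa [mul_assoc] using this
    exact Prod.ext (Subtype.ext ha) (Subtype.ext hb)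
  let C : Subgroup (H × H) := (commutator X).comap Φ
  have hsurj : Function.Surjective ((MonoidHom.fst H H).comp C.subtype) := by
    intro a
    refine ⟨⟨(a, a⁻¹), ?_⟩, rfl⟩
    show Φ (a, a⁻¹) ∈ commutator X
    have : Φ (a, a⁻¹) = ⁅(⟨a.1, hX1 a.2⟩ : X), ⟨t, htX⟩⁆ := by
      apply Subtype.ext
      show a.1 * (t * a.1⁻¹ * t⁻¹) = a.1 * t * a.1⁻¹ * t⁻¹
      group
    rw [this]
    exact commutator_mem_commutator (mem_top _) (mem_top _)
  refine ds_surj _ hsurj ?_
  have key : ∀ i, (derivedSeries C i).map (Φ.comp C.subtype) ≤ derivedSeries X (i + 1) := by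
    intro i
    induction i with
    | zero =>
      rw [zero_add, derivedSeries_one, derivedSeries_zero, ← MonoidHom.range_eq_map]
      rintro _ ⟨c, rfl⟩
      exact c.2
    | succ i ih =>
      rw [derivedSeries_succ, map_commutator, derivedSeries_succ X (i + 1)]
      exact commutator_mono ih ih
  have h1 := key j
  have hinj : Function.Injective (Φ.comp C.subtype) := fun a b hab => C.subtype_injective (hΦ hab)
  rw [h0, le_bot_iff, Subgroup.map_eq_bot_iff_of_injective _ hinj] at h1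
  exact h1

end Cfsg.Agent.H20.SpDL
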