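import Mathlib
import Cfsg.Agent.H20.SpDL1
import Cfsg.Agent.H7.SylSp2

set_option autoImplicit false
set_option linter.all false

namespace Cfsg.Agent.H20.SpDL

open Matrix Cfsg Cfsg.Agent.H7.SylSp Equiv Subgroup

variable {F : Type*} [Field F] [Fintype F] {n : ℕ}

theorem ais {n : ℕ} (σ : Perm (Fin n)) (i : Fin n) : σ (σ⁻¹ i) = i := σ.apply_symm_apply i

/-- supported elements -/
def Wm (F : Type*) [Field F] (n : ℕ) (I : Set (Fin n)) : Subgroup (symplecticGroup (Fin n) F) where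
  carrier := {x | ∃ (g : Fin n → SpecialLinearGroup (Fin 2) F) (σ : Perm (Fin n)),
    x = DHom F n g * PHom F n σ ∧ (∀ i, i ∉ I → g i = 1) ∧ (∀ i, i ∉ I → σ i = i)}
  one_mem' := ⟨1, 1, by simp, fun _ _ => rfl, fun _ _ => rfl⟩
  mul_mem' := by
    rintro _ _ ⟨g, σ, rfl, hg, hσ⟩ ⟨h, τ, rfl, hh, hτ⟩
    refine ⟨g * (fun i => h (σ⁻¹ i)), σ * τ, ?_, ?_, ?_⟩
    · rw [map_mul, map_mul]
      calc DHom F n g * PHom F n σ * (DHom F n h * PHom F n τ)
          = DHom F n g * (PHom F n σ * DHom F n h) * PHom F n τ := by group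
        _ = _ := by rw [conj_DHom]; group
    · intro i hi
      have h1 : σ⁻¹ i = i := by rw [Perm.inv_eq_iff_eq]; exact (hσ i hi).symm
      show g i * h (σ⁻¹ i) = 1
      rw [h1, hg i hi, hh i hi, one_mul]
    · intro i hi
      show σ (τ i) = i
      rw [hτ i hi, hσ i hi]
  inv_mem' := by
    rintro _ ⟨g, σ, rfl, hg, hσ⟩
    refine ⟨fun i => (g (σ i))⁻¹, σ⁻¹, ?_, ?_, ?_⟩
    · have h1 := conj_DHom (F := F) σ⁻¹ (g⁻¹)
      rw [_root_.mul_inv_rev, ← map_inv, ← map_inv, h1, inv_inv]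
      rfl
    · intro i hi
      show (g (σ i))⁻¹ = 1
      rw [hσ i hi, hg i hi, inv_one]
    · intro i hi
      rw [Perm.inv_eq_iff_eq]; exact (hσ i hi).symm

theorem Wm_comm {I J : Set (Fin n)} (hIJ : ∀ i, i ∈ I → i ∉ J) {x y : symplecticGroup (Fin n) F}
    (hx : x ∈ Wm F n I) (hy : y ∈ Wm F n J) : x * y = y * x := by
  obtain ⟨g, σ, rfl, hg, hσ⟩ := hx
  obtain ⟨h, τ, rfl, hh, hτ⟩ := hy
  have hcase : ∀ i, (i ∉ I) ∨ (i ∉ J) := fun i => by
    by_cases h : i ∈ I
    · exact Or.inr (hIJ i h)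
    · exact Or.inl h
  have hσI : ∀ i, i ∈ I → σ⁻¹ i ∈ I := by
    intro i hi
    by_contra hcon
    have := hσ _ hcon
    rw [ais] at this
    rw [← this] at hcon
    exact hcon hi
  have hτJ : ∀ i, i ∈ J → τ⁻¹ i ∈ J := by
    intro i hi
    by_contra hcon
    have := hτ _ hcon
    rw [ais] at this
    rw [← this] at hcon
    exact hcon hi
  have e1 : (fun i => h (σ⁻¹ i)) = h := by
    funext i
    by_cases hi : i ∈ I
    · rw [hh _ (hIJ _ (hσI i hi)), hh _ (hIJ _ hi)]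
    · have h1 : σ⁻¹ i = i := by rw [Perm.inv_eq_iff_eq]; exact (hσ i hi).symm
      rw [h1]
  have e2 : (fun i => g (τ⁻¹ i)) = g := by
    funext i
    by_cases hi : i ∈ J
    · have hi' : i ∉ I := fun h => hIJ i h hi
      have hi'' : τ⁻¹ i ∉ I := fun h => hIJ _ h (hτJ i hi)
      rw [hg _ hi'', hg _ hi']
    · have h1 : τ⁻¹ i = i := by rw [Perm.inv_eq_iff_eq]; exact (hτ i hi).symm
      rw [h1]
  have e3 : σ * τ = τ * σ := by
    have : Perm.Disjoint σ τ := fun i => by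
      rcases hcase i with h | h
      · exact Or.inl (hσ i h)
      · exact Or.inr (hτ i h)
    exact this.commute
  have e4 : g * h = h * g := by
    funext i
    show g i * h i = h i * g i
    rcases hcase i with hi | hi
    · rw [hg i hi, one_mul, mul_one]
    · rw [hh i hi, one_mul, mul_one]
  calc DHom F n g * PHom F n σ * (DHom F n h * PHom F n τ)
      = DHom F n g * (PHom F n σ * DHom F n h) * PHom F n τ := by group
    _ = DHom F n (g * h) * PHom F n (σ * τ) := by rw [conj_DHom, e1, map_mul, map_mul]; group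
    _ = DHom F n (h * g) * PHom F n (τ * σ) := by rw [e3, e4]
    _ = DHom F n h * (PHom F n τ * DHom F n g) * PHom F n σ := by rw [conj_DHom, e2, map_mul, map_mul]; group
    _ = _ := by group

theorem Wm_disj {I J : Set (Fin n)} (hIJ : ∀ i, i ∈ I → i ∉ J) {x : symplecticGroup (Fin n) F}
    (hx : x ∈ Wm F n I) (hy : x ∈ Wm F n J) : x = 1 := by
  obtain ⟨g, σ, rfl, hg, hσ⟩ := hx
  obtain ⟨h, τ, hgh, hh, hτ⟩ := hy
  have h1 : DHom F n (h⁻¹ * g) = PHom F n (τ * σ⁻¹) := by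
    rw [map_mul, map_mul, map_inv, map_inv]
    calc (DHom F n h)⁻¹ * DHom F n g = (DHom F n h)⁻¹ * (DHom F n g * PHom F n σ) * (PHom F n σ)⁻¹ := by group
      _ = _ := by rw [hgh]; group
  have h2 := DHom_eq_PHom h1
  have h3 : h⁻¹ * g = 1 := by
    apply DHom_injective (F := F) (n := n)
    rw [h1, h2, map_one, map_one]
  have h4 : g = h := by rw [inv_mul_eq_one] at h3; exact h3.symm
  have h5 : σ = τ := by rw [mul_inv_eq_one] at h2; exact h2.symm
  have hcase : ∀ i, (i ∉ I) ∨ (i ∉ J) := fun i => by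
    by_cases h : i ∈ I
    · exact Or.inr (hIJ i h)
    · exact Or.inl h
  have hg1 : g = 1 := by
    funext i
    rcases hcase i with hi | hi
    · exact hg i hi
    · rw [h4]; exact hh i hi
  have hσ1 : σ = 1 := by
    ext i
    rcases hcase i with hi | hi
    · rw [hσ i hi]; rfl
    · rw [h5, hτ i hi]; rfl
  rw [hg1, hσ1, map_one, map_one, one_mul]

theorem Wm_conj {I J : Set (Fin n)} {τ : Perm (Fin n)} (hIJ : ∀ i, i ∉ J → τ⁻¹ i ∉ I)
    {x : symplecticGroup (Fin n) F} (hx : x ∈ Wm F n I) :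
    PHom F n τ * x * (PHom F n τ)⁻¹ ∈ Wm F n J := by
  obtain ⟨g, σ, rfl, hg, hσ⟩ := hx
  refine ⟨fun i => g (τ⁻¹ i), τ * σ * τ⁻¹, ?_, ?_, ?_⟩
  · rw [map_mul, map_mul, map_inv]
    calc PHom F n τ * (DHom F n g * PHom F n σ) * (PHom F n τ)⁻¹
        = (PHom F n τ * DHom F n g) * PHom F n σ * (PHom F n τ)⁻¹ := by group
      _ = _ := by rw [conj_DHom]; group
  · intro i hi
    exact hg _ (hIJ i hi)
  · intro i hi
    show τ (σ (τ⁻¹ i)) = i
    rw [hσ _ (hIJ i hi), ais]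

theorem Wm_mono {I J : Set (Fin n)} (hIJ : I ⊆ J) : Wm F n I ≤ Wm F n J := by
  rintro _ ⟨g, σ, rfl, hg, hσ⟩
  exact ⟨g, σ, rfl, fun i hi => hg i (fun h => hi (hIJ h)), fun i hi => hσ i (fun h => hi (hIJ h))⟩

/-- the swap of two blocks -/
def swf (n m : ℕ) (hm : 2 * m ≤ n) (i : Fin n) : Fin n :=
  if h : i.val < m then ⟨i.val + m, by omega⟩ else if h2 : i.val < 2 * m then ⟨i.val - m, by omega⟩ else i

theorem swf_invol (n m : ℕ) (hm : 2 * m ≤ n) : Function.Involutive (swf n m hm) := by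
  intro i
  unfold swf
  by_cases h : i.val < m
  · have h1 : ¬ (i.val + m < m) := by omega
    have h2 : i.val + m < 2 * m := by omega
    simp [h, h1, h2]
  · by_cases h2 : i.val < 2 * m
    · have h1 : i.val - m < m := by omega
      simp [h, h1, h2]
      apply Fin.ext
      simp
      omega
    · simp [h, h2]

end Cfsg.Agent.H20.SpDL
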