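import Mathlib
import Cfsg.Agent.H20.SpDL2
import Cfsg.Agent.S4014

set_option autoImplicit false
set_option linter.all false

namespace Cfsg.Agent.H20.SpDL

open Matrix Cfsg Cfsg.Agent.H7.SylSp Equiv Subgroup

variable {F : Type*} [Field F] [Fintype F]

theorem lower (hF : Odd (Fintype.card F)) (n : ℕ) (k : ℕ) (hk : 2 ^ k ≤ n) :
    ∃ H : Subgroup (symplecticGroup (Fin n) F), IsPGroup 2 H ∧
      H ≤ Wm F n {i | i.val < 2 ^ k} ∧ derivedSeries H (k + 1) ≠ ⊥ := by
  classical
  haveI : Fact (Nat.Prime 2) := ⟨Nat.prime_two⟩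
  induction k with
  | zero =>
    let Q : Sylow 2 (SpecialLinearGroup (Fin 2) F) := default
    have h0 : 0 < n := by rw [pow_zero] at hk; omega
    let i0 : Fin n := ⟨0, h0⟩
    let f : SpecialLinearGroup (Fin 2) F →* symplecticGroup (Fin n) F :=
      (DHom F n).comp (MonoidHom.mulSingle (fun _ : Fin n => SpecialLinearGroup (Fin 2) F) i0)
    have hf : Function.Injective f := by
      intro a b hab
      have := DHom_injective (F := F) (n := n) hab
      exact Pi.mulSingle_injective i0 this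
    refine ⟨(Q : Subgroup _).map f, Q.isPGroup'.map f, ?_, ?_⟩
    · rintro _ ⟨q, hq, rfl⟩
      refine ⟨Pi.mulSingle i0 q, 1, ?_, ?_, fun _ _ => rfl⟩
      · rw [map_one, mul_one]; rfl
      · intro i hi
        apply Pi.mulSingle_eq_of_ne
        rintro rfl
        apply hi
        show (0 : ℕ) < 2 ^ 0
        norm_num
    · intro h
      obtain ⟨k, hk, ⟨e⟩⟩ := H5.sl2_sylow_quat (H5.two_ne_zero_of_odd hF) Q
      apply quat_ne hk
      refine ds_surj e.toMonoidHom e.surjective ?_
      have e2 := equivMapOfInjective (Q : Subgroup (SpecialLinearGroup (Fin 2) F)) f hf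
      exact ds_inj e2.toMonoidHom e2.injective h
  | succ k ih =>
    have hk2 : 2 * 2 ^ k ≤ n := by rw [pow_succ] at hk; omega
    obtain ⟨H, hHp, hHW, hHd⟩ := ih (by omega)
    set m := 2 ^ k with hm
    let τ : Perm (Fin n) := (swf_invol n m hk2).toPerm
    have hτ : ∀ i, τ i = swf n m hk2 i := fun i => rfl
    have hττ : τ * τ = 1 := by
      ext i
      show ((swf n m hk2) (swf n m hk2 i)).val = i.val
      rw [swf_invol n m hk2 i]
    have hτinv : τ⁻¹ = τ := by rw [inv_eq_iff_mul_eq_one]; exact hττ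
    let t := PHom F n τ
    have htt : t * t = 1 := by
      show PHom F n τ * PHom F n τ = 1
      rw [← map_mul, hττ, map_one]
    have htinv : t⁻¹ = t := by rw [inv_eq_iff_mul_eq_one]; exact htt
    let J : Set (Fin n) := {i | m ≤ i.val ∧ i.val < 2 * m}
    have hdis : ∀ i, i ∈ {i : Fin n | i.val < m} → i ∉ J := by
      intro i hi hJ
      have h1 : i.val < m := hi
      have h2 : m ≤ i.val := hJ.1
      omega
    have hconj : ∀ x ∈ H, t * x * t⁻¹ ∈ Wm F n J := by
      intro x hx
      refine Wm_conj (τ := τ) ?_ (hHW hx)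
      intro i hi hcon
      rw [hτinv, hτ] at hcon
      apply hi
      have hcon' : (swf n m hk2 i).val < m := hcon
      unfold swf at hcon'
      by_cases h1 : i.val < m
      · simp [h1] at hcon'
      · by_cases h2 : i.val < 2 * m
        · exact ⟨by omega, h2⟩
        · simp [h1, h2] at hcon'
    have hcomm : ∀ a ∈ H, ∀ b ∈ H, a * (t * b * t⁻¹) = (t * b * t⁻¹) * a :=
      fun a ha b hb => Wm_comm hdis (hHW ha) (hconj b hb)
    let H2 : Subgroup (symplecticGroup (Fin n) F) := H.map (MulAut.conj t).toMonoidHom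
    have hH2mem : ∀ x ∈ H2, ∃ b ∈ H, x = t * b * t⁻¹ := by
      rintro _ ⟨b, hb, rfl⟩
      exact ⟨b, hb, rfl⟩
    have hH2p : IsPGroup 2 H2 := hHp.map _
    have hn1 : H2 ≤ normalizer (H : Set (symplecticGroup (Fin n) F)) := by
      intro x hx
      obtain ⟨b, hb, rfl⟩ := hH2mem x hx
      rw [mem_normalizer_iff]
      intro a
      constructor
      · intro ha
        rw [← hcomm a ha b hb, mul_inv_cancel_right]
        exact ha
      · intro ha
        have h1 := hcomm _ ha b hb
        have h2 : a = (t * b * t⁻¹)⁻¹ * ((t * b * t⁻¹) * a * (t * b * t⁻¹)⁻¹ * (t * b * t⁻¹)) := by group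
        rw [h2, h1]
        have h3 : (t * b * t⁻¹)⁻¹ * ((t * b * t⁻¹) * ((t * b * t⁻¹) * a * (t * b * t⁻¹)⁻¹)) = (t * b * t⁻¹) * a * (t * b * t⁻¹)⁻¹ := by group
        rw [h3]
        exact ha
    have hp1 : IsPGroup 2 (H ⊔ H2 : Subgroup (symplecticGroup (Fin n) F)) := by
      rw [sup_comm]
      exact hH2p.to_sup_of_normal_right' hHp hn1
    have hzp : IsPGroup 2 (zpowers t) := by
      have : Nat.card (zpowers t) ∣ 2 ^ 1 := by
        rw [Nat.card_zpowers]
        exact orderOf_dvd_of_pow_eq_one (by rw [pow_one, sq]; exact htt)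
      obtain ⟨j, -, hj⟩ := (Nat.dvd_prime_pow Nat.prime_two).1 this
      exact IsPGroup.of_card hj
    have hn2 : zpowers t ≤ normalizer ((H ⊔ H2 : Subgroup (symplecticGroup (Fin n) F)) : Set (symplecticGroup (Fin n) F)) := by
      rw [zpowers_le, mem_normalizer_iff]
      have key : ∀ x ∈ H ⊔ H2, t * x * t⁻¹ ∈ H ⊔ H2 := by
        have hle : (H ⊔ H2).map (MulAut.conj t).toMonoidHom ≤ H ⊔ H2 := by
          rw [Subgroup.map_sup]
          refine sup_le le_sup_right ?_
          refine le_trans ?_ le_sup_left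
          rintro _ ⟨x, hx, rfl⟩
          obtain ⟨b, hb, rfl⟩ := hH2mem x hx
          have : (MulAut.conj t).toMonoidHom (t * b * t⁻¹) = b := by
            show t * (t * b * t⁻¹) * t⁻¹ = b
            calc t * (t * b * t⁻¹) * t⁻¹ = (t * t) * b * (t * t)⁻¹ := by group
              _ = b := by rw [htt]; simp
          rw [this]
          exact hb
        intro x hx
        exact hle ⟨x, hx, rfl⟩
      intro x
      constructor
      · exact key x
      · intro hx
        have h1 := key _ hx
        have h2 : t * (t * x * t⁻¹) * t⁻¹ = x := by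
          calc t * (t * x * t⁻¹) * t⁻¹ = (t * t) * x * (t * t)⁻¹ := by group
            _ = x := by rw [htt]; simp
        rwa [h2] at h1
    have hp2 : IsPGroup 2 ((H ⊔ H2) ⊔ zpowers t : Subgroup (symplecticGroup (Fin n) F)) := by
      rw [sup_comm]
      exact hzp.to_sup_of_normal_right' hp1 hn2
    refine ⟨(H ⊔ H2) ⊔ zpowers t, hp2, ?_, ?_⟩
    · refine sup_le (sup_le ?_ ?_) ?_
      · refine hHW.trans (Wm_mono ?_)
        intro i hi
        have h1 : i.val < m := hi
        show i.val < 2 ^ (k + 1)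
        rw [pow_succ]; omega
      · intro x hx
        obtain ⟨b, hb, rfl⟩ := hH2mem x hx
        refine Wm_mono ?_ (hconj b hb)
        intro i hi
        have h1 : i.val < 2 * m := hi.2
        show i.val < 2 ^ (k + 1)
        rw [pow_succ]; omega
      · rw [zpowers_le]
        refine ⟨1, τ, ?_, fun _ _ => rfl, ?_⟩
        · rw [map_one, one_mul]
        · intro i hi
          have h1 : ¬ i.val < 2 ^ (k + 1) := hi
          rw [pow_succ] at h1
          rw [hτ]
          unfold swf
          have h2 : ¬ i.val < m := by omega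
          have h3 : ¬ i.val < 2 * m := by omega
          simp [h2, h3]
    · refine doubling H t hcomm ?_ _ (le_sup_left.trans le_sup_left) (le_sup_right (α := Subgroup (symplecticGroup (Fin n) F)) (mem_zpowers t)) hHd
      intro a ha b hb hab
      refine Wm_disj hdis (hHW ha) ?_
      have : a = (t * b * t⁻¹)⁻¹ := mul_eq_one_iff_eq_inv.1 hab
      rw [this]
      exact inv_mem (hconj b hb)

theorem exists_T (hF : Odd (Fintype.card F)) (n : ℕ) (hn : 1 ≤ n) : ∃ T : Subgroup (symplecticGroup (Fin n) F),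
    Nat.card T = 2 ^ (Nat.card (symplecticGroup (Fin n) F)).factorization 2 ∧
    derivedSeries T (Nat.log 2 n + 2) = ⊥ := by
  classical
  haveI : Fact (Nat.Prime 2) := ⟨Nat.prime_two⟩
  haveI : Finite (symplecticGroup (Fin n) F) := by
    haveI : Finite (Matrix (Fin n ⊕ Fin n) (Fin n ⊕ Fin n) F) := inferInstance
    exact Subtype.finite
  let Q : Sylow 2 (SpecialLinearGroup (Fin 2) F) := default
  let R : Sylow 2 (Perm (Fin n)) := default
  let A : Subgroup (symplecticGroup (Fin n) F) :=
    (Subgroup.pi (Set.univ : Set (Fin n)) (fun _ => (Q : Subgroup (SpecialLinearGroup (Fin 2) F)))).map (DHom F n)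
  let B : Subgroup (symplecticGroup (Fin n) F) := (R : Subgroup (Perm (Fin n))).map (PHom F n)
  have hnorm : B ≤ normalizer (A : Set (symplecticGroup (Fin n) F)) := by
    have key : ∀ σ : Perm (Fin n), ∀ a ∈ A, PHom F n σ * a * (PHom F n σ)⁻¹ ∈ A := by
      rintro σ _ ⟨g, hg, rfl⟩
      rw [conj_DHom, mul_inv_cancel_right]
      exact ⟨_, fun i _ => hg (σ⁻¹ i) (Set.mem_univ _), rfl⟩
    rintro _ ⟨σ, -, rfl⟩
    rw [mem_normalizer_iff]
    intro a
    constructor
    · intro ha
      exact key σ a ha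
    · intro ha
      have h1 := key σ⁻¹ _ ha
      rw [map_inv, inv_inv] at h1
      have h2 : (PHom F n σ)⁻¹ * (PHom F n σ * a * (PHom F n σ)⁻¹) * PHom F n σ = a := by group
      rwa [h2] at h1
  have hinf : A ⊓ B = ⊥ := by
    rw [eq_bot_iff]
    rintro _ ⟨⟨g, -, rfl⟩, ⟨σ, -, hσ⟩⟩
    rw [mem_bot, ← hσ, DHom_eq_PHom hσ.symm, map_one]
  have hcard : Nat.card (A ⊔ B : Subgroup (symplecticGroup (Fin n) F))
      = 2 ^ (Nat.card (symplecticGroup (Fin n) F)).factorization 2 := by
    have h1 := H1.card_sup_mul_card_inf_of_le_normalizer hnorm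
    rw [hinf, card_bot, mul_one] at h1
    have h2 : Nat.card A = (2 ^ (Nat.card (SpecialLinearGroup (Fin 2) F)).factorization 2) ^ n := by
      rw [← Q.card_eq_multiplicity, ← card_pi]
      exact (Nat.card_congr (equivMapOfInjective _ (DHom F n) DHom_injective).toEquiv).symm
    have h3 : Nat.card B = 2 ^ (n.factorial.factorization 2) := by
      have h4 : (Nat.card (Perm (Fin n))) = n.factorial := by
        rw [Nat.card_eq_fintype_card, Fintype.card_perm, Fintype.card_fin]
      rw [← h4, ← R.card_eq_multiplicity]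
      exact (Nat.card_congr (equivMapOfInjective _ (PHom F n) PHom_injective).toEquiv).symm
    rw [h1, h2, h3, val_Sp rfl hF, ← pow_mul, ← pow_add]
    congr 1
    ring
  refine ⟨A ⊔ B, hcard, ?_⟩
  have hle : A ⊔ B ≤ normalizer (A : Set (symplecticGroup (Fin n) F)) := sup_le le_normalizer hnorm
  haveI hN : (A.subgroupOf (A ⊔ B)).Normal := by
    refine ⟨fun a ha t => ?_⟩
    rw [mem_subgroupOf] at ha ⊢
    exact (mem_normalizer_iff.1 (hle t.2) a.1).1 ha
  -- the quotient
  have hquot : derivedSeries ((A ⊔ B : Subgroup (symplecticGroup (Fin n) F)) ⧸ A.subgroupOf (A ⊔ B)) (Nat.log 2 n) = ⊥ := by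
    let ρ : R →* ((A ⊔ B : Subgroup (symplecticGroup (Fin n) F)) ⧸ A.subgroupOf (A ⊔ B)) :=
      (QuotientGroup.mk' (A.subgroupOf (A ⊔ B))).comp
        ((Subgroup.inclusion (le_sup_right : B ≤ A ⊔ B)).comp ((PHom F n).subgroupMap (R : Subgroup (Perm (Fin n)))))
    have hρ : Function.Surjective ρ := by
      let K : Subgroup (symplecticGroup (Fin n) F) :=
        (ρ.range.comap (QuotientGroup.mk' (A.subgroupOf (A ⊔ B)))).map (A ⊔ B).subtype
      have hAK : A ≤ K := by
        intro a ha
        refine ⟨⟨a, mem_sup_left ha⟩, ?_, rfl⟩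
        show (QuotientGroup.mk' (A.subgroupOf (A ⊔ B))) ⟨a, mem_sup_left ha⟩ ∈ ρ.range
        have : (QuotientGroup.mk' (A.subgroupOf (A ⊔ B))) ⟨a, mem_sup_left ha⟩ = 1 := by
          rw [QuotientGroup.mk'_apply, QuotientGroup.eq_one_iff, mem_subgroupOf]
          exact ha
        rw [this]
        exact one_mem _
      have hBK : B ≤ K := by
        rintro _ ⟨σ, hσ, rfl⟩
        exact ⟨⟨PHom F n σ, mem_sup_right ⟨σ, hσ, rfl⟩⟩, ⟨⟨σ, hσ⟩, rfl⟩, rfl⟩
      have hTK : A ⊔ B ≤ K := sup_le hAK hBK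
      intro x
      obtain ⟨t, rfl⟩ := QuotientGroup.mk'_surjective _ x
      obtain ⟨t', ht', htt'⟩ := hTK t.2
      have : t' = t := Subtype.ext htt'
      rw [this] at ht'
      exact ht'
    exact ds_surj ρ hρ (Cfsg.Agent.S4014.result 2 n hn R).1
  have h1 := ds_quot _ hquot
  have h2 := ds_add_le h1 2
  have hQ : derivedSeries (Q : Subgroup (SpecialLinearGroup (Fin 2) F)) 2 = ⊥ := by
    obtain ⟨k, hk, ⟨e⟩⟩ := H5.sl2_sylow_quat (H5.two_ne_zero_of_odd hF) Q
    exact ds_inj e.toMonoidHom e.injective (quat_ds _)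
  have hpi : derivedSeries (Subgroup.pi (Set.univ : Set (Fin n)) (fun _ => (Q : Subgroup (SpecialLinearGroup (Fin 2) F)))) 2 = ⊥ := by
    rw [eq_bot_iff]
    intro x hx
    rw [mem_bot]
    apply Subtype.ext
    funext i
    let f : (Subgroup.pi (Set.univ : Set (Fin n)) (fun _ => (Q : Subgroup (SpecialLinearGroup (Fin 2) F)))) →*
        (Q : Subgroup (SpecialLinearGroup (Fin 2) F)) :=
      { toFun := fun y => ⟨y.1 i, y.2 i (Set.mem_univ i)⟩
        map_one' := rfl
        map_mul' := fun _ _ => rfl }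
    have h3 := map_derivedSeries_le_derivedSeries f 2 ⟨x, hx, rfl⟩
    rw [hQ, mem_bot] at h3
    exact congrArg Subtype.val h3
  have hA : derivedSeries A 2 = ⊥ :=
    ds_surj ((DHom F n).subgroupMap _) ((DHom F n).subgroupMap_surjective _) hpi
  have hN2 : derivedSeries (A.subgroupOf (A ⊔ B)) 2 = ⊥ := by
    refine ds_inj (G := A) (((A ⊔ B).subtype.comp (A.subgroupOf (A ⊔ B)).subtype).codRestrict A (fun x => x.2)) ?_ hA
    intro x y hxy
    apply Subtype.ext
    apply Subtype.ext
    exact congrArg (fun a : A => a.1) hxy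
  rw [hN2, Subgroup.map_bot, le_bot_iff] at h2
  exact h2

end Cfsg.Agent.H20.SpDL
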