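import Mathlib
import Cfsg.Agent.H5.Sp

set_option autoImplicit false
set_option linter.all false

namespace Cfsg.Agent.H20.SpRk

open Matrix Cfsg Cfsg.Agent.H5

variable {F : Type*} [Field F] {n : ℕ}

/-- the sign -/
def sg (F : Type*) [Field F] (b : Bool) : F := if b then 1 else -1

theorem sg_mul_self (b : Bool) : sg F b * sg F b = 1 := by
  cases b <;> simp [sg]

theorem span_good (h2 : (2 : F) ≠ 0) {A : Type*} (M : A → Matrix (Fin n ⊕ Fin n) (Fin n ⊕ Fin n) F)
    (hc : ∀ a b, M a * M b = M b * M a) (he : ∀ a, M a * M a = 1) (s : Finset A) :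
    Submodule.span F {v : Fin n ⊕ Fin n → F | ∀ a ∈ s, M a *ᵥ v = v ∨ M a *ᵥ v = -v} = ⊤ := by
  classical
  induction s using Finset.induction_on with
  | empty => simp
  | insert b s hb ih =>
    rw [eq_top_iff, ← ih]
    refine Submodule.span_le.2 ?_
    intro v hv
    have hv' : ∀ a ∈ s, M a *ᵥ v = v ∨ M a *ᵥ v = -v := hv
    have e1 : v = (2⁻¹ : F) • (v + M b *ᵥ v) + (2⁻¹ : F) • (v - M b *ᵥ v) := by
      rw [← smul_add]
      have : v + M b *ᵥ v + (v - M b *ᵥ v) = (2 : F) • v := by
        rw [two_smul]; abel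
      rw [this, smul_smul, inv_mul_cancel₀ h2, one_smul]
    have hbb : M b *ᵥ (M b *ᵥ v) = v := by
      rw [Matrix.mulVec_mulVec, he, Matrix.one_mulVec]
    have hab : ∀ a, M a *ᵥ (M b *ᵥ v) = M b *ᵥ (M a *ᵥ v) := by
      intro a
      rw [Matrix.mulVec_mulVec, hc, ← Matrix.mulVec_mulVec]
    show v ∈ Submodule.span F _
    rw [e1]
    refine Submodule.add_mem _ (Submodule.smul_mem _ _ (Submodule.subset_span ?_))
      (Submodule.smul_mem _ _ (Submodule.subset_span ?_))
    · show ∀ a ∈ insert b s, _
      intro a ha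
      rcases Finset.mem_insert.1 ha with rfl | ha
      · left
        rw [Matrix.mulVec_add, hbb, add_comm]
      · rcases hv' a ha with h | h
        · left
          rw [Matrix.mulVec_add, hab, h]
        · right
          rw [Matrix.mulVec_add, hab, h, Matrix.mulVec_neg]
          abel
    · show ∀ a ∈ insert b s, _
      intro a ha
      rcases Finset.mem_insert.1 ha with rfl | ha
      · right
        rw [Matrix.mulVec_sub, hbb]
        abel
      · rcases hv' a ha with h | h
        · left
          rw [Matrix.mulVec_sub, hab, h]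
        · right
          rw [Matrix.mulVec_sub, hab, h, Matrix.mulVec_neg]
          abel

theorem card_le (h2 : (2 : F) ≠ 0) {A : Type*} [Finite A]
    (M : A → Matrix (Fin n ⊕ Fin n) (Fin n ⊕ Fin n) F) (hM : Function.Injective M)
    (hS : ∀ a, M a ∈ symplecticGroup (Fin n) F)
    (hc : ∀ a b, M a * M b = M b * M a) (he : ∀ a, M a * M a = 1) : Nat.card A ≤ 2 ^ n := by
  classical
  letI : Fintype A := Fintype.ofFinite A
  have hspan := span_good h2 M hc he (Finset.univ : Finset A)
  set G : Set (Fin n ⊕ Fin n → F) := {v | ∀ a ∈ (Finset.univ : Finset A), M a *ᵥ v = v ∨ M a *ᵥ v = -v} with hG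
  have hB : ∀ a u v, sympB n F (M a *ᵥ u) (M a *ᵥ v) = sympB n F u v := fun a => mem_Sp_iff.1 (hS a)
  -- the weights
  let X := {e : A → Bool // ∃ v : Fin n ⊕ Fin n → F, v ≠ 0 ∧ ∀ a, M a *ᵥ v = sg F (e a) • v}
  have hweight : ∀ v ∈ G, v ≠ 0 → ∃ e : X, ∀ a, M a *ᵥ v = sg F (e.1 a) • v := by
    intro v hv hv0
    have h : ∀ a, M a *ᵥ v = sg F (decide (M a *ᵥ v = v)) • v := by
      intro a
      by_cases h1 : M a *ᵥ v = v
      · simp only [h1, sg, decide_true, if_true, one_smul]
      · have h3 := (hv a (Finset.mem_univ a)).resolve_left h1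
        simp only [h1, sg, decide_false, Bool.false_eq_true, if_false]
        rw [h3, neg_smul, one_smul]
    exact ⟨⟨fun a => decide (M a *ᵥ v = v), v, hv0, h⟩, h⟩
  have horth : ∀ (e e' : A → Bool) (v w : Fin n ⊕ Fin n → F), (∀ a, M a *ᵥ v = sg F (e a) • v) →
      (∀ a, M a *ᵥ w = sg F (e' a) • w) → sympB n F v w ≠ 0 → e = e' := by
    intro e e' v w hv hw hne
    funext a
    by_contra hne'
    have h1 := hB a v w
    rw [hv a, hw a] at h1
    simp only [map_smul, LinearMap.smul_apply, smul_eq_mul] at h1
    have h3 : sg F (e' a) * sg F (e a) = -1 := by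
      revert hne'
      cases e a <;> cases e' a <;> simp [sg]
    have h4 : -sympB n F v w = sympB n F v w := by
      linear_combination h1 - (sympB n F v w) * h3
    have h5 : (2 : F) * sympB n F v w = 0 := by linear_combination -h4
    rcases mul_eq_zero.1 h5 with h | h
    · exact h2 h
    · exact hne h
  have hpair : ∀ x : X, ∃ v w : Fin n ⊕ Fin n → F, (∀ a, M a *ᵥ v = sg F (x.1 a) • v) ∧
      (∀ a, M a *ᵥ w = sg F (x.1 a) • w) ∧ sympB n F v w ≠ 0 := by
    rintro ⟨e, v, hv0, hv⟩
    have : ∃ w ∈ G, sympB n F v w ≠ 0 := by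
      by_contra hcon
      push Not at hcon
      apply hv0
      have hz : ∀ w, sympB n F v w = 0 := by
        intro w
        have hw : w ∈ Submodule.span F G := by rw [hspan]; trivial
        have hle : Submodule.span F G ≤ LinearMap.ker (sympB n F v) :=
          Submodule.span_le.2 (fun w hw => LinearMap.mem_ker.2 (hcon w hw))
        exact LinearMap.mem_ker.1 (hle hw)
      exact sympB_nondegenerate.1 v hz
    obtain ⟨w, hwG, hw⟩ := this
    have hw0 : w ≠ 0 := by
      rintro rfl
      exact hw (map_zero _)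
    obtain ⟨e', he'⟩ := hweight w hwG hw0
    have := horth e e'.1 v w hv he' hw
    exact ⟨v, w, hv, by rw [show (⟨e, v, hv0, hv⟩ : X).1 = e'.1 from this]; exact he', hw⟩
  choose vf wf hvf hwf hvw using hpair
  have hcross : ∀ x y : X, ∀ v w : Fin n ⊕ Fin n → F, (∀ a, M a *ᵥ v = sg F (x.1 a) • v) →
      (∀ a, M a *ᵥ w = sg F (y.1 a) • w) → x ≠ y → sympB n F v w = 0 := by
    intro x y v w hv hw hxy
    by_contra hne
    exact hxy (Subtype.ext (horth x.1 y.1 v w hv hw hne))
  have hself : ∀ v, sympB n F v v = 0 := fun v => sympB_isAlt v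
  letI : Fintype X := Fintype.ofFinite X
  have hli : LinearIndependent F (Sum.elim vf wf : X ⊕ X → (Fin n ⊕ Fin n → F)) := by
    rw [Fintype.linearIndependent_iff]
    intro g hg
    rw [Fintype.sum_sum_type] at hg
    simp only [Sum.elim_inl, Sum.elim_inr] at hg
    have key : ∀ u, (∑ x, g (Sum.inl x) * sympB n F (vf x) u) + ∑ x, g (Sum.inr x) * sympB n F (wf x) u = 0 := by
      intro u
      have := congrArg (fun t => sympB n F t u) hg
      simpa [map_add, map_sum, map_smul, LinearMap.add_apply, LinearMap.sum_apply, LinearMap.smul_apply, smul_eq_mul] using this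
    rintro (y | y)
    · have h := key (wf y)
      rw [Finset.sum_eq_single y, Finset.sum_eq_zero, add_zero] at h
      · rcases mul_eq_zero.1 h with h | h
        · exact h
        · exact absurd h (hvw y)
      · intro x _
        by_cases hxy : x = y
        · rw [hxy, hself, mul_zero]
        · rw [hcross x y _ _ (hwf x) (hwf y) hxy, mul_zero]
      · intro x _ hxy
        rw [hcross x y _ _ (hvf x) (hwf y) hxy, mul_zero]
      · intro h; exact absurd (Finset.mem_univ y) h
    · have h := key (vf y)
      rw [Finset.sum_eq_zero, zero_add, Finset.sum_eq_single y] at h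
      · rcases mul_eq_zero.1 h with h | h
        · exact h
        · rw [sympB_neg] at h
          exact absurd (neg_eq_zero.1 h) (hvw y)
      · intro x _ hxy
        rw [hcross x y _ _ (hwf x) (hvf y) hxy, mul_zero]
      · intro h; exact absurd (Finset.mem_univ y) h
      · intro x _
        by_cases hxy : x = y
        · rw [hxy, hself, mul_zero]
        · rw [hcross x y _ _ (hvf x) (hvf y) hxy, mul_zero]
  have hX : Fintype.card X ≤ n := by
    have := hli.fintype_card_le_finrank
    rw [Fintype.card_sum, Module.finrank_fintype_fun_eq_card, Fintype.card_sum, Fintype.card_fin] at this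
    omega
  have hinj : Function.Injective (fun (a : A) (x : X) => x.1 a) := by
    intro a b hab
    apply hM
    have h1 : (M a).mulVecLin = (M b).mulVecLin := by
      refine LinearMap.ext_on hspan ?_
      intro v hv
      show M a *ᵥ v = M b *ᵥ v
      by_cases hv0 : v = 0
      · rw [hv0, Matrix.mulVec_zero, Matrix.mulVec_zero]
      · obtain ⟨e, he⟩ := hweight v hv hv0
        have hb : e.1 a = e.1 b := congrFun hab e
        rw [he a, he b, hb]
    refine Matrix.ext_of_mulVec_single fun i => ?_
    exact congrArg (fun t : (Fin n ⊕ Fin n → F) →ₗ[F] (Fin n ⊕ Fin n → F) => t (Pi.single i 1)) h1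
  calc Nat.card A ≤ Nat.card (X → Bool) := Nat.card_le_card_of_injective _ hinj
    _ = 2 ^ Fintype.card X := by rw [Nat.card_eq_fintype_card, Fintype.card_fun, Fintype.card_bool]
    _ ≤ 2 ^ n := Nat.pow_le_pow_right (by norm_num) hX

end Cfsg.Agent.H20.SpRk
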