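import Mathlib
import Cfsg.Agent.H20.SpRk
import Cfsg.Agent.H7.SylSp2

set_option autoImplicit false
set_option linter.all false

namespace Cfsg.Agent.H20.SpRk

open Matrix Cfsg Cfsg.Agent.H7.SylSp Equiv Subgroup

variable {F : Type*} [Field F] [Fintype F] {n : ℕ}

theorem two_ne (hF : Odd (Fintype.card F)) : (2 : F) ≠ 0 := by
  intro h
  have h1 : addOrderOf (1 : F) ∣ 2 := addOrderOf_dvd_of_nsmul_eq_zero (by simpa using h)
  have h2 : addOrderOf (1 : F) ∣ Fintype.card F := addOrderOf_dvd_card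
  rcases (Nat.dvd_prime Nat.prime_two).1 h1 with h3 | h3
  · exact one_ne_zero (AddMonoid.addOrderOf_eq_one_iff.1 h3)
  · rw [h3] at h2
    exact (Nat.not_even_iff_odd.2 hF) (even_iff_two_dvd.2 h2)

theorem center_sq (z : SpecialLinearGroup (Fin 2) F) (hz : z ∈ Subgroup.center (SpecialLinearGroup (Fin 2) F)) :
    z * z = 1 := by
  obtain ⟨r, hr, hrz⟩ := Matrix.SpecialLinearGroup.mem_center_iff.1 hz
  apply Subtype.ext
  show (z : Matrix (Fin 2) (Fin 2) F) * (z : Matrix (Fin 2) (Fin 2) F) = 1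
  rw [← hrz, ← map_mul]
  have : r * r = 1 := by simpa [sq] using hr
  rw [this, map_one]

theorem center_card (hF : Odd (Fintype.card F)) :
    2 ≤ Nat.card (Subgroup.center (SpecialLinearGroup (Fin 2) F)) := by
  have hdet : Matrix.det (-1 : Matrix (Fin 2) (Fin 2) F) = 1 := by
    simp [Matrix.det_fin_two]
  let m1 : SpecialLinearGroup (Fin 2) F := ⟨-1, hdet⟩
  have hm1 : (m1 : Matrix (Fin 2) (Fin 2) F) = -1 := rfl
  have hmem : m1 ∈ Subgroup.center (SpecialLinearGroup (Fin 2) F) := by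
    refine Matrix.SpecialLinearGroup.mem_center_iff.2 ⟨-1, by simp, ?_⟩
    rw [hm1, map_neg, map_one]
  have hne : (⟨m1, hmem⟩ : Subgroup.center (SpecialLinearGroup (Fin 2) F)) ≠ 1 := by
    intro h
    have h1 : (-1 : Matrix (Fin 2) (Fin 2) F) = 1 := congrArg (fun t : Subgroup.center (SpecialLinearGroup (Fin 2) F) => (t.1.1)) h
    have h2 := congrFun (congrFun h1 0) 0
    simp at h2
    exact two_ne hF (by linear_combination (-1 : F) * h2)
  haveI : Nontrivial (Subgroup.center (SpecialLinearGroup (Fin 2) F)) := ⟨_, _, hne⟩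
  exact Finite.one_lt_card

theorem exists_T (hF : Odd (Fintype.card F)) (n : ℕ) : ∃ T E : Subgroup (symplecticGroup (Fin n) F),
    Nat.card T = 2 ^ (Nat.card (symplecticGroup (Fin n) F)).factorization 2 ∧ E ≤ T ∧
    (∀ t ∈ T, ∀ e ∈ E, t * e * t⁻¹ ∈ E) ∧ (∀ a ∈ E, ∀ b ∈ E, a * b = b * a) ∧
    (∀ a ∈ E, a * a = 1) ∧ 2 ^ n ≤ Nat.card E := by
  classical
  haveI : Fact (Nat.Prime 2) := ⟨Nat.prime_two⟩
  haveI : Finite (symplecticGroup (Fin n) F) := by
    haveI : Finite (Matrix (Fin n ⊕ Fin n) (Fin n ⊕ Fin n) F) := inferInstance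
    exact Subtype.finite
  have hZp : IsPGroup 2 (Subgroup.center (SpecialLinearGroup (Fin 2) F)) := by
    intro z
    exact ⟨1, Subtype.ext (by
      show (z.1 ^ 2 ^ 1 : SpecialLinearGroup (Fin 2) F) = 1
      rw [pow_one, sq]; exact center_sq z.1 z.2)⟩
  obtain ⟨Q, hQ⟩ := hZp.exists_le_sylow
  let R : Sylow 2 (Perm (Fin n)) := default
  let A : Subgroup (symplecticGroup (Fin n) F) :=
    (Subgroup.pi (Set.univ : Set (Fin n)) (fun _ => (Q : Subgroup (SpecialLinearGroup (Fin 2) F)))).map (DHom F n)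
  let B : Subgroup (symplecticGroup (Fin n) F) := (R : Subgroup (Perm (Fin n))).map (PHom F n)
  let E : Subgroup (symplecticGroup (Fin n) F) :=
    (Subgroup.pi (Set.univ : Set (Fin n)) (fun _ => (Subgroup.center (SpecialLinearGroup (Fin 2) F)))).map (DHom F n)
  have hnorm : B ≤ normalizer (A : Set (symplecticGroup (Fin n) F)) := by
    have key : ∀ σ : Perm (Fin n), ∀ a ∈ A, PHom F n σ * a * (PHom F n σ)⁻¹ ∈ A := by
      rintro σ _ ⟨g, hg, rfl⟩
      rw [conj_DHom, mul_inv_cancel_right]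
      exact ⟨_, fun i _ => hg (σ⁻¹ i) (Set.mem_univ _), rfl⟩
    rintro _ ⟨σ, -, rfl⟩
    rw [mem_normalizer_iff]
    intro a
    constructor
    · intro ha
      exact key σ a ha
    · intro ha
      have h1 := key σ⁻¹ _ ha
      rw [map_inv, inv_inv] at h1
      have h2 : (PHom F n σ)⁻¹ * (PHom F n σ * a * (PHom F n σ)⁻¹) * PHom F n σ = a := by group
      rwa [h2] at h1
  have hinf : A ⊓ B = ⊥ := by
    rw [eq_bot_iff]
    rintro _ ⟨⟨g, -, rfl⟩, ⟨σ, -, hσ⟩⟩
    rw [mem_bot, ← hσ, DHom_eq_PHom hσ.symm, map_one]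
  have hcard : Nat.card (A ⊔ B : Subgroup (symplecticGroup (Fin n) F))
      = 2 ^ (Nat.card (symplecticGroup (Fin n) F)).factorization 2 := by
    have h1 := H1.card_sup_mul_card_inf_of_le_normalizer hnorm
    rw [hinf, card_bot, mul_one] at h1
    have h2 : Nat.card A = (2 ^ (Nat.card (SpecialLinearGroup (Fin 2) F)).factorization 2) ^ n := by
      rw [← Q.card_eq_multiplicity, ← card_pi]
      exact (Nat.card_congr (equivMapOfInjective _ (DHom F n) DHom_injective).toEquiv).symm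
    have h3 : Nat.card B = 2 ^ (n.factorial.factorization 2) := by
      have h4 : (Nat.card (Perm (Fin n))) = n.factorial := by
        rw [Nat.card_eq_fintype_card, Fintype.card_perm, Fintype.card_fin]
      rw [← h4, ← R.card_eq_multiplicity]
      exact (Nat.card_congr (equivMapOfInjective _ (PHom F n) PHom_injective).toEquiv).symm
    rw [h1, h2, h3, val_Sp rfl hF, ← pow_mul, ← pow_add]
    congr 1
    ring
  refine ⟨A ⊔ B, E, hcard, ?_, ?_, ?_, ?_, ?_⟩
  · refine le_trans ?_ le_sup_left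
    exact Subgroup.map_mono (fun g hg i hi => hQ (hg i hi))
  · have hAE : ∀ t ∈ A, ∀ e ∈ E, t * e * t⁻¹ ∈ E := by
      rintro _ ⟨g, hg, rfl⟩ _ ⟨z, hz, rfl⟩
      refine ⟨z, hz, ?_⟩
      rw [← map_mul, ← map_inv, ← map_mul]
      congr 1
      funext i
      have := Subgroup.mem_center_iff.1 (hz i (Set.mem_univ i)) (g i)
      show z i = g i * z i * (g i)⁻¹
      rw [this, mul_inv_cancel_right]
    have hBE : ∀ t ∈ B, ∀ e ∈ E, t * e * t⁻¹ ∈ E := by
      rintro _ ⟨σ, -, rfl⟩ _ ⟨g, hg, rfl⟩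
      rw [conj_DHom, mul_inv_cancel_right]
      exact ⟨_, fun i _ => hg (σ⁻¹ i) (Set.mem_univ _), rfl⟩
    have hgen : ∀ K : Subgroup (symplecticGroup (Fin n) F), (∀ t ∈ K, ∀ e ∈ E, t * e * t⁻¹ ∈ E) →
        K ≤ normalizer (E : Set (symplecticGroup (Fin n) F)) := by
      intro K hK t ht
      rw [mem_normalizer_iff]
      intro a
      constructor
      · intro ha
        exact hK t ht a ha
      · intro ha
        have h1 := hK t⁻¹ (inv_mem ht) _ ha
        have h2 : t⁻¹ * (t * a * t⁻¹) * t⁻¹⁻¹ = a := by group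
        rwa [h2] at h1
    intro t ht e he
    have hle : A ⊔ B ≤ normalizer (E : Set (symplecticGroup (Fin n) F)) := sup_le (hgen A hAE) (hgen B hBE)
    exact (mem_normalizer_iff.1 (hle ht) e).1 he
  · rintro _ ⟨g, hg, rfl⟩ _ ⟨z, hz, rfl⟩
    rw [← map_mul, ← map_mul]
    congr 1
    funext i
    exact Subgroup.mem_center_iff.1 (hz i (Set.mem_univ i)) (g i)
  · rintro _ ⟨g, hg, rfl⟩
    rw [← map_mul]
    have : g * g = 1 := by
      funext i
      exact center_sq (g i) (hg i (Set.mem_univ i))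
    rw [this, map_one]
  · have h2 : Nat.card E = (Nat.card (Subgroup.center (SpecialLinearGroup (Fin 2) F))) ^ n := by
      rw [← card_pi]
      exact (Nat.card_congr (equivMapOfInjective _ (DHom F n) DHom_injective).toEquiv).symm
    rw [h2]
    exact Nat.pow_le_pow_left (center_card hF) n

end Cfsg.Agent.H20.SpRk
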